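/-
Orders of the one-dimensional affine and semiaffine groups over a finite field.
-/
import Cfsg.Prelude.Def_Perm
import Mathlib

set_option autoImplicit false

namespace CfsgLib.SchurExt

open Equiv

variable (F : Type*) [Field F]

/-- The permutation `x ↦ a σ(x) + b`. -/
def semiPerm (b : F) (a : Fˣ) (σ : F ≃+* F) : Equiv.Perm F :=
  (σ.toEquiv.trans (Equiv.mulLeft₀ (a : F) a.ne_zero)).trans (Equiv.addRight b)

variable {F}

@[simp] theorem semiPerm_apply (b : F) (a : Fˣ) (σ : F ≃+* F) (x : F) :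
    semiPerm F b a σ x = (a : F) * σ x + b := rfl

theorem semiPerm_mem (b : F) (a : Fˣ) (σ : F ≃+* F) : semiPerm F b a σ ∈ Cfsg.semiaffineGroup F :=
  ⟨a, b, σ, fun _ => rfl⟩

theorem semiPerm_injective :
    Function.Injective (fun t : F × Fˣ × (F ≃+* F) => semiPerm F t.1 t.2.1 t.2.2) := by
  rintro ⟨b, a, σ⟩ ⟨b', a', σ'⟩ h
  have h' : ∀ x, (a : F) * σ x + b = (a' : F) * σ' x + b' := fun x =>
    congrArg (fun π : Equiv.Perm F => π x) h
  have hb : b = b' := by simpa using h' 0
  subst hb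
  have ha : a = a' := by
    have := h' 1
    simp only [map_one, mul_one, add_left_inj] at this
    exact Units.ext this
  subst ha
  have hσ : σ = σ' := RingEquiv.ext fun x => by
    have := h' x
    simp only [add_left_inj, mul_eq_mul_left_iff] at this
    exact this.resolve_right a.ne_zero
  rw [hσ]

theorem natCard_semiaffine :
    Nat.card (Cfsg.semiaffineGroup F) = Nat.card F * (Nat.card Fˣ * Nat.card (F ≃+* F)) := by
  rw [← Nat.card_prod, ← Nat.card_prod]
  refine (Nat.card_eq_of_bijective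
    (fun t : F × Fˣ × (F ≃+* F) => (⟨semiPerm F t.1 t.2.1 t.2.2, semiPerm_mem _ _ _⟩ :
      Cfsg.semiaffineGroup F)) ⟨fun s t h => semiPerm_injective (congrArg Subtype.val h), ?_⟩).symm
  rintro ⟨π, a, b, σ, hπ⟩
  exact ⟨(b, a, σ), Subtype.ext (Equiv.ext fun x => (hπ x).symm)⟩

theorem natCard_semiaffine_stabilizer :
    Nat.card ↥(Cfsg.semiaffineGroup F ⊓ MulAction.stabilizer (Equiv.Perm F) (0 : F))
      = Nat.card Fˣ * Nat.card (F ≃+* F) := by
  rw [← Nat.card_prod]
  refine (Nat.card_eq_of_bijective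
    (fun t : Fˣ × (F ≃+* F) => (⟨semiPerm F 0 t.1 t.2, semiPerm_mem _ _ _, by
      show semiPerm F 0 t.1 t.2 0 = 0
      simp⟩ : ↥(Cfsg.semiaffineGroup F ⊓ MulAction.stabilizer (Equiv.Perm F) (0 : F))))
    ⟨fun s t h => ?_, ?_⟩).symm
  · have := semiPerm_injective (a₁ := ((0 : F), s.1, s.2)) (a₂ := ((0 : F), t.1, t.2))
      (congrArg Subtype.val h)
    exact (Prod.mk.injEq _ _ _ _ ▸ this).2
  · rintro ⟨π, ⟨a, b, σ, hπ⟩, h0⟩
    have hb : b = 0 := by
      have : π 0 = 0 := h0
      rw [hπ] at this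
      simpa using this
    exact ⟨(a, σ), Subtype.ext (Equiv.ext fun x => by simp [hπ x, hb])⟩

theorem affine_le_semiaffine : Cfsg.affineGroup F ≤ Cfsg.semiaffineGroup F := by
  rintro π ⟨a, b, h⟩
  exact ⟨a, b, RingEquiv.refl F, h⟩

theorem natCard_affine : Nat.card (Cfsg.affineGroup F) = Nat.card F * Nat.card Fˣ := by
  rw [← Nat.card_prod]
  refine (Nat.card_eq_of_bijective
    (fun t : F × Fˣ => (⟨semiPerm F t.1 t.2 (RingEquiv.refl F), t.2, t.1, fun _ => rfl⟩ :
      Cfsg.affineGroup F)) ⟨fun s t h => ?_, ?_⟩).symm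
  · have := semiPerm_injective (a₁ := (s.1, s.2, RingEquiv.refl F)) (a₂ := (t.1, t.2, RingEquiv.refl F))
      (congrArg Subtype.val h)
    simp only [Prod.mk.injEq] at this
    exact Prod.ext this.1 this.2.1
  · rintro ⟨π, a, b, hπ⟩
    exact ⟨(b, a), Subtype.ext (Equiv.ext fun x => (hπ x).symm)⟩

/-- The automorphism group of `GF(p^n)` has order `n`. -/
theorem natCard_ringEquiv_galoisField (p n : ℕ) [Fact p.Prime] (hn : n ≠ 0) :
    Nat.card (GaloisField p n ≃+* GaloisField p n) = n := by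
  have e : (GaloisField p n ≃+* GaloisField p n) ≃
      (GaloisField p n ≃ₐ[ZMod p] GaloisField p n) :=
    { toFun := fun σ => AlgEquiv.ofRingEquiv (f := σ) fun c => by
        exact RingHom.congr_fun (RingHom.ext_zmod ((σ : GaloisField p n →+* GaloisField p n).comp
          (algebraMap (ZMod p) (GaloisField p n))) (algebraMap (ZMod p) (GaloisField p n))) c
      invFun := fun σ => σ.toRingEquiv
      left_inv := fun σ => RingEquiv.ext fun _ => rfl
      right_inv := fun σ => AlgEquiv.ext fun _ => rfl }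
  rw [Nat.card_congr e, IsGalois.card_aut_eq_finrank, GaloisField.finrank p hn]

theorem natCard_units_galoisField (p n : ℕ) [Fact p.Prime] (hn : n ≠ 0) :
    Nat.card (GaloisField p n)ˣ = p ^ n - 1 := by
  rw [Nat.card_units, GaloisField.card p n hn]

end CfsgLib.SchurExt
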