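/-
Solvable linear `p'`-groups transitive on the lines and on the planes of a space of dimension `≥ 3`.
-/
import Cfsg.Agent.Lib.SchurExt.SemiaffineCard
import Cfsg.Agent.Lib.Hall.Existence
import Cfsg.Agent.S3360

set_option autoImplicit false

open scoped Pointwise commutatorElement

namespace CfsgLib.SchurExt

/-- No solvable group of linear bijections of a group of order `81` has order divisible by `65`. -/
theorem no_eightyone {M : Type*} [AddCommGroup M] (hM : Nat.card M = 81)
    {X : Type*} [Group X] [Finite X] [Group.IsSolvable X] [DistribMulAction X M] [FaithfulSMul X M]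
    (h5 : 5 ∣ Nat.card X) (h13 : 13 ∣ Nat.card X) : False := by
  classical
  have : Finite M := Nat.finite_of_card_ne_zero (by omega)
  obtain ⟨U, hU, hUi⟩ := CfsgLib.Hall.exists_isPiHall (G := X) ({5, 13} : Set ℕ)
  have hUdvd : ∀ r : ℕ, r.Prime → r ∈ ({5, 13} : Set ℕ) → r ∣ Nat.card X → r ∣ Nat.card U := by
    intro r hr hrπ hrX
    rw [← U.card_mul_index] at hrX
    exact (hr.dvd_mul.1 hrX).resolve_right (hUi r hr hrπ)
  have h5U := hUdvd 5 (by norm_num) (by simp) h5
  have h13U := hUdvd 13 (by norm_num) (by simp) h13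
  have hF5 : Fact (Nat.Prime 5) := ⟨by norm_num⟩
  have hF13 : Fact (Nat.Prime 13) := ⟨by norm_num⟩
  -- fixed points
  have fixcard : ∀ (r : ℕ), r.Prime → ∀ S : Subgroup X, IsPGroup r S → S ≠ ⊥ →
      ∃ k, k < 4 ∧ Nat.card (MulAction.fixedPoints S M) = 3 ^ k ∧ 81 % r = 3 ^ k % r := by
    intro r hr S hS hne
    haveI := Fact.mk hr
    let W : AddSubgroup M :=
      { carrier := MulAction.fixedPoints S M
        add_mem' := fun {a b} ha hb s => by rw [smul_add, ha s, hb s]
        zero_mem' := fun s => smul_zero s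
        neg_mem' := fun {a} ha s => by rw [smul_neg, ha s] }
    have hW : Nat.card W ∣ 81 := hM ▸ W.card_addSubgroup_dvd_card
    obtain ⟨k, hk, hk'⟩ := (Nat.dvd_prime_pow (by norm_num : Nat.Prime 3)).1
      (by simpa using hW : Nat.card W ∣ 3 ^ 4)
    have hk'' : Nat.card (MulAction.fixedPoints S M) = 3 ^ k := hk'
    refine ⟨k, ?_, hk'', ?_⟩
    · rcases Nat.lt_or_ge k 4 with h | h
      · exact h
      exfalso
      apply hne
      have htop : W = ⊤ := AddSubgroup.eq_top_of_card_eq W (by rw [hk', hM, le_antisymm hk h]; norm_num)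
      rw [Subgroup.eq_bot_iff_forall]
      intro s hs
      refine FaithfulSMul.eq_of_smul_eq_smul (α := M) fun a => ?_
      rw [one_smul]
      have : a ∈ W := htop ▸ AddSubgroup.mem_top a
      exact this ⟨s, hs⟩
    · have := hS.card_modEq_card_fixedPoints M
      rw [hM, hk''] at this
      exact this
  -- a nontrivial subgroup of order a power of 13 whose fixed points are preserved by an element of
  -- order 5 is impossible
  have key : ∀ (S : Subgroup X) (b : X), IsPGroup 13 S → S ≠ ⊥ → orderOf b = 5 →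
      (∀ s ∈ S, b⁻¹ * s * b ∈ S) → False := by
    intro S b hS hne hb hnorm
    obtain ⟨k, hk4, hk, hmod⟩ := fixcard 13 (by norm_num) S hS hne
    have hk1 : k = 1 := by
      interval_cases k <;> simp at hmod <;> rfl
    subst hk1
    have hB : IsPGroup 5 (Subgroup.zpowers b) :=
      IsPGroup.of_card (n := 1) (by rw [Nat.card_zpowers, hb, pow_one])
    have hb1 : b ≠ 1 := fun h => by simp [h] at hb
    obtain ⟨j, hj4, hj, hjmod⟩ := fixcard 5 (by norm_num) _ hB (by simpa using hb1)
    have hj0 : j = 0 := by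
      interval_cases j <;> simp at hjmod <;> rfl
    subst hj0
    -- `b` permutes the three fixed points of `S`
    set W := MulAction.fixedPoints S M with hW
    have hbW : ∀ w ∈ W, b • w ∈ W := by
      intro w hw s
      show (s : X) • b • w = b • w
      have h1 : (b⁻¹ * (s : X) * b) • w = w := hw ⟨_, hnorm _ s.2⟩
      conv_rhs => rw [← h1]
      rw [smul_smul, smul_smul]
      congr 1
      group
    have hsub : (MulAction.fixedPoints (Subgroup.zpowers b) M) = {0} := by
      have h0 : (0 : M) ∈ MulAction.fixedPoints (Subgroup.zpowers b) M := fun s => smul_zero _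
      obtain ⟨x, hx⟩ := Set.ncard_eq_one.1 (by simpa using hj :
        (MulAction.fixedPoints (Subgroup.zpowers b) M).ncard = 1)
      rw [hx] at h0
      rw [hx, Set.mem_singleton_iff.1 h0]
    -- an element of order five fixes three points
    obtain ⟨w, hw, hw0⟩ : ∃ w ∈ W, w ≠ 0 := by
      by_contra h
      push Not at h
      have : Nat.card W ≤ 1 := by
        rw [Nat.card_coe_set_eq]
        exact (Set.ncard_le_one (Set.toFinite _)).2 fun a ha c hc => (h a ha).trans (h c hc).symm
      omega
    let π : Equiv.Perm W := Equiv.ofBijective (fun x : W => (⟨b • (x : M), hbW _ x.2⟩ : W))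
      (Finite.injective_iff_bijective.1 fun x y h =>
        Subtype.ext (smul_left_cancel b (congrArg Subtype.val h)))
    have hπ : ∀ (i : ℕ) (x : W), (((π ^ i) x : W) : M) = b ^ i • (x : M) := by
      intro i
      induction i with
      | zero => intro x; simp
      | succ i ih =>
        intro x
        rw [pow_succ', Equiv.Perm.mul_apply, pow_succ', mul_smul, ← ih]
        rfl
    have hπ5 : π ^ 5 = 1 := Equiv.ext fun x => Subtype.ext (by
      rw [hπ, ← hb, pow_orderOf_eq_one, one_smul]; rfl)
    have hπ6 : orderOf π ∣ 6 := by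
      have h6 : Nat.card (Equiv.Perm W) = 6 := by rw [Nat.card_perm, hk]; rfl
      exact h6 ▸ orderOf_dvd_natCard π
    have hπ1 : π = 1 := by
      rw [← orderOf_eq_one_iff]
      exact Nat.eq_one_of_dvd_coprimes (by norm_num : Nat.Coprime 6 5) hπ6
        (orderOf_dvd_of_pow_eq_one hπ5)
    have hwfix : w ∈ MulAction.fixedPoints (Subgroup.zpowers b) M := by
      rintro ⟨s, hs⟩
      obtain ⟨m, rfl⟩ := mem_powers_iff_mem_zpowers.2 hs
      show b ^ m • w = w
      have := hπ m ⟨w, hw⟩
      rw [hπ1, one_pow] at this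
      exact this.symm
    rw [hsub] at hwfix
    exact hw0 hwfix
  -- the last term of the derived series
  have hsolU : Group.IsSolvable U := inferInstance
  have hUne : Nontrivial U :=
    (Finite.one_lt_card_iff_nontrivial).1 (lt_of_lt_of_le (by norm_num) (Nat.le_of_dvd Nat.card_pos h5U))
  obtain ⟨k, hk⟩ := hsolU.solvable
  obtain ⟨m, hm, hm1⟩ : ∃ m, derivedSeries U m ≠ ⊥ ∧ derivedSeries U (m + 1) = ⊥ := by
    by_contra hno
    push Not at hno
    have : ∀ i, derivedSeries U i ≠ ⊥ := by
      intro i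
      induction i with
      | zero => simp
      | succ i ih => exact hno i ih
    exact this k hk
  set A := derivedSeries U m with hA
  have hAn : A.Normal := derivedSeries_normal _ _
  have hAcomm : ∀ a ∈ A, ∀ c ∈ A, a * c = c * a := by
    intro a ha c hc
    have : ⁅a, c⁆ ∈ derivedSeries U (m + 1) := by
      rw [derivedSeries_succ]; exact Subgroup.commutator_mem_commutator ha hc
    rw [hm1, Subgroup.mem_bot, commutatorElement_eq_one_iff_mul_comm] at this
    exact this
  let T : ℕ → Subgroup X := fun r => Subgroup.map U.subtype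
    { carrier := {a | a ∈ A ∧ a ^ r = 1}
      mul_mem' := fun {a c} ha hc => ⟨mul_mem ha.1 hc.1, by
        rw [Commute.mul_pow (hAcomm a ha.1 c hc.1), ha.2, hc.2, one_mul]⟩
      one_mem' := ⟨one_mem A, one_pow r⟩
      inv_mem' := fun {a} ha => ⟨inv_mem ha.1, by rw [inv_pow, ha.2, inv_one]⟩ }
  have hTp : ∀ r, r.Prime → IsPGroup r (T r) := by
    rintro r - ⟨s, t, ⟨-, ht⟩, rfl⟩
    exact ⟨1, Subtype.ext (by rw [pow_one]; show ((t : X)) ^ r = 1; rw [← Subgroup.coe_pow, ht]; rfl)⟩
  have hTn : ∀ r, ∀ s ∈ T r, ∀ b ∈ U, b⁻¹ * s * b ∈ T r := by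
    rintro r _ ⟨t, ⟨htA, ht⟩, rfl⟩ b hb
    refine ⟨(⟨b, hb⟩ : U)⁻¹ * t * ⟨b, hb⟩, ⟨?_, ?_⟩, rfl⟩
    · simpa using hAn.conj_mem t htA (⟨b, hb⟩ : U)⁻¹
    · rw [show (⟨b, hb⟩ : U)⁻¹ * t * ⟨b, hb⟩ = (⟨b, hb⟩ : U)⁻¹ * t * ((⟨b, hb⟩ : U)⁻¹)⁻¹ by
        rw [inv_inv], conj_pow, ht]
      simp
  have hTne : ∀ r, r.Prime → r ∣ Nat.card A → T r ≠ ⊥ := by
    intro r hr hd
    haveI := Fact.mk hr
    obtain ⟨a, ha⟩ := exists_prime_orderOf_dvd_card' r hd
    intro hbot
    have hmem : ((a : U) : X) ∈ T r := ⟨a, ⟨a.2, by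
      rw [← Subgroup.coe_pow, ← ha, pow_orderOf_eq_one]; rfl⟩, rfl⟩
    rw [hbot, Subgroup.mem_bot] at hmem
    have : a = 1 := Subtype.ext (Subtype.ext hmem)
    rw [this, orderOf_one] at ha
    exact hr.ne_one ha.symm
  obtain ⟨b0, hb0⟩ := exists_prime_orderOf_dvd_card' 5 h5U
  have hb0' : orderOf (b0 : X) = 5 := by rw [Subgroup.orderOf_coe, hb0]
  by_cases h13A : 13 ∣ Nat.card A
  · exact key (T 13) b0 (hTp 13 (by norm_num)) (hTne 13 (by norm_num) h13A) hb0'
      fun s hs => hTn 13 s hs _ b0.2
  -- otherwise `A` contains a subgroup of order five normalized by an element of order thirteen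
  have h5A : 5 ∣ Nat.card A := by
    have h1 : Nat.card A ≠ 1 := fun h => hm (Subgroup.eq_bot_of_card_eq _ h)
    obtain ⟨r, hr, hrA⟩ := Nat.exists_prime_and_dvd h1
    have := hU r hr (hrA.trans A.card_subgroup_dvd_card)
    rcases this with rfl | h
    · exact hrA
    · rw [Set.mem_singleton_iff] at h; subst h; exact absurd hrA h13A
  obtain ⟨u0, hu0⟩ := exists_prime_orderOf_dvd_card' 13 h13U
  set u : X := (u0 : X) with hu_def
  have hu : orderOf u = 13 := by rw [hu_def, Subgroup.orderOf_coe, hu0]
  set S := T 5 with hS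
  -- `S` acts freely on the nonzero vectors, so has order five
  have hfree : ∀ x : M, x ≠ 0 → MulAction.stabilizer S x = ⊥ := by
    intro x hx
    by_contra hst
    have hp5 : IsPGroup 5 ((MulAction.stabilizer S x).map S.subtype) :=
      ((hTp 5 (by norm_num)).to_subgroup _).map _
    obtain ⟨j, hj4, hj, hjmod⟩ := fixcard 5 (by norm_num) _ hp5
      (by rwa [Ne, Subgroup.map_eq_bot_iff_of_injective _ S.subtype_injective])
    have hj0 : j = 0 := by
      interval_cases j <;> simp at hjmod <;> rfl
    subst hj0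
    obtain ⟨z, hz⟩ := Set.ncard_eq_one.1 (by simpa using hj :
      (MulAction.fixedPoints ((MulAction.stabilizer S x).map S.subtype) M).ncard = 1)
    have h0 : (0 : M) ∈ MulAction.fixedPoints ((MulAction.stabilizer S x).map S.subtype) M :=
      fun s => smul_zero _
    have hxm : x ∈ MulAction.fixedPoints ((MulAction.stabilizer S x).map S.subtype) M := by
      rintro ⟨_, s, hs, rfl⟩
      exact hs
    rw [hz, Set.mem_singleton_iff] at h0 hxm
    exact hx (hxm.trans h0.symm)
  obtain ⟨x, hx⟩ : ∃ x : M, x ≠ 0 := by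
    haveI : Nontrivial M := Finite.one_lt_card_iff_nontrivial.1 (by omega)
    exact exists_ne 0
  have hS81 : Nat.card S ≤ 81 := by
    rw [← hM]
    refine Nat.card_le_card_of_injective (fun s : S => s • x) fun s t h => ?_
    have : t⁻¹ * s ∈ MulAction.stabilizer S x := by
      show (t⁻¹ * s) • x = x
      rw [mul_smul, show s • x = t • x from h, inv_smul_smul]
    rw [hfree x hx, Subgroup.mem_bot, inv_mul_eq_one] at this
    exact this.symm
  have hScard : Nat.card S = 5 := by
    haveI := Fact.mk (by norm_num : Nat.Prime 5)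
    obtain ⟨k, hk⟩ := IsPGroup.iff_card.1 (hTp 5 (by norm_num))
    have hk0 : k ≠ 0 := by
      rintro rfl
      exact hTne 5 (by norm_num) h5A (Subgroup.eq_bot_of_card_eq _ hk)
    have hk3 : k < 3 := by
      by_contra h
      push Not at h
      have : 5 ^ 3 ≤ 5 ^ k := Nat.pow_le_pow_right (by norm_num) h
      rw [hS] at hS81
      omega
    obtain rfl | rfl : k = 1 ∨ k = 2 := by omega
    · rw [pow_one] at hk; exact hk
    · -- order 25: count the orbits
      exfalso
      have hmod : Nat.card {y : M // y ≠ 0} % 25 = 0 := by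
        letI : MulAction S {y : M // y ≠ 0} :=
          { smul := fun s y => ⟨(s : X) • (y : M), fun h => y.2 (by
              have := congrArg ((s : X)⁻¹ • ·) h
              simpa [inv_smul_smul] using this)⟩
            one_smul := fun y => Subtype.ext (one_smul X (y : M))
            mul_smul := fun s t y => Subtype.ext (mul_smul (s : X) (t : X) (y : M)) }
        have e := MulAction.selfEquivSigmaOrbits S {y : M // y ≠ 0}
        haveI : Fintype (MulAction.orbitRel.Quotient S {y : M // y ≠ 0}) := Fintype.ofFinite _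
        rw [Nat.card_congr e, Nat.card_sigma]
        have : ∀ o : Quotient (MulAction.orbitRel S {y : M // y ≠ 0}),
            Nat.card (MulAction.orbit S o.out) = 25 := by
          intro o
          rw [Nat.card_congr (MulAction.orbitEquivQuotientStabilizer S o.out)]
          have hb : MulAction.stabilizer S o.out = ⊥ := by
            rw [← le_bot_iff, ← hfree _ o.out.2]
            intro s hs
            exact congrArg Subtype.val hs
          rw [hb, ← Subgroup.index, Subgroup.index_bot, hS, hk]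
          norm_num
        rw [Finset.sum_congr rfl fun o _ => this o, Finset.sum_const, smul_eq_mul]
        simp
      have h80 : Nat.card {y : M // y ≠ 0} = 80 := by
        have : Fintype M := Fintype.ofFinite _
        rw [Nat.card_eq_fintype_card, Fintype.card_subtype_compl, Fintype.card_subtype_eq,
          ← Nat.card_eq_fintype_card, hM]
      omega
  have hcom : ∀ s ∈ S, u * s = s * u := by
    let c : MulAut S :=
      { toFun := fun s => ⟨u⁻¹ * s * u, hTn 5 s s.2 u u0.2⟩
        invFun := fun s => ⟨u * s * u⁻¹, by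
          have := hTn 5 s s.2 u⁻¹ (U.inv_mem u0.2); simpa using this⟩
        left_inv := fun s => Subtype.ext (by simp only; group)
        right_inv := fun s => Subtype.ext (by simp only; group)
        map_mul' := fun s t => Subtype.ext (by simp only [Subgroup.coe_mul]; group) }
    have hcpow : ∀ (i : ℕ) (s : S), (((c ^ i) s : S) : X) = (u⁻¹) ^ i * s * u ^ i := by
      intro i
      induction i with
      | zero => intro s; simp
      | succ i ih =>
        intro s
        rw [pow_succ', MulAut.mul_apply]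
        show u⁻¹ * ((c ^ i) s : S) * u = _
        rw [ih, pow_succ', pow_succ]
        group
    have hc13 : c ^ 13 = 1 := MulEquiv.ext fun s => Subtype.ext (by
      rw [hcpow, inv_pow, ← hu, pow_orderOf_eq_one]; simp)
    haveI : IsCyclic S := isCyclic_of_prime_card hScard
    have hc4 : Nat.card (MulAut S) = 4 := by
      rw [IsCyclic.card_mulAut, hScard]; rfl
    have hc1 : c = 1 := by
      rw [← orderOf_eq_one_iff]
      exact Nat.eq_one_of_dvd_coprimes (by norm_num : Nat.Coprime 4 13)
        (hc4 ▸ orderOf_dvd_natCard c) (orderOf_dvd_of_pow_eq_one hc13)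
    intro s hs
    have h := congrArg (fun f : MulAut S => ((f ⟨s, hs⟩ : S) : X)) hc1
    have h' : u⁻¹ * s * u = s := h
    conv_lhs => rw [← h']
    group
  obtain ⟨b1, hb1⟩ := exists_prime_orderOf_dvd_card' 5 (dvd_of_eq hScard.symm)
  have hb1' : orderOf (b1 : X) = 5 := by rw [Subgroup.orderOf_coe, hb1]
  refine key (Subgroup.zpowers u) (b1 : X) (IsPGroup.of_card (n := 1)
    (by rw [Nat.card_zpowers, hu, pow_one])) ?_ hb1' ?_
  · simp only [ne_eq, Subgroup.zpowers_eq_bot]
    intro h; rw [h, orderOf_one] at hu; omega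
  · rintro s ⟨i, rfl⟩
    have hc : Commute u (b1 : X) := hcom _ b1.2
    refine ⟨i, ?_⟩
    rw [mul_assoc, (hc.zpow_left i).eq, inv_mul_cancel_left]

/-- The number of planes times the number of bases of a plane. -/
theorem natCard_planes (p : ℕ) [Fact p.Prime] {V : Type*} [AddCommGroup V] [Module (ZMod p) V]
    [Finite V] (hn : 2 ≤ Module.finrank (ZMod p) V) :
    Nat.card {W : Submodule (ZMod p) V // Module.finrank (ZMod p) W = 2} * ((p ^ 2 - 1) * (p ^ 2 - p))
      = (p ^ Module.finrank (ZMod p) V - 1) * (p ^ Module.finrank (ZMod p) V - p) := by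
  classical
  set n := Module.finrank (ZMod p) V with hnn
  have hcnt : ∀ (M : Type _) [AddCommGroup M] [Module (ZMod p) M] [Finite M],
      2 ≤ Module.finrank (ZMod p) M →
      Nat.card {s : Fin 2 → M // LinearIndependent (ZMod p) s}
        = (p ^ Module.finrank (ZMod p) M - 1) * (p ^ Module.finrank (ZMod p) M - p) := by
    intro M _ _ _ h
    rw [card_linearIndependent h, Fin.prod_univ_two]
    simp [ZMod.card]
  rw [← hcnt V hn]
  set P := {W : Submodule (ZMod p) V // Module.finrank (ZMod p) W = 2} with hP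
  have hfin : Finite P := Finite.of_injective (fun W : P => ((W : Submodule (ZMod p) V) : Set V))
    (fun a b h => Subtype.ext (SetLike.coe_injective h))
  let Φ : {s : Fin 2 → V // LinearIndependent (ZMod p) s} → P := fun s =>
    ⟨Submodule.span (ZMod p) (Set.range s.1), by rw [finrank_span_eq_card s.2, Fintype.card_fin]⟩
  haveI : Fintype P := Fintype.ofFinite P
  rw [← Nat.card_congr (Equiv.sigmaFiberEquiv Φ), Nat.card_sigma]
  have hfib : ∀ W : P, Nat.card {s // Φ s = W} = (p ^ 2 - 1) * (p ^ 2 - p) := by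
    intro W
    have h2 : (p ^ 2 - 1) * (p ^ 2 - p)
        = Nat.card {s : Fin 2 → (W : Submodule (ZMod p) V) // LinearIndependent (ZMod p) s} := by
      rw [hcnt _ (le_of_eq W.2.symm), W.2]
    rw [h2]
    refine Nat.card_congr
      { toFun := fun s => ⟨fun i => ⟨s.1.1 i, ?_⟩, ?_⟩
        invFun := fun t => ⟨⟨fun i => ((t.1 i : (W : Submodule (ZMod p) V)) : V), ?_⟩, ?_⟩
        left_inv := fun s => rfl
        right_inv := fun t => rfl }
    · have := congrArg Subtype.val s.2
      rw [← this]
      exact Submodule.subset_span ⟨i, rfl⟩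
    · exact LinearIndependent.of_comp (W : Submodule (ZMod p) V).subtype s.1.2
    · exact t.2.map' (W : Submodule (ZMod p) V).subtype (Submodule.ker_subtype _)
    · apply Subtype.ext
      show Submodule.span (ZMod p) _ = (W : Submodule (ZMod p) V)
      apply Submodule.eq_of_le_of_finrank_eq
      · rw [Submodule.span_le]
        rintro _ ⟨i, rfl⟩
        exact (t.1 i).2
      · rw [finrank_span_eq_card, Fintype.card_fin, W.2]
        exact t.2.map' (W : Submodule (ZMod p) V).subtype (Submodule.ker_subtype _)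
  rw [Finset.sum_congr rfl fun W _ => hfib W, Finset.sum_const, smul_eq_mul, Finset.card_univ,
    Nat.card_eq_fintype_card]

theorem succ_mul_sq_lt_pow {p : ℕ} (hp : 2 ≤ p) {m : ℕ} (hm : 5 ≤ m) :
    (m + 1) * p ^ 2 < p ^ m := by
  induction m, hm using Nat.le_induction with
  | base =>
    have : 8 ≤ p ^ 3 := le_trans (by norm_num) (Nat.pow_le_pow_left hp 3)
    rw [show p ^ 5 = p ^ 3 * p ^ 2 by ring]
    exact Nat.mul_lt_mul_of_pos_right (by omega) (by positivity)
  | succ j _ ih =>
    rw [pow_succ p j]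
    calc (j + 1 + 1) * p ^ 2 ≤ (j + 1) * p ^ 2 * 2 := by nlinarith
      _ < p ^ j * 2 := by linarith
      _ ≤ p ^ j * p := Nat.mul_le_mul_left _ hp

/-- A solvable `p'`-group of linear maps of an `n`-dimensional space, `n ≥ 3`, transitive on lines and
on planes: `n = 3`, or `n = 5` and `p = 2`, and it is semilinear over the field with `p ^ n` elements. -/
theorem lineTransitive_solvable {p : ℕ} [Fact p.Prime] {V : Type*} [AddCommGroup V] [Module (ZMod p) V]
    [Finite V] {X : Type*} [Group X] [Finite X] [Group.IsSolvable X]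
    (ρ : X →* (V ≃ₗ[ZMod p] V)) (hρ : Function.Injective ρ)
    (n : ℕ) (hn : Module.finrank (ZMod p) V = n) (hn3 : 3 ≤ n) (hp' : ¬ p ∣ Nat.card X)
    (hline : ∀ v w : V, v ≠ 0 → w ≠ 0 → ∃ (x : X) (c : ZMod p), ρ x v = c • w)
    (hplane : ∀ W W' : Submodule (ZMod p) V, Module.finrank (ZMod p) W = 2 →
      Module.finrank (ZMod p) W' = 2 → ∃ x : X, W.map (ρ x : V →ₗ[ZMod p] V) = W') :
    (n = 3 ∨ (n = 5 ∧ p = 2)) ∧
      (∃ e : V ≃+ GaloisField p n, ∀ x : X, ∃ (a : GaloisField p n)
        (σ : GaloisField p n ≃+* GaloisField p n), ∀ v : V, e (ρ x v) = a * σ (e v)) ∧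
      Nat.card X ∣ (p ^ n - 1) * n ∧ p ^ n - 1 ∣ Nat.card X * (p - 1) ∧
      Nat.card {W : Submodule (ZMod p) V // Module.finrank (ZMod p) W = 2} ∣ Nat.card X := by
  classical
  have hp : p.Prime := Fact.out
  have hp2 : 2 ≤ p := hp.two_le
  have hcV : Nat.card V = p ^ n := by
    rw [Module.natCard_eq_pow_finrank (K := ZMod p), Nat.card_zmod, hn]
  have hpn : 1 < p ^ n := Nat.one_lt_pow (by omega) hp.one_lt
  haveI : Nontrivial V := Finite.one_lt_card_iff_nontrivial.1 (by omega)
  -- adjoin the scalars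
  let sc : (ZMod p)ˣ →* (V ≃ₗ[ZMod p] V) :=
    { toFun := fun c => LinearEquiv.smulOfUnit c
      map_one' := LinearEquiv.ext fun v => one_smul _ v
      map_mul' := fun c d => LinearEquiv.ext fun v => mul_smul (c : ZMod p) (d : ZMod p) v }
  have hscap : ∀ (c : (ZMod p)ˣ) (v : V), sc c v = (c : ZMod p) • v := fun _ _ => rfl
  have hcomm : ∀ x c, Commute (ρ x) (sc c) := fun x c => LinearEquiv.ext fun v => by
    show ρ x (sc c v) = sc c (ρ x v)
    rw [hscap, hscap, map_smul]
  let φ : X × (ZMod p)ˣ →* (V ≃ₗ[ZMod p] V) := MonoidHom.noncommCoprod ρ sc hcomm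
  have hφ : ∀ x c (v : V), φ (x, c) v = ρ x ((c : ZMod p) • v) := fun x c v => rfl
  set H := φ.range with hH
  haveI : Finite H := Finite.of_surjective _ φ.rangeRestrict_surjective
  haveI : Group.IsSolvable H := Group.isSolvable_of_surjective φ.rangeRestrict_surjective
  have htrans : ∀ v w : V, v ≠ 0 → w ≠ 0 → ∃ h : H, (h : V ≃ₗ[ZMod p] V) v = w := by
    intro v w hv hw
    obtain ⟨x, c, hxc⟩ := hline v w hv hw
    have hc : c ≠ 0 := by
      rintro rfl
      rw [zero_smul] at hxc
      exact hv ((ρ x).map_eq_zero_iff.1 hxc)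
    refine ⟨⟨_, (x, (Units.mk0 c hc)⁻¹), rfl⟩, ?_⟩
    show ρ x (((Units.mk0 c hc)⁻¹ : (ZMod p)ˣ) • v : V) = w
    rw [Units.smul_def, map_smul, hxc, smul_smul, Units.val_inv_eq_inv_val, Units.val_mk0,
      inv_mul_cancel₀ hc, one_smul]
  -- the scalars and the image of `X` in `H`
  have hscH : ∀ c, sc c ∈ H := fun c => ⟨(1, c), LinearEquiv.ext fun v => by rw [hφ, map_one]; rfl⟩
  have hXH : ∀ x, ρ x ∈ H := fun x => ⟨(x, 1), LinearEquiv.ext fun v => by
    rw [hφ, Units.val_one, one_smul]⟩
  have hXdH : Nat.card X ∣ Nat.card H := by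
    rw [Nat.card_congr (Equiv.ofInjective ρ hρ)]
    exact Subgroup.card_dvd_of_le (H := ρ.range) (K := H) (by rintro _ ⟨x, rfl⟩; exact hXH x)
  have hHdX : Nat.card H ∣ Nat.card X * (p - 1) := by
    have := Subgroup.card_range_dvd φ
    rwa [Nat.card_prod, Nat.card_units, Nat.card_zmod] at this
  have hpts : p ^ n - 1 ∣ Nat.card H := by
    haveI : Fintype V := Fintype.ofFinite _
    obtain ⟨v, hv⟩ := exists_ne (0 : V)
    have horb : MulAction.orbit H v = {w : V | w ≠ 0} := by
      ext w
      constructor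
      · rintro ⟨h, rfl⟩
        exact fun h0 => hv ((h : V ≃ₗ[ZMod p] V).map_eq_zero_iff.1 h0)
      · intro hw
        obtain ⟨h, hh⟩ := htrans v w hv hw
        exact ⟨h, hh⟩
    have h1 : (MulAction.stabilizer H v).index = p ^ n - 1 := by
      rw [MulAction.index_stabilizer, horb]
      rw [show ({w : V | w ≠ 0}) = ({0} : Set V)ᶜ from rfl, Set.ncard_compl, Set.ncard_singleton, hcV]
    exact h1 ▸ Subgroup.index_dvd_card _
  -- the planes
  set N2 := Nat.card {W : Submodule (ZMod p) V // Module.finrank (ZMod p) W = 2} with hN2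
  have hcount : N2 * ((p ^ 2 - 1) * (p ^ 2 - p)) = (p ^ n - 1) * (p ^ n - p) := by
    rw [hN2, natCard_planes p (by omega), hn]
  obtain ⟨f, hf⟩ := exists_linearIndependent_of_le_finrank (R := ZMod p) (M := V) (n := 2) (by omega)
  set W₀ : Submodule (ZMod p) V := Submodule.span (ZMod p) (Set.range f) with hW₀def
  have hW₀ : Module.finrank (ZMod p) W₀ = 2 := by
    rw [hW₀def, finrank_span_eq_card hf, Fintype.card_fin]
  have hsmulW : ∀ (g : V ≃ₗ[ZMod p] V) (W : Submodule (ZMod p) V),
      g • W = W.map (g : V →ₗ[ZMod p] V) := fun g W => rfl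
  have horbit : ∀ (Y : Subgroup (V ≃ₗ[ZMod p] V)), ρ.range ≤ Y →
      (MulAction.stabilizer Y W₀).index = N2 := by
    intro Y hY
    rw [MulAction.index_stabilizer, hN2, ← Nat.card_coe_set_eq]
    refine Nat.card_congr (Equiv.subtypeEquivRight fun W => ?_)
    constructor
    · rintro ⟨h, rfl⟩
      show Module.finrank (ZMod p) ↥((h : V ≃ₗ[ZMod p] V) • W₀) = 2
      rw [hsmulW, LinearEquiv.finrank_map_eq, hW₀]
    · intro hW
      obtain ⟨x, hx⟩ := hplane W₀ W hW₀ hW
      exact ⟨⟨ρ x, hY ⟨x, rfl⟩⟩, (hsmulW _ _).trans hx⟩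
  have hN2X : N2 ∣ Nat.card X := by
    rw [Nat.card_congr (Equiv.ofInjective ρ hρ), ← horbit ρ.range le_rfl]
    exact Subgroup.index_dvd_card _
  have hN2H : N2 * (p - 1) ∣ Nat.card H := by
    rw [← horbit H (by rintro _ ⟨x, rfl⟩; exact hXH x),
      ← Subgroup.index_mul_card (MulAction.stabilizer H W₀)]
    refine mul_dvd_mul_left _ ?_
    let ι : (ZMod p)ˣ →* MulAction.stabilizer H W₀ :=
      MonoidHom.codRestrict (MonoidHom.codRestrict sc H hscH) _ (fun c => by
        show sc c • W₀ = W₀
        rw [hsmulW]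
        ext w
        constructor
        · rintro ⟨u, hu, rfl⟩
          exact W₀.smul_mem _ hu
        · intro hw
          exact ⟨((c⁻¹ : (ZMod p)ˣ) : ZMod p) • w, W₀.smul_mem _ hw, by
            show (c : ZMod p) • ((c⁻¹ : (ZMod p)ˣ) : ZMod p) • w = w
            rw [smul_smul, Units.mul_inv, one_smul]⟩)
    have hι : Function.Injective ι := fun c d h => by
      obtain ⟨v, hv⟩ := exists_ne (0 : V)
      have h1 : sc c v = sc d v := by
        have := congrArg (fun s : MulAction.stabilizer H W₀ => ((s : H) : V ≃ₗ[ZMod p] V) v) h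
        exact this
      rw [hscap, hscap] at h1
      exact Units.ext (smul_left_injective (ZMod p) hv h1)
    have := Subgroup.card_dvd_of_injective ι hι
    rwa [Nat.card_units, Nat.card_zmod] at this
  -- dimension four over the field with three elements
  have h81 : ¬ (p = 3 ∧ n = 4) := by
    rintro ⟨rfl, rfl⟩
    letI : DistribMulAction X V := DistribMulAction.compHom V ρ
    haveI : FaithfulSMul X V := ⟨fun {x y} h => hρ (LinearEquiv.ext h)⟩
    have h80 : 80 ∣ Nat.card X * 2 := (by norm_num : 80 = 3 ^ 4 - 1) ▸ (hpts.trans hHdX)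
    have h130 : N2 = 130 := by norm_num at hcount ⊢; omega
    refine no_eightyone (M := V) (X := X) (by rw [hcV]; norm_num) ?_ ?_
    · exact (Nat.Coprime.dvd_of_dvd_mul_right (by norm_num : Nat.Coprime 5 2)
        ((by norm_num : 5 ∣ 80).trans h80))
    · exact (by norm_num : 13 ∣ 130).trans (h130 ▸ hN2X)
  -- the semilinear structure
  rcases Cfsg.Agent.S3360.result p (V := V) (inferInstance : Group.IsSolvable H) H.subtype
      H.subtype_injective htrans with ⟨F, iF, iFF, e0, he0⟩ | hex
  swap
  · exfalso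
    rw [hcV] at hex
    have hlt : ∀ m, p ^ n = m → m < 530 → n < 10 := by
      intro m hm hm530
      by_contra h
      push Not at h
      have h1 : 2 ^ 10 ≤ p ^ n := (Nat.pow_le_pow_right (by norm_num) h).trans (Nat.pow_le_pow_left hp2 n)
      omega
    have key : ∀ r k : ℕ, r.Prime → p ^ n = r ^ k → p = r ∧ n = k := by
      intro r k hr h
      have h1 : p ∣ r ^ k := h ▸ dvd_pow_self p (by omega)
      obtain rfl := (Nat.prime_dvd_prime_iff_eq hp hr).1 (hp.dvd_of_dvd_pow h1)
      exact ⟨rfl, Nat.pow_right_injective hp2 h⟩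
    simp only [Set.mem_insert_iff, Set.mem_singleton_iff] at hex
    rcases hex with h | h | h | h | h | h
    · have := key 3 2 (by norm_num) (by rw [h]; norm_num); omega
    · have := key 5 2 (by norm_num) (by rw [h]; norm_num); omega
    · have := key 7 2 (by norm_num) (by rw [h]; norm_num); omega
    · have := key 11 2 (by norm_num) (by rw [h]; norm_num); omega
    · have := key 23 2 (by norm_num) (by rw [h]; norm_num); omega
    · exact h81 (key 3 4 (by norm_num) (by rw [h]; norm_num))
  letI : Fintype (GaloisField p n) := Fintype.ofFinite _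
  let θ : F ≃+* GaloisField p n := FiniteField.ringEquivOfCardEq (by
    rw [← Nat.card_eq_fintype_card, ← Nat.card_eq_fintype_card, ← Nat.card_congr e0.toEquiv, hcV,
      GaloisField.card p n (by omega)])
  let e : V ≃+ GaloisField p n := e0.trans θ.toAddEquiv
  have hsemi : ∀ h : H, ∃ (a : GaloisField p n) (σ : GaloisField p n ≃+* GaloisField p n),
      ∀ v : V, e ((h : V ≃ₗ[ZMod p] V) v) = a * σ (e v) := by
    intro h
    obtain ⟨a, σ, ha⟩ := he0 h
    refine ⟨θ a, θ.symm.trans (σ.trans θ), fun v => ?_⟩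
    have := congrArg θ (ha v)
    rw [map_mul] at this
    simpa [e] using this
  -- `H` embeds in the stabilizer of zero in the semiaffine group
  let π : H →* Equiv.Perm (GaloisField p n) :=
    { toFun := fun h => (e.toEquiv.symm.trans (h : V ≃ₗ[ZMod p] V).toEquiv).trans e.toEquiv
      map_one' := Equiv.ext fun f => by simp
      map_mul' := fun g h => Equiv.ext fun f => by simp }
  have hπ : ∀ (h : H) (f), π h f = e ((h : V ≃ₗ[ZMod p] V) (e.symm f)) := fun _ _ => rfl
  have hπinj : Function.Injective π := fun g h hgh => Subtype.ext (LinearEquiv.ext fun v => by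
    have := congrArg (fun q : Equiv.Perm (GaloisField p n) => q (e v)) hgh
    simpa [hπ] using this)
  have hπle : π.range ≤ Cfsg.semiaffineGroup (GaloisField p n) ⊓
      MulAction.stabilizer (Equiv.Perm (GaloisField p n)) (0 : GaloisField p n) := by
    rintro _ ⟨h, rfl⟩
    obtain ⟨a, σ, ha⟩ := hsemi h
    have ha0 : a ≠ 0 := by
      rintro rfl
      obtain ⟨v, hv⟩ := exists_ne (0 : V)
      have := ha v
      rw [zero_mul, AddEquiv.map_eq_zero_iff] at this
      exact hv ((h : V ≃ₗ[ZMod p] V).map_eq_zero_iff.1 this)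
    constructor
    · refine ⟨Units.mk0 a ha0, 0, σ, fun f => ?_⟩
      rw [hπ, ha, AddEquiv.apply_symm_apply, add_zero, Units.val_mk0]
    · show π h 0 = 0
      rw [hπ, map_zero, map_zero, map_zero]
  have hHdvd : Nat.card H ∣ (p ^ n - 1) * n := by
    have h1 := Subgroup.card_dvd_of_le hπle
    rw [natCard_semiaffine_stabilizer, natCard_ringEquiv_galoisField p n (by omega),
      natCard_units_galoisField p n (by omega)] at h1
    rwa [Nat.card_congr (Equiv.ofInjective π hπinj)]
  have hdim : n = 3 ∨ (n = 5 ∧ p = 2) := by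
    obtain ⟨m, rfl⟩ : ∃ m, n = m + 1 := ⟨n - 1, by omega⟩
    have hd : N2 * (p - 1) * ((p ^ 2 - 1) * (p ^ 2 - p)) ∣
        (p ^ (m + 1) - 1) * (m + 1) * ((p ^ 2 - 1) * (p ^ 2 - p)) :=
      mul_dvd_mul_right (hN2H.trans hHdvd) _
    have he1 : N2 * (p - 1) * ((p ^ 2 - 1) * (p ^ 2 - p))
        = (p ^ (m + 1) - 1) * (p * (p - 1)) * (p ^ m - 1) := by
      rw [mul_right_comm, hcount, show p ^ (m + 1) - p = p * (p ^ m - 1) by
        rw [Nat.mul_sub, mul_one, pow_succ']]
      ring
    have he2 : (p ^ (m + 1) - 1) * (m + 1) * ((p ^ 2 - 1) * (p ^ 2 - p))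
        = (p ^ (m + 1) - 1) * (p * (p - 1)) * ((m + 1) * (p ^ 2 - 1)) := by
      rw [show p ^ 2 - p = p * (p - 1) by rw [Nat.mul_sub, mul_one, pow_two]]
      ring
    rw [he1, he2] at hd
    have hpos : 0 < (p ^ (m + 1) - 1) * (p * (p - 1)) :=
      Nat.mul_pos (by omega) (Nat.mul_pos (by omega) (by omega))
    have hdiv := Nat.dvd_of_mul_dvd_mul_left hpos hd
    have hsq : 4 ≤ p ^ 2 := by nlinarith
    have hle := Nat.le_of_dvd (Nat.mul_pos (by omega) (by omega)) hdiv
    rcases Nat.lt_or_ge m 5 with h5 | h5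
    · have hm2 : 2 ≤ m := by omega
      interval_cases m
      · left; rfl
      · exfalso
        have hp4 : p ≤ 3 := by
          by_contra hc
          push Not at hc
          have : 4 * p ^ 2 ≤ p ^ 3 := by rw [pow_succ p 2, mul_comm 4]; exact Nat.mul_le_mul_left _ hc
          omega
        obtain rfl | rfl : p = 2 ∨ p = 3 := by omega
        · norm_num at hdiv
        · norm_num at hdiv
      · have hp3 : p < 3 := by
          by_contra hc
          push Not at hc
          have : 9 * p ^ 2 ≤ p ^ 4 := by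
            rw [show p ^ 4 = p ^ 2 * p ^ 2 by ring, mul_comm 9]
            exact Nat.mul_le_mul_left _ (by nlinarith)
          omega
        exact Or.inr ⟨rfl, by omega⟩
    · exfalso
      have key : (m + 1) * p ^ 2 < p ^ m := succ_mul_sq_lt_pow hp2 h5
      have h1 : (m + 1) * (p ^ 2 - 1) + (m + 1) = (m + 1) * p ^ 2 := by
        rw [← Nat.mul_succ]; congr 1; omega
      generalize (m + 1) * (p ^ 2 - 1) = C at hle h1
      generalize (m + 1) * p ^ 2 = A at key h1
      generalize p ^ m = B at hle key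
      omega
  exact ⟨hdim, ⟨e, fun x => hsemi ⟨ρ x, hXH x⟩⟩, hXdH.trans hHdvd, hpts.trans hHdX, hN2X⟩

end CfsgLib.SchurExt
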