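/-
Groups with a self-centralizing elementary abelian normal Sylow subgroup, all of whose subgroups of
equal order are conjugate: semiaffine groups.
-/
import Cfsg.Agent.Lib.SchurExt.LineTransitive
import Cfsg.Prelude.Def_Solvable
import Cfsg.Agent.Lib.Cores.PCore

set_option autoImplicit false

open Cfsg

namespace CfsgLib.SchurExt

theorem semiaffine_of_transitive {Q : Type*} [Group Q] [Finite Q] [Group.IsSolvable Q]
    {p : ℕ} [Fact p.Prime] (A : Subgroup Q) [hAn : A.Normal] (hel : Cfsg.IsElementaryAbelian p A)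
    (n : ℕ) (hn : 3 ≤ n) (hcard : Nat.card A = p ^ n) (hcop : ¬ p ∣ A.index)
    (hC : Subgroup.centralizer (A : Set Q) ≤ A)
    (htr : ∀ H K : Subgroup Q, H ≤ A → K ≤ A → Nat.card H = Nat.card K →
      ∃ q : Q, H.map (MulAut.conj q).toMonoidHom = K) :
    (n = 3 ∧ (∃ f : Q →* ↥(Cfsg.semiaffineGroup (GaloisField p 3)), Function.Injective f) ∧
      (p = 2 → Nonempty (Q ≃* Cfsg.semiaffineGroup (GaloisField 2 3)) ∨
               Nonempty (Q ≃* Cfsg.affineGroup (GaloisField 2 3)))) ∨
    (n = 5 ∧ p = 2 ∧ Nonempty (Q ≃* Cfsg.semiaffineGroup (GaloisField 2 5))) := by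
  classical
  have hp : p.Prime := Fact.out
  haveI hAc : IsMulCommutative A := hel.1
  letI : CommGroup A :=
    { (inferInstance : Group A) with mul_comm := fun a b => hAc.is_comm.comm a b }
  have hsmul : ∀ v : Additive A, p • v = 0 := by
    intro v
    apply Additive.toMul.injective
    rw [toMul_nsmul, toMul_zero]
    exact Subtype.ext (hel.2 _ (Additive.toMul v).2)
  letI : Module (ZMod p) (Additive A) := AddCommGroup.zmodModule (n := p) hsmul
  haveI : Finite (Additive A) := inferInstanceAs (Finite A)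
  haveI : Module.Finite (ZMod p) (Additive A) := Module.Finite.of_finite
  have hrank : Module.finrank (ZMod p) (Additive A) = n := by
    have h : Nat.card (Additive A) = Nat.card (ZMod p) ^ Module.finrank (ZMod p) (Additive A) :=
      by exact Module.natCard_eq_pow_finrank
    rw [Nat.card_zmod, show Nat.card (Additive A) = Nat.card A from rfl, hcard] at h
    exact (Nat.pow_right_injective hp.two_le h).symm
  obtain ⟨X, hX⟩ := Subgroup.exists_right_complement'_of_coprime (N := A) (by
    rw [hcard]; exact Nat.Coprime.pow_left n ((hp.coprime_iff_not_dvd).2 hcop))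
  have hcardQ : Nat.card A * Nat.card X = Nat.card Q := hX.card_mul
  have hdisj : Disjoint A X := hX.disjoint
  have hXi : Nat.card X = A.index := by
    have := A.card_mul_index
    rw [← hcardQ] at this
    exact (Nat.eq_of_mul_eq_mul_left Nat.card_pos this).symm
  -- linear action of the complement
  let toLin : MulAut A →* (Additive A ≃ₗ[ZMod p] Additive A) :=
    { toFun := fun φ =>
        { toFun := fun v => Additive.ofMul (φ (Additive.toMul v))
          invFun := fun v => Additive.ofMul (φ.symm (Additive.toMul v))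
          map_add' := fun v w => congrArg Additive.ofMul (map_mul φ (Additive.toMul v) (Additive.toMul w))
          map_smul' := fun c v => ZMod.map_smul
            (AddMonoidHom.mk' (fun v : Additive A => Additive.ofMul (φ (Additive.toMul v)))
              (fun v w => by simp [toMul_add, ofMul_mul])) c v
          left_inv := fun v => by simp
          right_inv := fun v => by simp }
      map_one' := LinearEquiv.ext fun v => by rfl
      map_mul' := fun φ φ' => LinearEquiv.ext fun v => by rfl }
  let ρ : X →* (Additive A ≃ₗ[ZMod p] Additive A) :=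
    toLin.comp ((MulAut.conjNormal (H := A)).comp X.subtype)
  have hρv : ∀ (x : X) (v : Additive A),
      ((Additive.toMul (ρ x v) : A) : Q) = (x : Q) * (Additive.toMul v : A) * (x : Q)⁻¹ :=
    fun x v => MulAut.conjNormal_apply (x : Q) (Additive.toMul v)
  have hρ : Function.Injective ρ := (injective_iff_map_eq_one ρ).2 fun x hx => by
    have hxA : (x : Q) ∈ A := hC (Subgroup.mem_centralizer_iff.2 fun a ha => by
      have := hρv x (Additive.ofMul ⟨a, ha⟩)
      rw [hx] at this
      change a = (x : Q) * a * (x : Q)⁻¹ at this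
      exact (eq_mul_inv_iff_mul_eq.1 this))
    exact Subtype.ext (Subgroup.disjoint_def.1 hdisj hxA x.2)
  have hmove : ∀ (q : Q), ∃ x : X, ∀ a ∈ A, q * a * q⁻¹ = (x : Q) * a * (x : Q)⁻¹ := by
    intro q
    obtain ⟨⟨a₀, x⟩, h⟩ := hX.2 q
    refine ⟨x, fun a ha => ?_⟩
    have hb : (x : Q) * a * (x : Q)⁻¹ ∈ A := hAn.conj_mem a ha _
    have hcm : (a₀ : Q) * ((x : Q) * a * (x : Q)⁻¹) = ((x : Q) * a * (x : Q)⁻¹) * (a₀ : Q) :=
      congrArg Subtype.val (mul_comm (a₀ : A) ⟨_, hb⟩)
    rw [← h]
    calc ((a₀ : Q) * x) * a * ((a₀ : Q) * x)⁻¹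
        = (a₀ : Q) * ((x : Q) * a * (x : Q)⁻¹) * (a₀ : Q)⁻¹ := by group
      _ = (x : Q) * a * (x : Q)⁻¹ := by rw [hcm, mul_inv_cancel_right]
  -- transitivity on subspaces
  let toSub : Submodule (ZMod p) (Additive A) → Subgroup Q := fun W =>
    (AddSubgroup.toSubgroup' W.toAddSubgroup).map A.subtype
  have htoSub_le : ∀ W, toSub W ≤ A := fun W => Subgroup.map_subtype_le _
  have htoSub_card : ∀ W, Nat.card (toSub W) = Nat.card W := fun W =>
    (Subgroup.card_map_of_injective A.subtype_injective).trans rfl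
  have htoSub_mem : ∀ W (v : Additive A), ((Additive.toMul v : A) : Q) ∈ toSub W ↔ v ∈ W := by
    intro W v
    constructor
    · rintro ⟨a, ha, hav⟩
      obtain rfl : a = Additive.toMul v := A.subtype_injective hav
      exact ha
    · intro hv; exact ⟨_, hv, rfl⟩
  have htrW : ∀ W W' : Submodule (ZMod p) (Additive A),
      Module.finrank (ZMod p) W = Module.finrank (ZMod p) W' →
      ∃ x : X, W.map (ρ x : Additive A →ₗ[ZMod p] Additive A) = W' := by
    intro W W' hWW
    obtain ⟨q, hq⟩ := htr (toSub W) (toSub W') (htoSub_le W) (htoSub_le W') (by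
      rw [htoSub_card, htoSub_card, Module.natCard_eq_pow_finrank (K := ZMod p),
        Module.natCard_eq_pow_finrank (K := ZMod p) (V := W'), hWW])
    obtain ⟨x, hx⟩ := hmove q
    refine ⟨x, ?_⟩
    apply Submodule.eq_of_le_of_finrank_eq
    · rintro _ ⟨v, hv, rfl⟩
      rw [← htoSub_mem, ← hq]
      refine ⟨_, (htoSub_mem W v).2 hv, ?_⟩
      show q * _ * q⁻¹ = _
      rw [hx _ (Additive.toMul v).2]
      exact (hρv x v).symm
    · rw [LinearEquiv.finrank_map_eq, hWW]
  have hline : ∀ v w : Additive A, v ≠ 0 → w ≠ 0 →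
      ∃ (x : X) (c : ZMod p), ρ x v = c • w := by
    intro v w hv hw
    obtain ⟨x, hx⟩ := htrW (Submodule.span (ZMod p) {v}) (Submodule.span (ZMod p) {w})
      (by rw [finrank_span_singleton hv, finrank_span_singleton hw])
    have : ρ x v ∈ Submodule.span (ZMod p) {w} :=
      hx ▸ Submodule.mem_map_of_mem (Submodule.mem_span_singleton_self v)
    obtain ⟨c, hc⟩ := Submodule.mem_span_singleton.1 this
    exact ⟨x, c, hc.symm⟩
  obtain ⟨hdim, ⟨e, he⟩, hXdvd, hXpts, hXpl⟩ := lineTransitive_solvable ρ hρ n hrank hn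
    (hXi ▸ hcop) hline (fun W W' h h' => htrW W W' (h.trans h'.symm))
  -- the permutation representation on the cosets of the complement
  let η : GaloisField p n ≃ Q ⧸ X := Equiv.ofBijective
    (fun f => (((Additive.toMul (e.symm f) : A) : Q) : Q ⧸ X)) ⟨fun f g hfg => by
      have h1 := QuotientGroup.eq.1 hfg
      have h2 := Subgroup.disjoint_def.1 hdisj
        (A.mul_mem (A.inv_mem (Additive.toMul (e.symm f)).2) (Additive.toMul (e.symm g)).2) h1
      rw [inv_mul_eq_one] at h2
      exact e.symm.injective (Additive.toMul.injective (Subtype.ext h2)), fun c => by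
      obtain ⟨q, rfl⟩ := QuotientGroup.mk_surjective c
      obtain ⟨⟨a, x⟩, h⟩ := hX.2 q
      refine ⟨e (Additive.ofMul a), ?_⟩
      simp only [AddEquiv.symm_apply_apply, toMul_ofMul]
      rw [QuotientGroup.eq, ← h]
      simp⟩
  let ψ : Q →* Equiv.Perm (GaloisField p n) :=
    (η.symm.permCongrHom : Equiv.Perm (Q ⧸ X) →* Equiv.Perm (GaloisField p n)).comp
      (MulAction.toPermHom Q (Q ⧸ X))
  have hψ : ∀ q f, ψ q f = η.symm (q • η f) := fun q f => rfl
  have hψax : ∀ (a : A) (x : X) (f : GaloisField p n),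
      ψ ((a : Q) * x) f = e (ρ x (e.symm f)) + e (Additive.ofMul a) := by
    intro a x f
    rw [hψ, Equiv.symm_apply_eq]
    show (((a : Q) * x * ((Additive.toMul (e.symm f) : A) : Q) : Q) : Q ⧸ X) = _
    show _ = (((Additive.toMul (e.symm (e (ρ x (e.symm f)) + e (Additive.ofMul a))) : A) : Q) : Q ⧸ X)
    rw [← map_add, AddEquiv.symm_apply_apply, add_comm, toMul_add, toMul_ofMul, Subgroup.coe_mul,
      hρv, QuotientGroup.eq]
    rw [show ((a : Q) * x * ((Additive.toMul (e.symm f) : A) : Q))⁻¹ *
      ((a : Q) * ((x : Q) * ((Additive.toMul (e.symm f) : A) : Q) * (x : Q)⁻¹)) = (x : Q)⁻¹ by group]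
    exact X.inv_mem x.2
  have hdec : ∀ q : Q, ∃ (a : A) (x : X), (a : Q) * x = q := fun q => by
    obtain ⟨⟨a, x⟩, h⟩ := hX.2 q
    exact ⟨a, x, h⟩
  have hform : ∀ x : X, ∃ (α : (GaloisField p n)ˣ) (σ : GaloisField p n ≃+* GaloisField p n),
      ∀ v, e (ρ x v) = (α : GaloisField p n) * σ (e v) := by
    intro x
    obtain ⟨α, σ, h⟩ := he x
    have hα : α ≠ 0 := by
      rintro rfl
      have h1 := h (e.symm 1)
      rw [zero_mul, AddEquiv.map_eq_zero_iff, LinearEquiv.map_eq_zero_iff] at h1
      exact one_ne_zero ((e.apply_symm_apply 1).symm.trans (by rw [h1, map_zero]))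
    exact ⟨Units.mk0 α hα, σ, h⟩
  have hψmem : ∀ q, ψ q ∈ Cfsg.semiaffineGroup (GaloisField p n) := by
    intro q
    obtain ⟨a, x, rfl⟩ := hdec q
    obtain ⟨α, σ, h⟩ := hform x
    refine ⟨α, e (Additive.ofMul a), σ, fun f => ?_⟩
    rw [hψax, h, AddEquiv.apply_symm_apply]
  have hψinj : Function.Injective ψ := (injective_iff_map_eq_one ψ).2 fun q hq => by
    obtain ⟨a, x, rfl⟩ := hdec q
    have h0 : ∀ f, e (ρ x (e.symm f)) + e (Additive.ofMul a) = f := fun f => by
      rw [← hψax, hq]; rfl
    have ha : a = 1 := by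
      have := h0 0
      rw [map_zero, map_zero, map_zero, zero_add, AddEquiv.map_eq_zero_iff] at this
      exact this
    subst ha
    have hx1 : x = 1 := hρ (LinearEquiv.ext fun v => e.injective (by
      have := h0 (e v)
      rw [AddEquiv.symm_apply_apply, ofMul_one, map_zero, add_zero] at this
      rw [map_one, this]; rfl))
    rw [hx1]; simp
  let ψ' : Q →* Cfsg.semiaffineGroup (GaloisField p n) := ψ.codRestrict _ hψmem
  have hψ'inj : Function.Injective ψ' := fun a b h => hψinj (congrArg Subtype.val h)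
  have hn0 : n ≠ 0 := by omega
  have hQcard : Nat.card Q = p ^ n * Nat.card X := by rw [← hcardQ, hcard]
  have hSA : Nat.card (Cfsg.semiaffineGroup (GaloisField p n)) = p ^ n * ((p ^ n - 1) * n) := by
    rw [natCard_semiaffine, natCard_ringEquiv_galoisField p n hn0, natCard_units_galoisField p n hn0,
      GaloisField.card p n hn0]
  haveI : Finite (Equiv.Perm (GaloisField p n)) := inferInstance
  rcases hdim with rfl | ⟨rfl, rfl⟩
  · refine Or.inl ⟨rfl, ⟨ψ', hψ'inj⟩, ?_⟩
    rintro rfl
    norm_num at hXdvd hXpts hSA hQcard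
    obtain ⟨k, hk⟩ := hXpts
    have hX21 : Nat.card X ≤ 21 := Nat.le_of_dvd (by norm_num) hXdvd
    obtain h7 | h21 : Nat.card X = 7 ∨ Nat.card X = 21 := by
      have : 0 < Nat.card X := Nat.card_pos
      obtain h | h | h : k = 1 ∨ k = 2 ∨ k = 3 := by omega
      · left; omega
      · exfalso
        rw [hk, h] at hXdvd
        norm_num at hXdvd
      · right; omega
    · refine Or.inr ⟨?_⟩
      have haff : ∀ q, ψ q ∈ Cfsg.affineGroup (GaloisField 2 3) := by
        intro q
        obtain ⟨a, x, rfl⟩ := hdec q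
        obtain ⟨α, σ, h⟩ := hform x
        have hpow : ∀ k : ℕ, ∃ αk : GaloisField 2 3, ∀ v, e (ρ (x ^ k) v) = αk * (σ ^ k) (e v) := by
          intro k
          induction k with
          | zero => exact ⟨1, fun v => by simp⟩
          | succ k ih =>
            obtain ⟨αk, hαk⟩ := ih
            refine ⟨(α : GaloisField 2 3) * σ αk, fun v => ?_⟩
            rw [pow_succ', map_mul]
            show e (ρ x (ρ (x ^ k) v)) = _
            rw [h, hαk, map_mul, mul_assoc, pow_succ']
            rfl
        obtain ⟨α7, h7'⟩ := hpow 7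
        have hx7 : x ^ 7 = 1 := by rw [← h7]; exact pow_card_eq_one'
        have hfix : ∀ f, f = α7 * (σ ^ 7) f := by
          intro f
          have := h7' (e.symm f)
          rw [hx7, map_one] at this
          simpa using this
        have hα7 : α7 = 1 := by simpa using (hfix 1).symm
        have hσ7 : σ ^ 7 = 1 := RingEquiv.ext fun f => by
          have := hfix f
          rw [hα7, one_mul] at this
          exact this.symm
        have hσ : σ = 1 := by
          have h3 : σ ^ 3 = 1 := by
            have := pow_card_eq_one' (x := σ)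
            rwa [natCard_ringEquiv_galoisField 2 3 (by norm_num)] at this
          calc σ = σ ^ 7 * ((σ ^ 3) ^ 2)⁻¹ := by group
            _ = 1 := by rw [hσ7, h3, one_pow, inv_one, mul_one]
        refine ⟨α, e (Additive.ofMul a), fun f => ?_⟩
        rw [hψax, h, AddEquiv.apply_symm_apply, hσ]
        rfl
      let ψa : Q →* Cfsg.affineGroup (GaloisField 2 3) := ψ.codRestrict _ haff
      have hinj : Function.Injective ψa := fun a b h => hψinj (congrArg Subtype.val h)
      refine MulEquiv.ofBijective ψa ((Nat.bijective_iff_injective_and_card _).2 ⟨hinj, ?_⟩)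
      rw [hQcard, natCard_affine, natCard_units_galoisField 2 3 (by norm_num),
        GaloisField.card 2 3 (by norm_num), h7]
      norm_num
    · refine Or.inl ⟨MulEquiv.ofBijective ψ' ((Nat.bijective_iff_injective_and_card _).2 ⟨hψ'inj, ?_⟩)⟩
      rw [hQcard, hSA, h21]
  · refine Or.inr ⟨rfl, rfl, ⟨MulEquiv.ofBijective ψ'
      ((Nat.bijective_iff_injective_and_card _).2 ⟨hψ'inj, ?_⟩)⟩⟩
    have h155 : Nat.card {W : Submodule (ZMod 2) (Additive A) //
        Module.finrank (ZMod 2) W = 2} = 155 := by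
      have h := natCard_planes 2 (V := Additive A) (by omega)
      rw [hrank] at h
      norm_num at h
      omega
    rw [h155] at hXpl
    norm_num at hXdvd
    have : Nat.card X = 155 := Nat.dvd_antisymm hXdvd hXpl
    rw [hQcard, hSA, this]
    norm_num

end CfsgLib.SchurExt

namespace CfsgLib.SchurExt

/-- The normalizer of an abelian Sylow subgroup controls fusion of its subgroups. -/
theorem normalizer_controls_fusion_abelian {G : Type*} [Group G] [Finite G] {p : ℕ} [Fact p.Prime]
    (P : Sylow p G) (hab : IsMulCommutative (P : Subgroup G)) {A B : Subgroup G}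
    (hA : A ≤ (P : Subgroup G)) (hB : B ≤ (P : Subgroup G)) (g : G)
    (hg : B = A.map (MulAut.conj g).toMonoidHom) :
    ∃ m ∈ Subgroup.normalizer ((P : Subgroup G) : Set G), B = A.map (MulAut.conj m).toMonoidHom := by
  set C := Subgroup.centralizer (B : Set G) with hC
  have hPC : (P : Subgroup G) ≤ C := fun x hx => Subgroup.mem_centralizer_iff.2 fun b hb =>
    congrArg Subtype.val (hab.is_comm.comm ⟨b, hB hb⟩ ⟨x, hx⟩)
  set P₂ : Sylow p G := g • P with hP₂
  have hP₂C : (P₂ : Subgroup G) ≤ C := by
    rintro _ ⟨x, hx, rfl⟩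
    refine Subgroup.mem_centralizer_iff.2 fun b hb => ?_
    rw [hg] at hb
    obtain ⟨a, ha, rfl⟩ := hb
    show g * a * g⁻¹ * (g * x * g⁻¹) = g * x * g⁻¹ * (g * a * g⁻¹)
    have : a * x = x * a := congrArg Subtype.val (hab.is_comm.comm ⟨a, hA ha⟩ ⟨x, hx⟩)
    calc g * a * g⁻¹ * (g * x * g⁻¹) = g * (a * x) * g⁻¹ := by group
      _ = g * (x * a) * g⁻¹ := by rw [this]
      _ = _ := by group
  obtain ⟨c, hc⟩ := MulAction.exists_smul_eq C (P₂.subtype hP₂C) (P.subtype hPC)
  rw [Sylow.smul_subtype hP₂C, ← Sylow.smul_subtype hP₂C] at hc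
  refine ⟨(c : G) * g, ?_, ?_⟩
  · apply Sylow.smul_eq_iff_mem_normalizer.1
    rw [mul_smul, ← hP₂]
    rw [Sylow.smul_subtype] at hc
    exact Sylow.subtype_injective hc
  · have hcB : B.map (MulAut.conj (c : G)).toMonoidHom = B := by
      have hfix : ∀ b ∈ B, (c : G) * b * (c : G)⁻¹ = b := fun b hb => by
        rw [← Subgroup.mem_centralizer_iff.1 c.2 b hb, mul_inv_cancel_right]
      ext y
      constructor
      · rintro ⟨b, hb, rfl⟩
        show (c : G) * b * (c : G)⁻¹ ∈ B
        rwa [hfix b hb]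
      · intro hy; exact ⟨y, hy, hfix y hy⟩
    rw [map_mul]
    conv_lhs => rw [← hcB, hg, Subgroup.map_map]
    rfl

end CfsgLib.SchurExt
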