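import Mathlib
import Cfsg.Prelude.Def_Transfer
import Cfsg.Agent.Lib.TwoGroups.RankOne
import Cfsg.Agent.Lib.BGAppendix.Basic

/-!
`p`-groups in which subgroups of the same order are isomorphic.
-/

set_option autoImplicit false

open scoped commutatorElement

namespace CfsgLib.SchurExt

variable {P : Type*} [Group P] [Finite P] {p : ℕ} [hp : Fact p.Prime]

/-- A group of order `p ^ 4` and exponent `p` has an abelian subgroup of order `p ^ 3`. -/
theorem exists_abelian_card_cube (hP : Nat.card P = p ^ 4) :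
    ∃ A : Subgroup P, Nat.card A = p ^ 3 ∧ IsMulCommutative A := by
  have hPp : IsPGroup p P := IsPGroup.of_card hP
  haveI : Nontrivial P := Finite.one_lt_card_iff_nontrivial.1 (hP ▸ Nat.one_lt_pow (by norm_num) hp.out.one_lt)
  set Z := Subgroup.center P with hZ
  haveI : Nontrivial Z := hPp.center_nontrivial
  obtain ⟨k, hk⟩ := IsPGroup.iff_card.1 (hPp.to_subgroup Z)
  have hk0 : k ≠ 0 := fun h => (Finite.one_lt_card (α := Z)).ne' (by rw [hk, h, pow_zero])
  rcases lt_or_ge 2 k with h3 | h3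
  · obtain ⟨A, hA⟩ := Sylow.exists_subgroup_card_pow_prime (G := Z) p (hk ▸ pow_dvd_pow p h3 : p ^ 3 ∣ Nat.card Z)
    refine ⟨A.map Z.subtype, by rw [Subgroup.card_map_of_injective Z.subtype_injective, hA], ⟨⟨fun a b => Subtype.ext ?_⟩⟩⟩
    exact (Subgroup.mem_center_iff.1 (Subgroup.map_subtype_le A a.2) b).symm
  rcases (show k = 2 ∨ k = 1 by omega) with rfl | rfl
  · obtain ⟨A, hA, hle⟩ := Sylow.exists_subgroup_card_pow_prime_le (G := P) p
      (hP ▸ pow_dvd_pow p (by norm_num) : p ^ 3 ∣ Nat.card P) Z hk (by norm_num)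
    refine ⟨A, hA, ?_⟩
    have hle' : Z.subgroupOf A ≤ Subgroup.center A := fun a ha =>
      Subgroup.mem_center_iff.2 fun b => Subtype.ext (Subgroup.mem_center_iff.1 ha b)
    have hcard : Nat.card (A ⧸ Z.subgroupOf A) = p := by
      have h1 := (Z.subgroupOf A).card_mul_index
      rw [Nat.card_congr (Subgroup.subgroupOfEquivOfLe hle).toEquiv, hk, hA, Subgroup.index_eq_card] at h1
      exact Nat.eq_of_mul_eq_mul_left (pow_pos hp.out.pos 2) (h1.trans (pow_succ p 2))
    haveI := isCyclic_of_prime_card hcard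
    exact ⟨⟨commutative_of_cyclic_center_quotient (QuotientGroup.mk' (Z.subgroupOf A))
      (by rw [QuotientGroup.ker_mk']; exact hle')⟩⟩
  -- the centre has order `p`: take the centralizer of an element of the second centre
  haveI : Nontrivial (P ⧸ Z) := Finite.one_lt_card_iff_nontrivial.1 (by
    have h1 := Z.card_mul_index
    rw [hk, hP, Subgroup.index_eq_card, pow_one] at h1
    have h2 : p * 1 < p * p ^ 3 := Nat.mul_lt_mul_of_pos_left (Nat.one_lt_pow (by norm_num) hp.out.one_lt) hp.out.pos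
    have h3 : Nat.card (P ⧸ Z) = p ^ 3 := Nat.eq_of_mul_eq_mul_left hp.out.pos (h1.trans (pow_succ' p 3))
    rw [h3]
    exact Nat.one_lt_pow (by norm_num) hp.out.one_lt)
  haveI := (hPp.to_quotient Z).center_nontrivial
  obtain ⟨⟨w, hw⟩, hw1⟩ := exists_ne (1 : Subgroup.center (P ⧸ Z))
  obtain ⟨a, rfl⟩ := QuotientGroup.mk'_surjective Z w
  have haZ : a ∉ Z := fun h => hw1 (Subtype.ext ((QuotientGroup.eq_one_iff a).2 h))
  have hcomm : ∀ y : P, ⁅y, a⁆ ∈ Z := fun y => (QuotientGroup.eq_one_iff _).1 (by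
    show QuotientGroup.mk' Z ⁅y, a⁆ = 1
    rw [map_commutatorElement, commutatorElement_eq_one_iff_commute]
    exact Subgroup.mem_center_iff.1 hw _)
  let φ : P →* Z := MonoidHom.mk' (fun y => ⟨⁅y, a⁆, hcomm y⟩) fun u v => Subtype.ext (by
    show ⁅u * v, a⁆ = ⁅u, a⁆ * ⁅v, a⁆
    have hc := Subgroup.mem_center_iff.1 (hcomm v)
    calc ⁅u * v, a⁆ = u * ⁅v, a⁆ * (a * u⁻¹ * a⁻¹) := by simp only [commutatorElement_def]; group
      _ = ⁅v, a⁆ * (u * (a * u⁻¹ * a⁻¹)) := by rw [hc u, mul_assoc]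
      _ = ⁅v, a⁆ * ⁅u, a⁆ := by simp only [commutatorElement_def]; group
      _ = _ := (hc _).symm)
  have hne : φ ≠ 1 := fun h => haZ (Subgroup.mem_center_iff.2 fun y => by
    have := congrArg Subtype.val (DFunLike.congr_fun h y)
    exact commutatorElement_eq_one_iff_commute.1 this)
  have hker : φ.ker.index = p := by
    rw [Subgroup.index_ker]
    rw [pow_one] at hk
    have h1 := hk ▸ Subgroup.card_subgroup_dvd_card φ.range
    refine (hp.out.eq_one_or_self_of_dvd _ h1).resolve_left fun h2 => hne ?_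
    rwa [Subgroup.card_eq_one, MonoidHom.range_eq_bot_iff] at h2
  have hkc : Nat.card φ.ker = p ^ 3 := by
    have h1 := φ.ker.card_mul_index
    rw [hker, hP, pow_succ] at h1
    exact Nat.eq_of_mul_eq_mul_right hp.out.pos h1
  refine ⟨φ.ker, hkc, ?_⟩
  have haK : a ∈ φ.ker := MonoidHom.mem_ker.2 (Subtype.ext (by simp [φ, commutatorElement_def]))
  have hZK : Z ≤ φ.ker := fun z hz => MonoidHom.mem_ker.2 (Subtype.ext (by
    show ⁅z, a⁆ = 1
    exact commutatorElement_eq_one_iff_commute.2 (Subgroup.mem_center_iff.1 hz a).symm))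
  set A := (Z ⊔ Subgroup.zpowers a).subgroupOf φ.ker with hA
  have hle : Z ⊔ Subgroup.zpowers a ≤ φ.ker := sup_le hZK (Subgroup.zpowers_le.2 haK)
  have hAc : A ≤ Subgroup.center φ.ker := by
    intro v hv
    refine Subgroup.mem_center_iff.2 fun b => Subtype.ext ?_
    have hb : Commute (b : P) a :=
      commutatorElement_eq_one_iff_commute.1 (congrArg Subtype.val (MonoidHom.mem_ker.1 b.2))
    have h3 : Z ⊔ Subgroup.zpowers a ≤ Subgroup.centralizer ({(b : P)} : Set P) := sup_le
      (fun z hz => Subgroup.mem_centralizer_singleton_iff.2 (Subgroup.mem_center_iff.1 hz b).symm)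
      (Subgroup.zpowers_le.2 (Subgroup.mem_centralizer_singleton_iff.2 hb.symm.eq))
    exact (Subgroup.mem_centralizer_singleton_iff.1 (h3 (Subgroup.mem_subgroupOf.1 hv))).symm
  haveI : A.Normal := ⟨fun v hv g => by
    rw [Subgroup.mem_center_iff.1 (hAc hv) g, mul_inv_cancel_right]; exact hv⟩
  obtain ⟨i, hi⟩ := IsPGroup.iff_card.1 (hPp.to_subgroup (Z ⊔ Subgroup.zpowers a))
  have hi2 : 2 ≤ i := by
    by_contra hlt
    have heq : Z = Z ⊔ Subgroup.zpowers a := Subgroup.eq_of_le_of_card_ge le_sup_left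
      (by rw [hi, hk]; exact Nat.pow_le_pow_right hp.out.pos (by omega))
    exact haZ (heq.ge (Subgroup.mem_sup_right (Subgroup.mem_zpowers a)))
  have hidx : Nat.card (φ.ker ⧸ A) ∣ p := by
    have h1 := A.card_mul_index
    rw [Nat.card_congr (Subgroup.subgroupOfEquivOfLe hle).toEquiv, hi, hkc, Subgroup.index_eq_card] at h1
    obtain ⟨j, hj⟩ := IsPGroup.iff_card.1 ((hPp.to_subgroup φ.ker).to_quotient A)
    rw [hj, ← pow_add] at h1
    rw [hj]
    have := Nat.pow_right_injective hp.out.two_le h1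
    exact (pow_dvd_pow p (by omega : j ≤ 1)).trans (pow_one p).dvd
  haveI : IsCyclic (φ.ker ⧸ A) := by
    rcases (Nat.dvd_prime hp.out).1 hidx with h | h
    · haveI := (Nat.card_eq_one_iff_unique.1 h).1
      exact isCyclic_of_subsingleton
    · exact isCyclic_of_prime_card h
  exact ⟨⟨commutative_of_cyclic_center_quotient (QuotientGroup.mk' A) (by rw [QuotientGroup.ker_mk']; exact hAc)⟩⟩

/-- A non-abelian group of exponent `p` has a non-abelian subgroup of order `p ^ 3`. -/
theorem exists_nonabelian_card_cube (hP : IsPGroup p P) (hexp : ∀ x : P, x ^ p = 1)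
    (hna : ¬ IsMulCommutative P) : ∃ B : Subgroup P, Nat.card B = p ^ 3 ∧ ¬ IsMulCommutative B := by
  set Z := Subgroup.center P with hZ
  have hZt : Z ≠ ⊤ := fun h => hna ⟨⟨fun a b => (Subgroup.mem_center_iff.1 (h ▸ Subgroup.mem_top b : b ∈ Z) a)⟩⟩
  haveI : Nontrivial (P ⧸ Z) := QuotientGroup.nontrivial_iff.2 hZt
  haveI := (hP.to_quotient Z).center_nontrivial
  obtain ⟨⟨w, hw⟩, hw1⟩ := exists_ne (1 : Subgroup.center (P ⧸ Z))
  obtain ⟨a, rfl⟩ := QuotientGroup.mk'_surjective Z w
  have haZ : a ∉ Z := fun h => hw1 (Subtype.ext ((QuotientGroup.eq_one_iff a).2 h))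
  obtain ⟨b, hb⟩ : ∃ b, ¬ Commute b a := by
    by_contra h
    push Not at h
    exact haZ (Subgroup.mem_center_iff.2 fun b => h b)
  set c := ⁅b, a⁆ with hc
  have hcZ : c ∈ Z := (QuotientGroup.eq_one_iff _).1 (by
    show QuotientGroup.mk' Z ⁅b, a⁆ = 1
    rw [map_commutatorElement, commutatorElement_eq_one_iff_commute]
    exact Subgroup.mem_center_iff.1 hw _)
  have hc1 : c ≠ 1 := fun h => hb (commutatorElement_eq_one_iff_commute.1 h)
  have ho : ∀ x : P, x ≠ 1 → orderOf x = p := fun x hx => orderOf_eq_prime (hexp x) hx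
  have hac : Commute a c := Subgroup.mem_center_iff.1 hcZ a
  have ha1 : a ≠ 1 := fun h => haZ (h ▸ Z.one_mem)
  have hn1 : Subgroup.zpowers c ≤ Subgroup.normalizer ((Subgroup.zpowers a : Subgroup P) : Set P) :=
    Subgroup.zpowers_le.2 (Subgroup.centralizer_le_normalizer _ (Subgroup.mem_centralizer_iff.2 (by
      rintro _ ⟨i, rfl⟩; exact (hac.zpow_left i).eq)))
  have hd1 : Subgroup.zpowers c ⊓ Subgroup.zpowers a = ⊥ := by
    refine (Subgroup.eq_bot_iff_forall _).2 fun z hz => ?_
    by_contra hz1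
    obtain ⟨hzc, hza⟩ := Subgroup.mem_inf.1 hz
    have e1 : Subgroup.zpowers z = Subgroup.zpowers a := Subgroup.eq_of_le_of_card_ge
      (Subgroup.zpowers_le.2 hza) (by rw [Nat.card_zpowers, Nat.card_zpowers, ho z hz1, ho a ha1])
    exact haZ (Subgroup.zpowers_le.2 hcZ (e1.symm.le.trans (Subgroup.zpowers_le.2 hzc) (Subgroup.mem_zpowers a)))
  set E := Subgroup.zpowers c ⊔ Subgroup.zpowers a with hE
  have hEc : Nat.card E = p * p := by
    rw [hE, CfsgLib.BGAppendix.card_sup_eq_mul _ _ hn1 hd1, Nat.card_zpowers, Nat.card_zpowers, ho c hc1, ho a ha1]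
  have hcomm_a : ∀ v ∈ E, Commute v a := by
    have : E ≤ Subgroup.centralizer ({a} : Set P) := sup_le
      (Subgroup.zpowers_le.2 (Subgroup.mem_centralizer_singleton_iff.2 hac.symm.eq))
      (Subgroup.zpowers_le.2 (Subgroup.mem_centralizer_singleton_iff.2 rfl))
    exact fun v hv => Subgroup.mem_centralizer_singleton_iff.1 (this hv)
  have hbn : Subgroup.zpowers b ≤ Subgroup.normalizer (E : Set P) := by
    refine Subgroup.zpowers_le.2 ?_
    have hmap : E.map (MulAut.conj b).toMonoidHom ≤ E := by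
      rw [hE, Subgroup.map_sup, MonoidHom.map_zpowers, MonoidHom.map_zpowers]
      refine sup_le (Subgroup.zpowers_le.2 ?_) (Subgroup.zpowers_le.2 ?_)
      · show b * c * b⁻¹ ∈ _
        rw [Subgroup.mem_center_iff.1 hcZ b, mul_inv_cancel_right]
        exact Subgroup.mem_sup_left (Subgroup.mem_zpowers c)
      · show b * a * b⁻¹ ∈ _
        rw [show b * a * b⁻¹ = c * a by rw [hc, commutatorElement_def]; group]
        exact mul_mem (Subgroup.mem_sup_left (Subgroup.mem_zpowers c)) (Subgroup.mem_sup_right (Subgroup.mem_zpowers a))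
    have heq := Subgroup.eq_of_le_of_card_ge hmap (by
      rw [Subgroup.card_map_of_injective (MulAut.conj b).injective])
    refine Subgroup.mem_normalizer_iff.2 fun z => ?_
    conv_rhs => rw [← heq]
    exact (Subgroup.mem_map_iff_mem (f := (MulAut.conj b).toMonoidHom) (MulAut.conj b).injective).symm
  have hb1 : b ≠ 1 := fun h => hb (h ▸ Commute.one_left a)
  have hd2 : Subgroup.zpowers b ⊓ E = ⊥ := by
    refine (Subgroup.eq_bot_iff_forall _).2 fun z hz => ?_
    by_contra hz1
    obtain ⟨hzb, hzE⟩ := Subgroup.mem_inf.1 hz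
    have e1 : Subgroup.zpowers z = Subgroup.zpowers b := Subgroup.eq_of_le_of_card_ge
      (Subgroup.zpowers_le.2 hzb) (by rw [Nat.card_zpowers, Nat.card_zpowers, ho z hz1, ho b hb1])
    exact hb (hcomm_a b ((Subgroup.zpowers_le.2 hzE) (e1.ge (Subgroup.mem_zpowers b))))
  refine ⟨Subgroup.zpowers b ⊔ E, ?_, fun h => hb ?_⟩
  · rw [CfsgLib.BGAppendix.card_sup_eq_mul _ _ hbn hd2, hEc, Nat.card_zpowers, ho b hb1]
    ring
  · exact congrArg Subtype.val (h.is_comm.comm
      (⟨b, Subgroup.mem_sup_left (Subgroup.mem_zpowers b)⟩ : ↥(Subgroup.zpowers b ⊔ E))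
      ⟨a, Subgroup.mem_sup_right (Subgroup.mem_sup_right (Subgroup.mem_zpowers a))⟩)

/-- The structure of a `p`-group whose subgroups of equal order are isomorphic. -/
theorem structure_of_iso_subgroups (hP : IsPGroup p P)
    (h : ∀ A B : Subgroup P, Nat.card A = Nat.card B → Nonempty (A ≃* B)) :
    IsCyclic P ∨ (IsMulCommutative P ∧ ∀ x : P, x ^ p = 1) ∨
      (p = 2 ∧ Nonempty (P ≃* QuaternionGroup 2)) ∨
      (p ≠ 2 ∧ ¬ IsMulCommutative P ∧ Nat.card P = p ^ 3 ∧ Monoid.exponent P = p) := by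
  by_cases hexp : ∀ x : P, x ^ p = 1
  · by_cases hab : IsMulCommutative P
    · exact Or.inr (Or.inl ⟨hab, hexp⟩)
    refine Or.inr (Or.inr (Or.inr ⟨?_, hab, ?_, ?_⟩))
    · rintro rfl
      refine hab ⟨⟨fun a b => ?_⟩⟩
      have e : ∀ c : P, c⁻¹ = c := fun c => inv_eq_of_mul_eq_one_right (by rw [← pow_two, hexp c])
      calc a * b = (a * b)⁻¹ := (e _).symm
        _ = b * a := by rw [mul_inv_rev, e a, e b]
    · obtain ⟨B, hB, hBna⟩ := exists_nonabelian_card_cube hP hexp hab
      obtain ⟨n, hn⟩ := IsPGroup.iff_card.1 hP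
      have h3 : p ^ 3 ∣ p ^ n := hn ▸ hB ▸ Subgroup.card_subgroup_dvd_card B
      have hn3 := (Nat.pow_dvd_pow_iff_le_right hp.out.one_lt).1 h3
      rcases hn3.eq_or_lt with rfl | hn4
      · exact hn
      exfalso
      obtain ⟨Q, hQ⟩ := Sylow.exists_subgroup_card_pow_prime (G := P) p (hn ▸ pow_dvd_pow p hn4 : p ^ 4 ∣ Nat.card P)
      obtain ⟨A, hA, hAab⟩ := exists_abelian_card_cube hQ
      obtain ⟨e⟩ := h (A.map Q.subtype) B (by rw [Subgroup.card_map_of_injective Q.subtype_injective, hA, hB])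
      refine hBna ⟨⟨fun u v => ?_⟩⟩
      apply ((A.equivMapOfInjective Q.subtype Q.subtype_injective).trans e).symm.injective
      rw [map_mul, map_mul]
      exact hAab.is_comm.comm _ _
    · haveI : Nontrivial P := not_subsingleton_iff_nontrivial.1 fun _ => hab ⟨⟨fun a b => Subsingleton.elim _ _⟩⟩
      obtain ⟨x, hx⟩ := exists_ne (1 : P)
      refine Nat.dvd_antisymm (Monoid.exponent_dvd_of_forall_pow_eq_one hexp) ?_
      have := Monoid.order_dvd_exponent x
      rwa [orderOf_eq_prime (hexp x) hx] at this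
  · push Not at hexp
    obtain ⟨x, hx⟩ := hexp
    obtain ⟨i, hi⟩ := IsPGroup.iff_orderOf.1 hP x
    have hi2 : 2 ≤ i := by
      by_contra hlt
      refine hx (orderOf_dvd_iff_pow_eq_one.1 (hi ▸ ?_))
      exact (pow_dvd_pow p (by omega : i ≤ 1)).trans (pow_one p).dvd
    obtain ⟨d, hd⟩ : ∃ d, orderOf (x ^ d) = p ^ 2 := by
      refine ⟨p ^ (i - 2), ?_⟩
      rw [orderOf_pow' x (pow_ne_zero _ hp.out.ne_zero), hi, Nat.gcd_eq_right (pow_dvd_pow p (by omega)),
        Nat.pow_div (by omega) hp.out.pos]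
      congr 1; omega
    by_cases hu : CfsgLib.TwoGroups.UniqueOrderP p P
    · rcases CfsgLib.TwoGroups.isCyclic_or_quaternion hP hu with hc | ⟨rfl, m, hm, ⟨e⟩⟩
      · exact Or.inl hc
      refine Or.inr (Or.inr (Or.inl ⟨rfl, ?_⟩))
      rcases hm.eq_or_lt with rfl | hm2
      · exact ⟨e⟩
      exfalso
      haveI : NeZero (2 ^ m) := ⟨by positivity⟩
      set a := e.symm (QuaternionGroup.a 1) with ha
      set b := e.symm (QuaternionGroup.xa 0) with hb
      have hao : orderOf a = 2 ^ (m + 1) := by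
        rw [ha, MulEquiv.orderOf_eq, QuaternionGroup.orderOf_a_one]; ring
      have hPc : Nat.card P = 2 ^ (m + 2) := by
        rw [Nat.card_congr e.toEquiv, Nat.card_eq_fintype_card, QuaternionGroup.card]; ring
      obtain ⟨M, hM, hbM⟩ := Sylow.exists_subgroup_card_pow_prime_le (G := P) 2
        (hPc ▸ pow_dvd_pow 2 (by omega) : 2 ^ (m + 1) ∣ Nat.card P) (Subgroup.zpowers b) (n := 2)
        (by rw [Nat.card_zpowers, hb, MulEquiv.orderOf_eq, QuaternionGroup.orderOf_xa]; norm_num) (by omega)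
      obtain ⟨f⟩ := h (Subgroup.zpowers a) M (by rw [Nat.card_zpowers, hao, hM])
      set g : M := f ⟨a, Subgroup.mem_zpowers a⟩ with hg
      have hgo : orderOf (g : P) = 2 ^ (m + 1) := by
        rw [Subgroup.orderOf_coe, hg, MulEquiv.orderOf_eq, Subgroup.orderOf_mk, hao]
      have hgMe : Subgroup.zpowers (g : P) = M := Subgroup.eq_of_le_of_card_ge
        (Subgroup.zpowers_le.2 g.2) (by rw [Nat.card_zpowers, hgo, hM])
      have hga : (g : P) ∈ Subgroup.zpowers a := by
        obtain ⟨q, hq⟩ : ∃ q, e (g : P) = q := ⟨_, rfl⟩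
        rcases q with i | i
        · refine ⟨(i.val : ℤ), e.injective ?_⟩
          show e (a ^ (i.val : ℤ)) = e (g : P)
          rw [zpow_natCast, map_pow, ha, e.apply_symm_apply, QuaternionGroup.a_one_pow,
            ZMod.natCast_zmod_val, hq]
        · exfalso
          have h4 : orderOf (e (g : P)) = 4 := by rw [hq, QuaternionGroup.orderOf_xa]
          rw [MulEquiv.orderOf_eq, hgo] at h4
          have := Nat.pow_le_pow_right (show 2 > 0 by norm_num) (show 3 ≤ m + 1 by omega)
          omega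
      have hba : b ∈ Subgroup.zpowers a :=
        (Subgroup.zpowers_le.2 hga) (hgMe.ge (hbM (Subgroup.mem_zpowers b)))
      obtain ⟨k, hk⟩ := hba
      have hk' := congrArg e hk
      simp only [map_zpow, ha, hb, e.apply_symm_apply] at hk'
      obtain ⟨n', hn'⟩ : ∃ n' : ℕ, (QuaternionGroup.a 1 : QuaternionGroup (2 ^ m)) ^ n' =
          (QuaternionGroup.a 1 : QuaternionGroup (2 ^ m)) ^ k :=
        (isOfFinOrder_of_finite _).mem_powers_iff_mem_zpowers.2 ⟨k, rfl⟩
      have hj : (QuaternionGroup.a 1 : QuaternionGroup (2 ^ m)) ^ k = QuaternionGroup.a n' :=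
        hn'.symm.trans (QuaternionGroup.a_one_pow n')
      rw [hj] at hk'
      exact absurd hk' (by simp)
    · exfalso
      unfold CfsgLib.TwoGroups.UniqueOrderP at hu
      push Not at hu
      obtain ⟨a0, b0, ha0, hb0, hab0⟩ := hu
      haveI : Nontrivial P := nontrivial_of_ne a0 1 fun h => by
        rw [h, orderOf_one] at ha0; exact hp.out.ne_one ha0.symm
      haveI := hP.center_nontrivial
      obtain ⟨k, hk⟩ := IsPGroup.iff_card.1 (hP.to_subgroup (Subgroup.center P))
      have hk0 : k ≠ 0 := fun h => (Finite.one_lt_card (α := Subgroup.center P)).ne' (by rw [hk, h, pow_zero])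
      obtain ⟨z, hz⟩ := exists_prime_orderOf_dvd_card' (G := Subgroup.center P) p (hk ▸ dvd_pow_self p hk0)
      have hzo : orderOf (z : P) = p := by rw [Subgroup.orderOf_coe, hz]
      obtain ⟨b, hbo, hbz⟩ : ∃ b : P, orderOf b = p ∧ b ∉ Subgroup.zpowers (z : P) := by
        by_contra hcon
        push Not at hcon
        refine hab0 ?_
        have e1 : Subgroup.zpowers a0 = Subgroup.zpowers (z : P) := Subgroup.eq_of_le_of_card_ge
          (Subgroup.zpowers_le.2 (hcon a0 ha0)) (by rw [Nat.card_zpowers, Nat.card_zpowers, ha0, hzo])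
        exact e1 ▸ hcon b0 hb0
      have hn : Subgroup.zpowers (z : P) ≤ Subgroup.normalizer ((Subgroup.zpowers b : Subgroup P) : Set P) :=
        Subgroup.zpowers_le.2 (Subgroup.centralizer_le_normalizer _ (Subgroup.center_le_centralizer _ z.2))
      have hd' : Subgroup.zpowers (z : P) ⊓ Subgroup.zpowers b = ⊥ := by
        refine (Subgroup.eq_bot_iff_forall _).2 fun w hw => ?_
        by_contra hw1
        obtain ⟨hwz, hwb⟩ := Subgroup.mem_inf.1 hw
        have hwo : orderOf w = p := (hp.out.eq_one_or_self_of_dvd _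
          ((Subgroup.orderOf_dvd_natCard _ hwb).trans (by rw [Nat.card_zpowers, hbo]))).resolve_left
            (fun h => hw1 (orderOf_eq_one_iff.1 h))
        have e1 : Subgroup.zpowers w = Subgroup.zpowers b := Subgroup.eq_of_le_of_card_ge
          (Subgroup.zpowers_le.2 hwb) (by rw [Nat.card_zpowers, Nat.card_zpowers, hwo, hbo])
        exact hbz ((Subgroup.zpowers_le.2 hwz) (e1.ge (Subgroup.mem_zpowers b)))
      obtain ⟨f⟩ := h (Subgroup.zpowers (x ^ d)) (Subgroup.zpowers (z : P) ⊔ Subgroup.zpowers b) (by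
        rw [CfsgLib.BGAppendix.card_sup_eq_mul _ _ hn hd', Nat.card_zpowers, Nat.card_zpowers, Nat.card_zpowers,
          hzo, hbo, hd, pow_two])
      have hcyc : IsCyclic ↥(Subgroup.zpowers (z : P) ⊔ Subgroup.zpowers b) := f.isCyclic.1 inferInstance
      exact hbz (by
        rw [CfsgLib.BGAppendix.eq_of_card_eq_of_le_cyclic _ (Subgroup.zpowers (z : P)) (Subgroup.zpowers b)
          hcyc le_sup_left le_sup_right (by rw [Nat.card_zpowers, Nat.card_zpowers, hzo, hbo])]
        exact Subgroup.mem_zpowers b)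

end CfsgLib.SchurExt
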