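import Cfsg.Agent.Lib.CoprimeAction.Abelian
import Cfsg.Agent.Lib.Cores.PCore
import Cfsg.Agent.Lib.Coherence.Signed
import Cfsg.Agent.Lib.Coherence.Virtual
import Cfsg.Agent.Lib.Frobenius.TI
import Cfsg.Agent.Lib.CharTheory.PermChar
import Cfsg.Agent.Lib.CharTheory.Linear
import Cfsg.Agent.Lib.CharTheory.Inflation
import Cfsg.Agent.Lib.BrauerCharacters.ClassMul
import Mathlib.GroupTheory.SpecificGroups.Dihedral
import Mathlib.GroupTheory.Transfer

/-!
A self-centralising elementary abelian Sylow `3`-subgroup `S` of order `9` with automizer a four-group,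
such that `N(S) ≅ S₃ × S₃` contains the centralisers of all nontrivial elements of `S`.
-/

set_option autoImplicit false
set_option linter.style.haveILetI false
set_option linter.unusedSectionVars false

open Cfsg
open scoped ComplexConjugate

namespace CfsgLib.SchurExt.KleinNine

open DihedralGroup

abbrev DD := DihedralGroup 3 × DihedralGroup 3

/-- Being a rotation. -/
def rot : DihedralGroup 3 → Bool
  | .r _ => true
  | .sr _ => false

/-- The rotations of `DD`. -/
def Rot (p : DD) : Prop := rot p.1 = true ∧ rot p.2 = true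

instance (p : DD) : Decidable (Rot p) := inferInstanceAs (Decidable (_ ∧ _))

/-- Three on the nontrivial rotations, zero elsewhere. -/
def thetaZ : DihedralGroup 3 → ℤ
  | .r k => if k = 0 then 0 else 3
  | .sr _ => 0

def ra : DD := (.r 1, 1)
def rb : DD := (1, .r 1)
def si : DD := (.sr 0, 1)
def sj : DD := (1, .sr 0)
def sk : DD := (.sr 0, .sr 0)

/-- The local configuration. -/
structure Datum (G : Type*) [Group G] where
  e : DD →* G
  inj : Function.Injective e
  T : Sylow 3 G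
  mem_T : ∀ g : G, g ∈ (T : Subgroup G) ↔ ∃ p, Rot p ∧ e p = g
  range_eq : e.range = Subgroup.normalizer ((T : Subgroup G) : Set G)
  self_cent : Subgroup.centralizer ((T : Subgroup G) : Set G) ≤ (T : Subgroup G)
  cent_le : ∀ g ∈ (T : Subgroup G), g ≠ 1 → Subgroup.centralizer ({g} : Set G) ≤ e.range

namespace Datum

variable {G : Type*} [Group G] (D : Datum G)

/-- Interchange the two factors. -/
def swap : Datum G where
  e := D.e.comp (MulEquiv.prodComm : DD ≃* DD).toMonoidHom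
  inj := D.inj.comp (MulEquiv.prodComm : DD ≃* DD).injective
  T := D.T
  mem_T g := by
    rw [D.mem_T]
    constructor
    · rintro ⟨p, hp, rfl⟩
      exact ⟨p.swap, ⟨hp.2, hp.1⟩, by simp⟩
    · rintro ⟨p, hp, rfl⟩
      exact ⟨p.swap, ⟨hp.2, hp.1⟩, by simp⟩
  range_eq := by
    rw [MonoidHom.range_eq_map, ← Subgroup.map_map, Subgroup.map_top_of_surjective _
      (MulEquiv.prodComm : DD ≃* DD).surjective, ← MonoidHom.range_eq_map, D.range_eq]
  self_cent := D.self_cent
  cent_le g hg h1 := by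
    rw [MonoidHom.range_eq_map, ← Subgroup.map_map, Subgroup.map_top_of_surjective _
      (MulEquiv.prodComm : DD ≃* DD).surjective, ← MonoidHom.range_eq_map]
    exact D.cent_le g hg h1

theorem swap_si : D.swap.e si = D.e sj := rfl
theorem swap_sj : D.swap.e sj = D.e si := rfl
theorem swap_sk : D.swap.e sk = D.e sk := rfl

theorem rot_mem {p : DD} (hp : Rot p) : D.e p ∈ (D.T : Subgroup G) := (D.mem_T _).2 ⟨p, hp, rfl⟩

theorem ne_one {p : DD} (hp : p ≠ 1) : D.e p ≠ 1 := fun h => hp (D.inj (h.trans D.e.map_one.symm))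

theorem rot_of_cube {p : DD} (h : D.e p ^ 3 = 1) : Rot p := by
  have : p ^ 3 = 1 := D.inj (by rw [map_pow, h, map_one])
  exact (by decide : ∀ p : DD, p ^ 3 = 1 → Rot p) p this

theorem cube_T {g : G} (h : g ∈ (D.T : Subgroup G)) : g ^ 3 = 1 := by
  obtain ⟨p, hp, rfl⟩ := (D.mem_T g).1 h
  rw [← map_pow, (by decide : ∀ p : DD, Rot p → p ^ 3 = 1) p hp, map_one]

theorem comm_T {g h : G} (hg : g ∈ (D.T : Subgroup G)) (hh : h ∈ (D.T : Subgroup G)) :
    g * h = h * g := by
  obtain ⟨p, hp, rfl⟩ := (D.mem_T g).1 hg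
  obtain ⟨q, hq, rfl⟩ := (D.mem_T h).1 hh
  rw [← map_mul, ← map_mul, (by decide : ∀ p q : DD, Rot p → Rot q → p * q = q * p) p q hp hq]

theorem card_T : Nat.card (D.T : Subgroup G) = 9 := by
  have h : Nat.card {p : DD // Rot p} = Nat.card (D.T : Subgroup G) :=
    Nat.card_congr (Equiv.ofBijective (fun p => ⟨D.e p.1, D.rot_mem p.2⟩)
      ⟨fun p q h => Subtype.ext (D.inj (congrArg Subtype.val h)), fun g => by
        obtain ⟨p, hp, he⟩ := (D.mem_T g.1).1 g.2
        exact ⟨⟨p, hp⟩, Subtype.ext he⟩⟩)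
  rw [← h, Nat.card_eq_fintype_card]
  decide

/-- Fusion in `S` is controlled by the normaliser, in a strong form. -/
theorem fusion [Finite G] {u g : G} (hu : u ∈ (D.T : Subgroup G)) (h1 : u ≠ 1)
    (hg : g * u * g⁻¹ ∈ (D.T : Subgroup G)) : g ∈ D.e.range := by
  have hne : g * u * g⁻¹ ≠ 1 := fun h => h1 (by simpa using h)
  rw [D.range_eq]
  refine Subgroup.mem_normalizer_fintype fun x hx => ?_
  have hc : g * x * g⁻¹ ∈ Subgroup.centralizer ({g * u * g⁻¹} : Set G) := by
    rw [Subgroup.mem_centralizer_singleton_iff]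
    calc g * x * g⁻¹ * (g * u * g⁻¹) = g * (x * u) * g⁻¹ := by group
      _ = g * u * g⁻¹ * (g * x * g⁻¹) := by rw [D.comm_T hx hu]; group
  obtain ⟨p, hp⟩ := D.cent_le _ hg hne hc
  have h3 : (g * x * g⁻¹) ^ 3 = 1 := by rw [conj_pow, D.cube_T hx, mul_one, mul_inv_cancel]
  rw [← hp]
  exact D.rot_mem (D.rot_of_cube (by rw [hp, h3]))

theorem exists_conj_le [Finite G] {Q : Subgroup G} (hQ : IsPGroup 3 Q) :
    ∃ g : G, ∀ x ∈ Q, g * x * g⁻¹ ∈ (D.T : Subgroup G) := by
  haveI := Fact.mk Nat.prime_three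
  obtain ⟨P, hP⟩ := hQ.exists_le_sylow
  obtain ⟨g, hg⟩ := MulAction.exists_smul_eq G P D.T
  refine ⟨g, fun x hx => ?_⟩
  rw [← hg]
  exact Subgroup.mem_map.2 ⟨x, hP hx, rfl⟩

include D in
/-- An involution centralises no subgroup of order `9`. -/
theorem not_nine_dvd_cent [Finite G] {t : G} (ht : t * t = 1) (h1 : t ≠ 1) :
    ¬ 3 ^ 2 ∣ Nat.card (Subgroup.centralizer ({t} : Set G)) := by
  haveI := Fact.mk Nat.prime_three
  intro h
  obtain ⟨Q, hQ⟩ := Sylow.exists_subgroup_card_pow_prime 3 h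
  have hcQ : Nat.card (Q.map (Subgroup.centralizer ({t} : Set G)).subtype) = 9 := by
    rw [Subgroup.card_map_of_injective (Subgroup.subtype_injective _), hQ]; norm_num
  obtain ⟨g, hg⟩ := D.exists_conj_le (IsPGroup.of_card (n := 2) (by rw [hcQ]; norm_num) :
    IsPGroup 3 (Q.map (Subgroup.centralizer ({t} : Set G)).subtype))
  have hle : (Q.map (Subgroup.centralizer ({t} : Set G)).subtype).map
      (MulAut.conj g).toMonoidHom ≤ (D.T : Subgroup G) := by
    rintro x ⟨y, hy, rfl⟩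
    exact hg y hy
  have heq := Subgroup.eq_of_le_of_card_ge hle
    (by rw [Subgroup.card_map_of_injective (MulAut.conj g).injective, hcQ, D.card_T])
  have hmem : g * t * g⁻¹ ∈ (D.T : Subgroup G) := by
    refine D.self_cent (Subgroup.mem_centralizer_iff.2 fun x hx => ?_)
    rw [SetLike.mem_coe, ← heq] at hx
    obtain ⟨y, ⟨⟨z, hz⟩, hzQ, rfl⟩, rfl⟩ := hx
    have hzt : z * t = t * z := Subgroup.mem_centralizer_singleton_iff.1 hz
    simp only [MulEquiv.coe_toMonoidHom, MulAut.conj_apply, Subgroup.coe_subtype]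
    calc g * z * g⁻¹ * (g * t * g⁻¹) = g * (z * t) * g⁻¹ := by group
      _ = g * t * g⁻¹ * (g * z * g⁻¹) := by rw [hzt]; group
  have h3 := D.cube_T hmem
  rw [conj_pow, pow_succ, pow_two, ht, one_mul] at h3
  exact h1 (by simpa using h3)

/-- The two kinds of involutions centralising an element of `S` are not fused. -/
theorem not_isConj_si_sj [Finite G] : ¬ IsConj (D.e si) (D.e sj) := by
  haveI := Fact.mk Nat.prime_three
  intro h
  obtain ⟨g, hg⟩ := isConj_iff.1 h
  set C := Subgroup.centralizer ({D.e sj} : Set G) with hC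
  have ha : D.e ra ∈ C := by
    rw [hC, Subgroup.mem_centralizer_singleton_iff, ← map_mul, ← map_mul,
      (by decide : ra * sj = sj * ra)]
  have hb : g * D.e rb * g⁻¹ ∈ C := by
    rw [hC, Subgroup.mem_centralizer_singleton_iff, ← hg]
    calc g * D.e rb * g⁻¹ * (g * D.e si * g⁻¹) = g * (D.e rb * D.e si) * g⁻¹ := by group
      _ = g * D.e si * g⁻¹ * (g * D.e rb * g⁻¹) := by
        rw [← map_mul, (by decide : rb * si = si * rb), map_mul]; group
  have hoa : orderOf (⟨D.e ra, ha⟩ : C) = 3 := by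
    refine orderOf_eq_prime (Subtype.ext ?_) fun e => D.ne_one (by decide) (congrArg Subtype.val e)
    push_cast
    rw [← map_pow, (by decide : ra ^ 3 = 1), map_one]
  have hob : orderOf (⟨g * D.e rb * g⁻¹, hb⟩ : C) = 3 := by
    refine orderOf_eq_prime (Subtype.ext ?_) fun e => ?_
    · push_cast
      rw [conj_pow, ← map_pow, (by decide : rb ^ 3 = 1), map_one, mul_one, mul_inv_cancel]
    · have h1 : g * D.e rb * g⁻¹ = 1 := congrArg Subtype.val e
      exact D.ne_one (by decide : rb ≠ 1) (by simpa using h1)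
  have h9 : ¬ 3 ^ 2 ∣ Nat.card C := D.not_nine_dvd_cent
    (by rw [← map_mul, (by decide : sj * sj = 1), map_one]) (D.ne_one (by decide))
  have hsyl : ∀ x : C, orderOf x = 3 → ∃ P : Sylow 3 C, (P : Subgroup C) = Subgroup.zpowers x := by
    intro x hx
    obtain ⟨P, hP⟩ := (IsPGroup.of_card (n := 1) (by rw [Nat.card_zpowers, hx, pow_one]) :
      IsPGroup 3 (Subgroup.zpowers x)).exists_le_sylow
    obtain ⟨n, hn⟩ := P.isPGroup'.exists_card_eq
    have hn1 : n ≤ 1 := by
      by_contra hlt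
      exact h9 ((Nat.pow_dvd_pow 3 (show 2 ≤ n by omega)).trans
        (hn ▸ Subgroup.card_subgroup_dvd_card (P : Subgroup C)))
    refine ⟨P, (Subgroup.eq_of_le_of_card_ge hP ?_).symm⟩
    rw [hn, Nat.card_zpowers, hx]
    exact (Nat.pow_le_pow_right (by norm_num) hn1).trans (by norm_num)
  obtain ⟨P, hP⟩ := hsyl _ hoa
  obtain ⟨Q, hQ⟩ := hsyl _ hob
  obtain ⟨c, hc⟩ := MulAction.exists_smul_eq C Q P
  have hmem : c * (⟨g * D.e rb * g⁻¹, hb⟩ : C) * c⁻¹ ∈ (P : Subgroup C) := by
    rw [← hc]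
    exact Subgroup.mem_map.2 ⟨_, hQ ▸ Subgroup.mem_zpowers _, rfl⟩
  rw [hP, Subgroup.mem_zpowers_iff] at hmem
  obtain ⟨k, hk⟩ := hmem
  have hk' : D.e (ra ^ k) = (c : G) * g * D.e rb * ((c : G) * g)⁻¹ := by
    have := congrArg Subtype.val hk
    push_cast at this
    rw [map_zpow, this]
    group
  have hmemT : (c : G) * g * D.e rb * ((c : G) * g)⁻¹ ∈ (D.T : Subgroup G) := by
    rw [← hk', map_zpow]
    exact zpow_mem (D.rot_mem (by decide)) k
  obtain ⟨q, hq⟩ := D.fusion (D.rot_mem (by decide : Rot rb)) (D.ne_one (by decide)) hmemT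
  rw [← hq, ← map_inv, ← map_mul, ← map_mul] at hk'
  have he : ra ^ k = q * rb * q⁻¹ := D.inj hk'
  have h2 : (q * rb * q⁻¹).2 = 1 := by rw [← he]; simp [ra]
  exact (by decide : ∀ q : DD, (q * rb * q⁻¹).2 ≠ 1) q h2

/-- One of the two kinds of involutions is fused to nothing else. -/
theorem isolated [Finite G] :
    (¬ IsConj (D.e sj) (D.e si) ∧ ¬ IsConj (D.e sj) (D.e sk)) ∨
      (¬ IsConj (D.swap.e sj) (D.swap.e si) ∧ ¬ IsConj (D.swap.e sj) (D.swap.e sk)) := by
  by_cases h : IsConj (D.e sj) (D.e sk)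
  · refine Or.inr ⟨?_, ?_⟩
    · rw [swap_sj, swap_si]; exact D.not_isConj_si_sj
    · rw [swap_sj, swap_sk]; exact fun h' => D.not_isConj_si_sj (h'.trans h.symm)
  · exact Or.inl ⟨fun h' => D.not_isConj_si_sj h'.symm, h⟩

end Datum

end CfsgLib.SchurExt.KleinNine
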