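import Cfsg.Agent.Lib.SchurExt.KleinNine

/-!
The exceptional characters of the configuration put an involution into a proper normal subgroup.
-/

set_option autoImplicit false
set_option linter.style.haveILetI false
set_option linter.unusedSectionVars false

open Cfsg
open scoped ComplexConjugate

namespace CfsgLib.SchurExt.KleinNine

open DihedralGroup

/-- The action of `S₃` on three points. -/
def permHom : DihedralGroup 3 →* Equiv.Perm (ZMod 3) where
  toFun
    | .r k => Equiv.addLeft k
    | .sr k => (Equiv.addLeft k).trans (Equiv.neg _)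
  map_one' := by decide
  map_mul' := by decide

/-- The sign of `S₃`. -/
noncomputable def signHom : DihedralGroup 3 →* ℂˣ where
  toFun
    | .r _ => 1
    | .sr _ => -1
  map_one' := rfl
  map_mul' x y := by rcases x with i | i <;> rcases y with j | j <;> simp [DihedralGroup.r_mul_r,
    DihedralGroup.r_mul_sr, DihedralGroup.sr_mul_r, DihedralGroup.sr_mul_sr]

theorem signHom_r (k : ZMod 3) : (signHom (.r k) : ℂ) = 1 := rfl

theorem signHom_sr (k : ZMod 3) : (signHom (.sr k) : ℂ) = -1 := rfl

theorem isGeneralizedCharacter_theta :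
    IsGeneralizedCharacter (DihedralGroup 3) (fun x => (thetaZ x : ℂ)) := by
  classical
  letI : MulAction (DihedralGroup 3) (ZMod 3) := MulAction.compHom _ permHom
  have hpi := CharTheory.isCharacter_card_fixedBy (G := DihedralGroup 3) (ZMod 3)
  have hone : IsCharacter (DihedralGroup 3) (fun _ => (1 : ℂ)) :=
    CharTheory.IsIrrCharacter.isCharacter CharTheory.isIrrCharacter_one
  have hs : IsCharacter (DihedralGroup 3) (fun x => (signHom x : ℂ)) :=
    CharTheory.IsIrrCharacter.isCharacter (CharTheory.isIrrCharacter_linear signHom)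
  refine ⟨_, _, Coherence.isCharacter_add (Coherence.isCharacter_add hone hone) hs, hpi, ?_⟩
  funext x
  have hfix : ∀ x : DihedralGroup 3, Nat.card (MulAction.fixedBy (ZMod 3) x) =
      (Finset.univ.filter fun z : ZMod 3 => permHom x z = z).card := by
    intro x
    rw [Nat.card_eq_fintype_card, Fintype.card_of_subtype]
    intro z
    simp [MulAction.mem_fixedBy, MulAction.compHom_smul_def]
  simp only [Pi.sub_apply, Pi.add_apply, hfix]
  rcases x with k | k
  · by_cases hk : k = 0
    · subst hk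
      have : (Finset.univ.filter fun z : ZMod 3 => permHom (.r 0) z = z).card = 3 := by decide
      rw [this]
      simp [thetaZ, signHom_r, signHom_sr]
      norm_num
    · have : ∀ k : ZMod 3, k ≠ 0 →
          (Finset.univ.filter fun z : ZMod 3 => permHom (.r k) z = z).card = 0 := by decide
      rw [this k hk]
      simp [thetaZ, signHom_r, hk]
      norm_num
  · have : ∀ k : ZMod 3,
        (Finset.univ.filter fun z : ZMod 3 => permHom (.sr k) z = z).card = 1 := by decide
    rw [this k]
    simp [thetaZ, signHom_r, signHom_sr]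

namespace Datum

variable {G : Type*} [Group G] (D : Datum G)

/-- `D.e` as an isomorphism onto its range. -/
noncomputable def E : DD ≃* D.e.range := MonoidHom.ofInjective D.inj

theorem coe_E (p : DD) : ((D.E p : D.e.range) : G) = D.e p := MonoidHom.ofInjective_apply D.inj

/-- The function on the normaliser. -/
noncomputable def f : D.e.range → ℂ := fun h => (thetaZ (D.E.symm h).1 : ℂ)

theorem f_gen : IsGeneralizedCharacter D.e.range D.f :=
  Coherence.isGeneralizedCharacter_comp (Coherence.isGeneralizedCharacter_comp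
    isGeneralizedCharacter_theta (MonoidHom.fst (DihedralGroup 3) (DihedralGroup 3)))
      D.E.symm.toMonoidHom

theorem f_class : IsClassFunction D.e.range D.f :=
  CharTheory.IsGeneralizedCharacter.isClassFunction D.f_gen

theorem f_one : D.f 1 = 0 := by
  show (thetaZ (D.E.symm 1).1 : ℂ) = 0
  rw [map_one, Prod.fst_one, show thetaZ 1 = 0 by decide, Int.cast_zero]

/-- The support. -/
def supp : Set G := {g | ∃ p : DD, thetaZ p.1 ≠ 0 ∧ D.e p = g}

theorem f_off (h : D.e.range) (hh : (h : G) ∉ D.supp) : D.f h = 0 := by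
  by_contra hne
  refine hh ⟨D.E.symm h, fun h0 => hne ?_, ?_⟩
  · simp [f, h0]
  · rw [← D.coe_E, MulEquiv.apply_symm_apply]

theorem supp_ti [Finite G] :
    ∀ x : G, x ∉ D.e.range → ∀ s ∈ D.supp, x⁻¹ * s * x ∈ D.supp → s = 1 := by
  intro x hx s ⟨p, hp, hps⟩ ⟨q, hq, hqs⟩
  exfalso
  obtain ⟨hr, hne⟩ := (by decide : ∀ p : DD, thetaZ p.1 ≠ 0 → Rot (p ^ 4) ∧ p ^ 4 ≠ 1) p hp
  obtain ⟨hr', -⟩ := (by decide : ∀ p : DD, thetaZ p.1 ≠ 0 → Rot (p ^ 4) ∧ p ^ 4 ≠ 1) q hq
  refine hx ?_
  have hx' : x⁻¹ ∈ D.e.range := by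
    refine D.fusion (D.rot_mem hr) (D.ne_one hne) ?_
    have : x⁻¹ * D.e (p ^ 4) * x⁻¹⁻¹ = D.e (q ^ 4) := by
      rw [map_pow, map_pow, hps, hqs, inv_inv]
      have := conj_pow (i := 4) (a := x⁻¹) (b := s)
      rw [inv_inv] at this
      exact this.symm
    rw [this]
    exact D.rot_mem hr'
  simpa using inv_mem hx'

theorem sum_range [Fintype D.e.range] (F : DD → ℂ) :
    ∑ h : D.e.range, F (D.E.symm h) = ∑ p : DD, F p :=
  Fintype.sum_equiv D.E.symm.toEquiv _ _ fun _ => rfl

theorem card_range : Nat.card D.e.range = 36 := by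
  rw [← Nat.card_congr D.E.toEquiv, Nat.card_eq_fintype_card]
  decide

theorem inner_f_f [Fintype D.e.range] : classInner D.f D.f = 3 := by
  have h : ∑ h : D.e.range, D.f h * conj (D.f h) = ((∑ p : DD, thetaZ p.1 * thetaZ p.1 : ℤ) : ℂ) := by
    simp only [f, map_intCast, ← Int.cast_mul]
    rw [D.sum_range (fun p => ((thetaZ p.1 * thetaZ p.1 : ℤ) : ℂ)), ← Int.cast_sum]
  rw [classInner, h, D.card_range, (by decide : (∑ p : DD, thetaZ p.1 * thetaZ p.1 : ℤ) = 108)]
  norm_num

theorem inner_f_one [Fintype D.e.range] : classInner D.f (fun _ => (1 : ℂ)) = 1 := by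
  have h : ∑ h : D.e.range, D.f h * conj (1 : ℂ) = ((∑ p : DD, thetaZ p.1 : ℤ) : ℂ) := by
    simp only [f, map_one, mul_one]
    rw [D.sum_range (fun p => ((thetaZ p.1 : ℤ) : ℂ)), ← Int.cast_sum]
  rw [classInner, h, D.card_range, (by decide : (∑ p : DD, thetaZ p.1 : ℤ) = 36)]
  norm_num

variable [Fintype G]

/-- The induced generalised character. -/
noncomputable def Phi : G → ℂ := indFun D.e.range D.f

theorem Phi_gen : IsGeneralizedCharacter G D.Phi :=
  Frobenius.isGeneralizedCharacter_indFun _ _ D.f_gen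

theorem exists_conj_of_Phi_ne {u : G} (h : D.Phi u ≠ 0) :
    ∃ x : G, ∃ p : DD, thetaZ p.1 ≠ 0 ∧ x⁻¹ * u * x = D.e p := by
  by_contra hcon
  apply h
  refine mul_eq_zero.2 (Or.inr (Finset.sum_eq_zero fun x _ => ?_))
  by_cases hx : x⁻¹ * u * x ∈ D.e.range
  · rw [Frobenius.extendByZero_of_mem _ _ hx]
    exact D.f_off _ fun ⟨p, hp, he⟩ => hcon ⟨x, p, hp, he.symm⟩
  · exact Frobenius.extendByZero_of_not_mem _ _ hx

theorem Phi_one : D.Phi 1 = 0 := by
  rw [Phi, Frobenius.indFun_one, D.f_one, mul_zero]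

theorem Phi_sj : D.Phi (D.e sj) = 0 := by
  by_contra h
  obtain ⟨x, p, hp, he⟩ := D.exists_conj_of_Phi_ne h
  have h2 : D.e (p * p) = 1 := by
    rw [map_mul, ← he]
    calc x⁻¹ * D.e sj * x * (x⁻¹ * D.e sj * x) = x⁻¹ * (D.e sj * D.e sj) * x := by group
      _ = 1 := by rw [← map_mul, (by decide : sj * sj = 1), map_one]; group
  exact (by decide : ∀ p : DD, thetaZ p.1 ≠ 0 → p * p ≠ 1) p hp (D.inj (h2.trans D.e.map_one.symm))

theorem Phi_conj (u : G) : conj (D.Phi u) = D.Phi u := by
  have h : ∀ x : G, conj (extendByZero D.e.range D.f (x⁻¹ * u * x)) =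
      extendByZero D.e.range D.f (x⁻¹ * u * x) := by
    intro x
    by_cases hx : x⁻¹ * u * x ∈ D.e.range
    · rw [Frobenius.extendByZero_of_mem _ _ hx]
      exact map_intCast _ _
    · rw [Frobenius.extendByZero_of_not_mem _ _ hx, map_zero]
  simp [Phi, indFun, map_sum, h]

theorem inner_Phi_one : classInner D.Phi (fun _ => (1 : ℂ)) = 1 := by
  classical
  rw [Phi, Frobenius.classInner_indFun _ _ _ (fun _ _ => rfl)]
  exact D.inner_f_one

theorem inner_Phi_Phi : classInner D.Phi D.Phi = ((3 : ℕ) : ℂ) := by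
  classical
  rw [Phi, Frobenius.classInner_indFun_indFun_of_ti D.e.range D.supp D.supp_ti D.f D.f D.f_class
    D.f_off D.f_off D.f_one, D.inner_f_f]
  norm_num

/-- No product of two conjugates of `j` lies in the support of the induced character. -/
theorem pairs_vanish (hi : ¬ IsConj (D.e sj) (D.e si)) (hk : ¬ IsConj (D.e sj) (D.e sk)) {u x : G}
    (hu : D.Phi u ≠ 0) (h1 : IsConj (D.e sj) x) (h2 : IsConj (D.e sj) (x * u)) : False := by
  obtain ⟨w, p, hp, he⟩ := D.exists_conj_of_Phi_ne hu
  have hinv : ∀ y, IsConj (D.e sj) y → y * y = 1 := by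
    intro y hy
    obtain ⟨c, rfl⟩ := isConj_iff.1 hy
    calc c * D.e sj * c⁻¹ * (c * D.e sj * c⁻¹) = c * (D.e sj * D.e sj) * c⁻¹ := by group
      _ = 1 := by rw [← map_mul, (by decide : sj * sj = 1), map_one]; group
  set y := w⁻¹ * x * w with hy
  have hy1 : IsConj (D.e sj) y := h1.trans (isConj_iff.2 ⟨w⁻¹, by rw [hy]; group⟩)
  have hy2 : IsConj (D.e sj) (y * D.e p) :=
    h2.trans (isConj_iff.2 ⟨w⁻¹, by rw [hy, ← he]; group⟩)
  obtain ⟨hr, hne⟩ := (by decide : ∀ p : DD, thetaZ p.1 ≠ 0 → Rot (p ^ 4) ∧ p ^ 4 ≠ 1) p hp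
  have hyy := hinv y hy1
  have hyp : y * D.e p * y⁻¹ = (D.e p)⁻¹ := by
    rw [inv_eq_of_mul_eq_one_right hyy]
    exact eq_inv_of_mul_eq_one_left (by
      have := hinv _ hy2
      rw [← this]; group)
  have hy4 : y * D.e (p ^ 4) * y⁻¹ = D.e ((p ^ 4)⁻¹) := by
    rw [map_pow, ← conj_pow, hyp, inv_pow, ← map_pow, ← map_inv]
  have hmem : y * D.e (p ^ 4) * y⁻¹ ∈ (D.T : Subgroup G) := by
    rw [hy4, map_inv]; exact inv_mem (D.rot_mem hr)
  obtain ⟨q, hq⟩ := D.fusion (D.rot_mem hr) (D.ne_one hne) hmem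
  have hqq : q * q = 1 := D.inj (by rw [map_mul, hq, hyy, map_one])
  have hqp : q * p * (q * p) = 1 := D.inj (by
    rw [map_mul, map_mul, hq, map_one]; exact hinv _ hy2)
  have hfst : rot q.1 = false :=
    (by decide : ∀ q p : DihedralGroup 3, q * q = 1 → q * p * (q * p) = 1 → thetaZ p ≠ 0 →
      rot q = false) q.1 p.1 (congrArg Prod.fst hqq) (congrArg Prod.fst hqp) hp
  obtain ⟨n, hn⟩ := (by decide : ∀ q : DD, q * q = 1 → rot q.1 = false →
    ∃ n : DD, n * q * n⁻¹ = si ∨ n * q * n⁻¹ = sk) q hqq hfst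
  rw [← hq] at hy1
  rcases hn with hn | hn
  · exact hi (hy1.trans (isConj_iff.2 ⟨D.e n, by rw [← map_inv, ← map_mul, ← map_mul, hn]⟩))
  · exact hk (hy1.trans (isConj_iff.2 ⟨D.e n, by rw [← map_inv, ← map_mul, ← map_mul, hn]⟩))

/-- The involution `j` lies in a proper normal subgroup. -/
theorem exists_normal (hi : ¬ IsConj (D.e sj) (D.e si)) (hk : ¬ IsConj (D.e sj) (D.e sk)) :
    ∃ M : Subgroup G, M.Normal ∧ M ≠ ⊤ ∧ D.e sj ∈ M := by
  classical
  haveI := Fintype.ofFinite (IrrCharacter G)
  set j := D.e sj with hj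
  have hjinv : j⁻¹ = j := inv_eq_of_mul_eq_one_right (by
    rw [hj, ← map_mul, (by decide : sj * sj = 1), map_one])
  obtain ⟨s, hcard, hsum, hirr, horth⟩ :=
    Coherence.exists_signed_decomp D.Phi_gen (le_refl 3) D.inner_Phi_Phi
  set one : G → ℂ := fun _ => (1 : ℂ) with hone
  have h1sum : ∑ α ∈ s, classInner α one = 1 := by
    rw [← CharTheory.classInner_sum_left, ← hsum]
    exact D.inner_Phi_one
  obtain ⟨α₀, hα₀, hα₀ne⟩ := Finset.exists_ne_zero_of_sum_ne_zero (h1sum ▸ one_ne_zero)
  have hsgn : α₀ = one ∨ α₀ = -one := by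
    rcases hirr α₀ hα₀ with h | h
    · by_contra hc
      exact hα₀ne (CharTheory.classInner_eq_zero_of_ne h CharTheory.isIrrCharacter_one
        fun e => hc (Or.inl e))
    · by_contra hc
      apply hα₀ne
      have := CharTheory.classInner_eq_zero_of_ne h CharTheory.isIrrCharacter_one
        fun e => hc (Or.inr (by rw [← neg_neg α₀, e]))
      rw [CharTheory.classInner_neg_left, neg_eq_zero] at this
      exact this
  have hrest : ∀ α ∈ s, α ≠ α₀ → classInner α one = 0 := by
    intro α hα hne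
    have h0 := horth α hα α₀ hα₀
    rw [if_neg hne] at h0
    rcases hsgn with e | e
    · rwa [e] at h0
    · rw [e, show (-one : G → ℂ) = (-1 : ℂ) • one from (neg_one_smul ℂ one).symm,
        CharTheory.classInner_smul_right] at h0
      simpa using h0
  have hα0 : α₀ = one := by
    rcases hsgn with e | e
    · exact e
    · exfalso
      rw [Finset.sum_eq_single α₀ hrest (fun h => absurd hα₀ h), e,
        CharTheory.classInner_neg_left, CharTheory.classInner_self_of_isIrr
          CharTheory.isIrrCharacter_one] at h1sum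
      norm_num at h1sum
  obtain ⟨β, γ, hβγ, hset⟩ := Finset.card_eq_two.1
    (by rw [Finset.card_erase_of_mem hα₀, hcard] : (s.erase α₀).card = 2)
  have hβ : β ∈ s.erase α₀ := by rw [hset]; simp
  have hγ : γ ∈ s.erase α₀ := by rw [hset]; simp
  have hdecomp : ∀ F : (G → ℂ) → ℂ, ∑ α ∈ s, F α = F one + F β + F γ := by
    intro F
    rw [← Finset.add_sum_erase s F hα₀, hset, Finset.sum_pair hβγ, hα0, add_assoc]
  have hval : ∀ g : G, D.Phi g = 1 + β g + γ g := by
    intro g
    conv_lhs => rw [hsum]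
    rw [Finset.sum_apply, hdecomp (fun α => α g)]
  -- the class multiplication identity
  have hpair := BrauerCharacters.sum_weight_pairs j j D.Phi
  rw [Finset.sum_eq_zero (fun u _ => ?_)] at hpair
  swap
  · by_cases hu : D.Phi u = 0
    · rw [hu, zero_mul]
    · refine mul_eq_zero_of_right _ (Nat.cast_eq_zero.2 (Finset.card_eq_zero.2 ?_))
      ext x
      simp only [Finset.mem_filter, Finset.mem_univ, true_and, Finset.notMem_empty, iff_false]
      exact fun hx => D.pairs_vanish hi hk hu hx.1 hx.2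
  have hinner : ∀ χ : IrrCharacter G, ∑ u : G, D.Phi u * (χ : G → ℂ) u =
      (Nat.card G : ℂ) * ∑ α ∈ s, classInner (χ : G → ℂ) α := by
    intro χ
    rw [← CharTheory.classInner_sum_right, ← hsum, classInner, ← mul_assoc,
      mul_inv_cancel₀ (Nat.cast_ne_zero.2 Nat.card_pos.ne'), one_mul]
    exact Finset.sum_congr rfl fun u _ => by rw [D.Phi_conj, mul_comm]
  simp only [hinner] at hpair
  set c : ℂ := ((Subgroup.centralizer ({j} : Set G)).index : ℂ) with hc
  have hc0 : c ≠ 0 := Nat.cast_ne_zero.2 Subgroup.index_ne_zero_of_finite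
  have hone_term : ∀ α ∈ s, ∑ χ : IrrCharacter G, centralChar (χ : G → ℂ) j *
      conj ((χ : G → ℂ) j) * classInner (χ : G → ℂ) α = c * (α j * α j / α 1) := by
    intro α hα
    rcases hirr α hα with h | h
    · rw [Finset.sum_eq_single (⟨α, h⟩ : IrrCharacter G)]
      · simp only [centralChar]
        rw [CharTheory.classInner_self_of_isIrr h, ← CharTheory.IsGeneralizedCharacter.inv
          (Coherence.signed_isGeneralized (Or.inl h)) j, hjinv]
        ring
      · intro χ _ hne
        rw [CharTheory.classInner_eq_zero_of_ne χ.2 h fun e => hne (Subtype.ext e), mul_zero]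
      · simp
    · rw [Finset.sum_eq_single (⟨-α, h⟩ : IrrCharacter G)]
      · simp only [centralChar]
        rw [show classInner (-α) α = -classInner α α from CharTheory.classInner_neg_left α α,
          horth α hα α hα, if_pos rfl, Pi.neg_apply, Pi.neg_apply, map_neg,
          ← CharTheory.IsGeneralizedCharacter.inv (Coherence.signed_isGeneralized (hirr α hα)) j,
          hjinv]
        field_simp
        ring
      · intro χ _ hne
        have := CharTheory.classInner_eq_zero_of_ne χ.2 h fun e => hne (Subtype.ext e)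
        rw [show (-α : G → ℂ) = (-1 : ℂ) • α from (neg_one_smul ℂ α).symm,
          CharTheory.classInner_smul_right] at this
        simp only [map_neg, map_one, neg_mul, one_mul, neg_eq_zero] at this
        rw [this, mul_zero]
      · simp
  have hswap : ∑ χ : IrrCharacter G, centralChar (χ : G → ℂ) j * conj ((χ : G → ℂ) j) *
      ((Nat.card G : ℂ) * ∑ α ∈ s, classInner (χ : G → ℂ) α) =
      (Nat.card G : ℂ) * ∑ α ∈ s, c * (α j * α j / α 1) := by
    rw [← Finset.sum_congr rfl hone_term, Finset.sum_comm, Finset.mul_sum]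
    refine Finset.sum_congr rfl fun χ _ => ?_
    rw [← Finset.mul_sum]; ring
  rw [hswap, hdecomp (fun α => c * (α j * α j / α 1))] at hpair
  have hG : (Nat.card G : ℂ) ≠ 0 := Nat.cast_ne_zero.2 Nat.card_pos.ne'
  have heq : (1 : ℂ) + β j * β j / β 1 + γ j * γ j / γ 1 = 0 := by
    simp only [hone, one_mul, div_one, mul_one] at hpair
    have h := hpair.symm
    rcases mul_eq_zero.1 h with h' | h'
    · exact absurd h' (div_ne_zero hc0 hG)
    rcases mul_eq_zero.1 h' with h'' | h''
    · exact absurd h'' hG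
    refine mul_left_cancel₀ hc0 ?_
    rw [mul_zero]
    linear_combination h''
  have hb1 : β 1 ≠ 0 := Coherence.signed_apply_one_ne_zero (hirr β (Finset.mem_of_mem_erase hβ))
  have hg1 : γ 1 ≠ 0 := Coherence.signed_apply_one_ne_zero (hirr γ (Finset.mem_of_mem_erase hγ))
  have e1 := hval 1
  rw [D.Phi_one] at e1
  have ej := hval j
  rw [D.Phi_sj] at ej
  have key : β j = β 1 := by
    have g1 : γ 1 = -1 - β 1 := by linear_combination -e1
    have gj : γ j = -1 - β j := by linear_combination -ej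
    rw [g1] at hg1
    rw [g1, gj] at heq
    have hsq : (β 1 - β j) * (β 1 - β j) = 0 := by
      field_simp at heq
      linear_combination -heq
    rcases mul_self_eq_zero.1 hsq |> sub_eq_zero.1 with e
    exact e.symm
  -- the kernel
  have hβne := hrest β (Finset.mem_of_mem_erase hβ) (Finset.ne_of_mem_erase hβ)
  have fin : ∀ ψ : G → ℂ, IsIrrCharacter G ψ → ψ j = ψ 1 → classInner ψ one = 0 →
      ∃ M : Subgroup G, M.Normal ∧ M ≠ ⊤ ∧ j ∈ M := by
    intro ψ hψ hψj h0
    obtain ⟨K, hKn, hK, -⟩ := CharTheory.exists_kernel (CharTheory.IsIrrCharacter.isCharacter hψ)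
    refine ⟨K, hKn, fun htop => ?_, (hK j).2 hψj⟩
    have hconst : ψ = ψ 1 • one := by
      funext g
      have := (hK g).1 (htop ▸ Subgroup.mem_top g)
      simp [hone, this]
    rw [hconst, CharTheory.classInner_smul_left, CharTheory.classInner_self_of_isIrr
      CharTheory.isIrrCharacter_one, mul_one] at h0
    exact CharTheory.apply_one_ne_zero_of_isIrr hψ h0
  rcases hirr β (Finset.mem_of_mem_erase hβ) with h | h
  · exact fin β h key hβne
  · exact fin (-β) h (by simp [key]) (by rw [CharTheory.classInner_neg_left, hβne, neg_zero])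

end Datum

end CfsgLib.SchurExt.KleinNine
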