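import Cfsg.Agent.Lib.SchurExt.KleinNine
import Cfsg.Prelude.Def_Transfer
import Mathlib.GroupTheory.NoncommCoprod
import Mathlib.GroupTheory.SpecificGroups.KleinFour

/-!
Construction of the configuration from a four-group automizer.
-/

set_option autoImplicit false
set_option linter.style.haveILetI false

open Cfsg

namespace CfsgLib.SchurExt.KleinNine

open DihedralGroup

theorem pow_val_add {G : Type*} [Group G] {a : G} (h : a ^ 3 = 1) (x y : ZMod 3) :
    a ^ (x + y).val = a ^ x.val * a ^ y.val := by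
  rw [ZMod.val_add, ← pow_add, ← pow_eq_pow_mod _ h]

theorem pow_val_neg {G : Type*} [Group G] {a : G} (h : a ^ 3 = 1) (x : ZMod 3) :
    a ^ (-x).val = (a ^ x.val)⁻¹ := by
  refine eq_inv_of_mul_eq_one_left ?_
  rw [← pow_val_add h, neg_add_cancel, ZMod.val_zero, pow_zero]

theorem pow_val_sub {G : Type*} [Group G] {a : G} (h : a ^ 3 = 1) (x y : ZMod 3) :
    a ^ (y - x).val = (a ^ x.val)⁻¹ * a ^ y.val := by
  rw [sub_eq_neg_add, pow_val_add h, pow_val_neg h]

/-- The homomorphism from `S₃` given by an element of order dividing `3` inverted by an involution. -/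
noncomputable def dihHom {G : Type*} [Group G] (a i : G) (ha : a ^ 3 = 1) (hi : i * i = 1)
    (h : i * a * i = a⁻¹) : DihedralGroup 3 →* G where
  toFun
    | .r k => a ^ k.val
    | .sr k => i * a ^ k.val
  map_one' := by show a ^ (0 : ZMod 3).val = 1; rw [ZMod.val_zero, pow_zero]
  map_mul' := by
    have hii : i⁻¹ = i := inv_eq_of_mul_eq_one_right hi
    have hc : ∀ n : ℕ, i * a ^ n * i = (a ^ n)⁻¹ := by
      intro n
      have := conj_pow (i := n) (a := i) (b := a)
      rw [hii, h] at this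
      rw [← this, inv_pow]
    have hswap : ∀ n : ℕ, a ^ n * i = i * (a ^ n)⁻¹ := by
      intro n
      rw [← hc n]
      calc a ^ n * i = (i * i) * a ^ n * i := by rw [hi, one_mul]
        _ = i * (i * a ^ n * i) := by group
    rintro (x | x) (y | y)
    · rw [r_mul_r]; exact pow_val_add ha x y
    · rw [r_mul_sr]
      show i * a ^ (y - x).val = a ^ x.val * (i * a ^ y.val)
      rw [← mul_assoc, hswap, mul_assoc, pow_val_sub ha]
    · rw [sr_mul_r]
      show i * a ^ (x + y).val = i * a ^ x.val * a ^ y.val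
      rw [mul_assoc, pow_val_add ha]
    · rw [sr_mul_sr]
      show a ^ (y - x).val = i * a ^ x.val * (i * a ^ y.val)
      rw [← mul_assoc, hc, pow_val_sub ha]

theorem dihHom_r {G : Type*} [Group G] (a i : G) (ha : a ^ 3 = 1) (hi : i * i = 1)
    (h : i * a * i = a⁻¹) (k : ZMod 3) : dihHom a i ha hi h (.r k) = a ^ k.val := rfl

theorem dihHom_sr {G : Type*} [Group G] (a i : G) (ha : a ^ 3 = 1) (hi : i * i = 1)
    (h : i * a * i = a⁻¹) (k : ZMod 3) : dihHom a i ha hi h (.sr k) = i * a ^ k.val := rfl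

theorem inj_of_kernel (K : Subgroup DD) [K.Normal]
    (h1 : (DihedralGroup.r 1, 1) ∉ K) (h2 : ((1 : DihedralGroup 3), DihedralGroup.r 1) ∉ K) : K = ⊥ := by
  rw [Subgroup.eq_bot_iff_forall]
  intro p hp
  by_contra hne
  have hd : ∀ q : DD, ra * q * ra⁻¹ * q⁻¹ = 1 ∨ ra * q * ra⁻¹ * q⁻¹ = ra ∨
      (ra * q * ra⁻¹ * q⁻¹) * (ra * q * ra⁻¹ * q⁻¹) = ra := by decide
  have hcomm : ∀ g q : DD, q ∈ K → g * q * g⁻¹ * q⁻¹ ∈ K := fun g q hq =>
    K.mul_mem (‹K.Normal›.conj_mem q hq g) (K.inv_mem hq)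
  have hcases : ∀ q : DD, q = 1 ∨ q = ra ∨ q * q = ra ∨ q = rb ∨ q * q = rb ∨
      ra * q * ra⁻¹ * q⁻¹ = ra ∨ (ra * q * ra⁻¹ * q⁻¹) * (ra * q * ra⁻¹ * q⁻¹) = ra ∨
      rb * q * rb⁻¹ * q⁻¹ = rb ∨ (rb * q * rb⁻¹ * q⁻¹) * (rb * q * rb⁻¹ * q⁻¹) = rb ∨
      si * q * si⁻¹ * q⁻¹ = ra ∨ (si * q * si⁻¹ * q⁻¹) * (si * q * si⁻¹ * q⁻¹) = ra := by decide
  rcases hcases p with h | h | h | h | h | h | h | h | h | h | h
  · exact hne h
  · exact h1 (show ra ∈ K from h ▸ hp)
  · exact h1 (show ra ∈ K from h ▸ K.mul_mem hp hp)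
  · exact h2 (show rb ∈ K from h ▸ hp)
  · exact h2 (show rb ∈ K from h ▸ K.mul_mem hp hp)
  · exact h1 (show ra ∈ K from h ▸ hcomm ra p hp)
  · exact h1 (show ra ∈ K from h ▸ K.mul_mem (hcomm ra p hp) (hcomm ra p hp))
  · exact h2 (show rb ∈ K from h ▸ hcomm rb p hp)
  · exact h2 (show rb ∈ K from h ▸ K.mul_mem (hcomm rb p hp) (hcomm rb p hp))
  · exact h1 (show ra ∈ K from h ▸ hcomm si p hp)
  · exact h1 (show ra ∈ K from h ▸ K.mul_mem (hcomm si p hp) (hcomm si p hp))

/-- The data of the configuration exist. -/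
theorem exists_datum {G : Type*} [Group G] [Finite G]
    (T : Sylow 3 G) (hT : Cfsg.IsElementaryAbelian 3 (T : Subgroup G)) (hcard : Nat.card T = 9)
    (hC : Subgroup.centralizer ((T : Subgroup G) : Set G) = T)
    [hn : ((T : Subgroup G).subgroupOf (Subgroup.normalizer ((T : Subgroup G) : Set G))).Normal]
    (hK : IsKleinFour (↥(Subgroup.normalizer ((T : Subgroup G) : Set G)) ⧸
      (T : Subgroup G).subgroupOf (Subgroup.normalizer ((T : Subgroup G) : Set G))))
    (hloc : ∀ t ∈ (T : Subgroup G), t ≠ 1 →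
      Subgroup.centralizer ({t} : Set G) ≤ Subgroup.normalizer ((T : Subgroup G) : Set G)) :
    ∃ D : Datum G, D.e.range = Subgroup.normalizer ((T : Subgroup G) : Set G) := by
  haveI := Fact.mk Nat.prime_two
  have hcT : ∀ x ∈ (T : Subgroup G), x ^ 3 = 1 := fun x hx => by
    exact hT.2 x hx
  have hcomm : ∀ x ∈ (T : Subgroup G), ∀ y ∈ (T : Subgroup G), x * y = y * x := fun x hx y hy => by
    exact congrArg Subtype.val (hT.1.is_comm.comm ⟨x, hx⟩ ⟨y, hy⟩)
  set N := Subgroup.normalizer ((T : Subgroup G) : Set G) with hN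
  have hTN : (T : Subgroup G) ≤ N := Subgroup.le_normalizer
  have hcN : Nat.card N = 36 := by
    rw [← Subgroup.card_mul_index ((T : Subgroup G).subgroupOf N),
      Nat.card_congr (Subgroup.subgroupOfEquivOfLe hTN).toEquiv, hcard, Subgroup.index_eq_card,
      hK.card_four]
  obtain ⟨V0, hV0⟩ := Sylow.exists_subgroup_card_pow_prime 2 (G := N) (n := 2) (by rw [hcN]; norm_num)
  have hdisj : ∀ v : N, v ∈ V0 → (v : G) ∈ (T : Subgroup G) → v = 1 := by
    intro v hv hvT
    rw [← orderOf_eq_one_iff]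
    refine Nat.eq_one_of_dvd_coprimes (show Nat.Coprime (2 ^ 2) 3 by norm_num)
      (hV0 ▸ Subgroup.orderOf_dvd_natCard V0 hv) (orderOf_dvd_of_pow_eq_one (Subtype.ext ?_))
    push_cast
    exact hcT _ hvT
  have hsq : ∀ v : N, v ∈ V0 → (v : G) * v = 1 := by
    intro v hv
    have h1 : (QuotientGroup.mk v : N ⧸ (T : Subgroup G).subgroupOf N) *
        (QuotientGroup.mk v) = 1 := by
      exact hK.mul_self _
    rw [← QuotientGroup.mk_mul, QuotientGroup.eq_one_iff, Subgroup.mem_subgroupOf] at h1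
    have := congrArg Subtype.val (hdisj _ (V0.mul_mem hv hv) h1)
    simpa using this
  have hVcomm : ∀ v w : N, v ∈ V0 → w ∈ V0 → (v : G) * w = w * v := by
    intro v w hv hw
    have h1 : (v * w : N) * (v * w : N) = 1 :=
      Subtype.ext (by simpa using hsq _ (V0.mul_mem hv hw))
    have hvi : v⁻¹ = v := inv_eq_of_mul_eq_one_right (Subtype.ext (by simpa using hsq _ hv))
    have hwi : w⁻¹ = w := inv_eq_of_mul_eq_one_right (Subtype.ext (by simpa using hsq _ hw))
    have h2 : v * w = w * v := by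
      rw [← inv_eq_of_mul_eq_one_right h1, mul_inv_rev, hvi, hwi]
    simpa using congrArg Subtype.val h2
  have hconj : ∀ v : N, v ∈ V0 → ∀ x ∈ (T : Subgroup G), (v : G) * x * v ∈ (T : Subgroup G) := by
    intro v hv x hx
    have := (Subgroup.mem_normalizer_iff.1 v.2 x).1 hx
    rwa [inv_eq_of_mul_eq_one_right (hsq v hv)] at this
  -- no nontrivial element of `V0` centralises `T`
  have hfaith : ∀ v : N, v ∈ V0 → (∀ x ∈ (T : Subgroup G), (v : G) * x * v = x) → v = 1 := by
    intro v hv h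
    refine hdisj v hv ?_
    rw [← hC, Subgroup.mem_centralizer_iff]
    intro x hx
    calc x * (v : G) = (v : G) * x * v * v := by rw [h x hx]
      _ = v * x := by rw [mul_assoc, hsq v hv, mul_one]
  -- an element not inverting all of `T`
  obtain ⟨i, hi, hi1, hinv⟩ : ∃ v : N, v ∈ V0 ∧ v ≠ 1 ∧
      ∃ x ∈ (T : Subgroup G), (v : G) * x * v ≠ x⁻¹ := by
    obtain ⟨v, hv, hv1⟩ : ∃ v ∈ V0, v ≠ 1 := by
      by_contra! h
      rw [(Subgroup.eq_bot_iff_forall V0).2 h, Subgroup.card_bot] at hV0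
      norm_num at hV0
    obtain ⟨w, hw, hwv⟩ : ∃ w ∈ V0, w ∉ Subgroup.zpowers v := by
      by_contra! h
      have h2 : orderOf v ∣ 2 := orderOf_dvd_of_pow_eq_one (Subtype.ext (by
        push_cast; rw [pow_two]; exact hsq v hv))
      have := Nat.le_of_dvd (Nat.card_pos) (Subgroup.card_dvd_of_le (show V0 ≤ Subgroup.zpowers v from h))
      rw [hV0, Nat.card_zpowers] at this
      have := Nat.le_of_dvd (by norm_num) h2
      norm_num at *
      omega
    by_contra! h
    have hv' := h v hv hv1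
    have hw1 : w ≠ 1 := fun e => hwv (e ▸ one_mem _)
    have hw' := h w hw hw1
    have hvw : v * w = 1 := by
      refine hfaith _ (V0.mul_mem hv hw) fun x hx => ?_
      push_cast
      calc (v : G) * w * x * (v * w) = (v : G) * ((w : G) * x * w) * v := by
            rw [hVcomm v w hv hw]; group
            rw [show (w : G) * v = v * w from hVcomm w v hw hv]
        _ = (v : G) * x⁻¹ * v := by rw [hw' x hx]
        _ = x⁻¹⁻¹ := hv' x⁻¹ (inv_mem hx)
        _ = x := inv_inv x
    exact hwv (by rw [← inv_eq_of_mul_eq_one_right hvw]; exact inv_mem (Subgroup.mem_zpowers v))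
  obtain ⟨x, hx, hxne⟩ := hinv
  have hii := hsq i hi
  have hiinv : (i : G)⁻¹ = i := inv_eq_of_mul_eq_one_right hii
  set b := x * ((i : G) * x * i) with hbdef
  have hbT : b ∈ (T : Subgroup G) := mul_mem hx (hconj i hi x hx)
  have hb1 : b ≠ 1 := fun h => hxne (eq_inv_of_mul_eq_one_right h)
  have hib : (i : G) * b * i = b := by
    rw [hbdef]
    calc (i : G) * (x * ((i : G) * x * i)) * i = ((i : G) * x * i) * x * ((i : G) * i) := by group
      _ = x * ((i : G) * x * i) := by rw [hii, mul_one, hcomm _ (hconj i hi x hx) _ hx]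
  obtain ⟨z, hz, hzne⟩ : ∃ z ∈ (T : Subgroup G), (i : G) * z * i ≠ z := by
    by_contra! h
    exact hi1 (hfaith i hi h)
  set a := z⁻¹ * ((i : G) * z * i) with hadef
  have haT : a ∈ (T : Subgroup G) := mul_mem (inv_mem hz) (hconj i hi z hz)
  have ha1 : a ≠ 1 := fun h => hzne (inv_mul_eq_one.1 h).symm
  have hia : (i : G) * a * i = a⁻¹ := by
    rw [hadef, mul_inv_rev, inv_inv]
    calc (i : G) * (z⁻¹ * ((i : G) * z * i)) * i = ((i : G) * z⁻¹ * i) * z * ((i : G) * i) := by group
      _ = ((i : G) * z * i)⁻¹ * z := by rw [hii, mul_one]; simp [mul_assoc, hiinv]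
  have hne_inv : ∀ u : G, u ∈ (T : Subgroup G) → u = u⁻¹ → u = 1 := by
    intro u hu h
    have h3 := hcT u hu
    rw [pow_succ, pow_two] at h3
    nth_rewrite 2 [h] at h3
    simpa using h3
  -- every element of `T` is `a ^ m * b ^ n`
  have hgen : ∀ u ∈ (T : Subgroup G), ∃ m n : ZMod 3, a ^ m.val * b ^ n.val = u := by
    let f : ZMod 3 × ZMod 3 → (T : Subgroup G) := fun p =>
      ⟨a ^ p.1.val * b ^ p.2.val, mul_mem (pow_mem haT _) (pow_mem hbT _)⟩
    have hinj : Function.Injective f := by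
      rintro ⟨m, n⟩ ⟨m', n'⟩ h
      have h' : a ^ m.val * b ^ n.val = a ^ m'.val * b ^ n'.val := congrArg Subtype.val h
      have hz : a ^ (m - m').val * b ^ (n - n').val = 1 := by
        rw [pow_val_sub (hcT a haT), pow_val_sub (hcT b hbT)]
        calc (a ^ m'.val)⁻¹ * a ^ m.val * ((b ^ n'.val)⁻¹ * b ^ n.val)
            = (a ^ m'.val)⁻¹ * (a ^ m.val * b ^ n.val) * (b ^ n'.val)⁻¹ := by
              rw [hcomm _ (inv_mem (pow_mem hbT _)) _ (pow_mem hbT _)]; group
          _ = 1 := by rw [h']; group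
      have hA : a ^ (m - m').val = 1 := by
        have e : ∀ k : ℕ, (i : G) * a ^ k * i = (a ^ k)⁻¹ := fun k => by
          have := conj_pow (i := k) (a := (i : G)) (b := a)
          rw [hiinv, hia] at this
          rw [← this, inv_pow]
        have e' : ∀ k : ℕ, (i : G) * b ^ k * i = b ^ k := fun k => by
          have := conj_pow (i := k) (a := (i : G)) (b := b)
          rw [hiinv, hib] at this
          exact this.symm
        refine hne_inv _ (pow_mem haT _) ?_
        have hb' : b ^ (n - n').val = (a ^ (m - m').val)⁻¹ := eq_inv_of_mul_eq_one_right hz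
        have h1 := e' (n - n').val
        rw [hb'] at h1
        rw [← h1]
        have h2 := e (m - m').val
        calc a ^ (m - m').val = (i : G) * ((i : G) * a ^ (m - m').val * i) * i := by
              rw [← mul_assoc, ← mul_assoc, hii, one_mul, mul_assoc, hii, mul_one]
          _ = _ := by rw [h2]
      rw [hA, one_mul] at hz
      have hzero : ∀ (g : G), g ^ 3 = 1 → g ≠ 1 → ∀ k : ZMod 3, g ^ k.val = 1 → k = 0 := by
        intro g h3 hg k hk
        have hd : orderOf g ∣ k.val := orderOf_dvd_of_pow_eq_one hk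
        rw [orderOf_eq_prime (p := 3) (hp := ⟨Nat.prime_three⟩) h3 hg] at hd
        exact (ZMod.val_eq_zero k).1 (Nat.eq_zero_of_dvd_of_lt hd k.val_lt)
      exact Prod.ext (sub_eq_zero.1 (hzero a (hcT a haT) ha1 _ hA))
        (sub_eq_zero.1 (hzero b (hcT b hbT) hb1 _ hz))
    have hsurj := ((Nat.bijective_iff_injective_and_card f).2 ⟨hinj, by
      rw [Nat.card_prod, Nat.card_zmod]; exact hcard.symm⟩).2
    intro u hu
    obtain ⟨p, hp⟩ := hsurj ⟨u, hu⟩
    exact ⟨p.1, p.2, congrArg Subtype.val hp⟩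
  have hVne : ∃ w ∈ V0, w ≠ 1 ∧ w ≠ i := by
    by_contra! h
    have hle : V0 ≤ Subgroup.zpowers i := fun w hw => by
      by_cases hw1 : w = 1
      · rw [hw1]; exact one_mem _
      · rw [h w hw hw1]; exact Subgroup.mem_zpowers i
    have := Nat.le_of_dvd Nat.card_pos (Subgroup.card_dvd_of_le hle)
    rw [hV0, Nat.card_zpowers] at this
    have := Nat.le_of_dvd (by norm_num) (orderOf_dvd_of_pow_eq_one (show i ^ 2 = 1 from
      Subtype.ext (by push_cast; rw [pow_two]; exact hii)))
    norm_num at *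
    omega
  obtain ⟨w, hw, hw1, hwi⟩ := hVne
  -- the action of `w`
  have hpm : ∀ u ∈ (T : Subgroup G), u ≠ 1 → ((i : G) * u * i = u → u = b ∨ u = b⁻¹) ∧
      ((i : G) * u * i = u⁻¹ → u = a ∨ u = a⁻¹) := by
    intro u hu hu1
    obtain ⟨m, n, rfl⟩ := hgen u hu
    have hexp : (i : G) * (a ^ m.val * b ^ n.val) * i = (a ^ m.val)⁻¹ * b ^ n.val := by
      have e1 := conj_pow (i := m.val) (a := (i : G)) (b := a)
      have e2 := conj_pow (i := n.val) (a := (i : G)) (b := b)
      rw [hiinv, hia] at e1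
      rw [hiinv, hib] at e2
      calc (i : G) * (a ^ m.val * b ^ n.val) * i
          = (i : G) * a ^ m.val * ((i : G) * i) * b ^ n.val * i := by rw [hii]; group
        _ = ((i : G) * a ^ m.val * i) * ((i : G) * b ^ n.val * i) := by group
        _ = _ := by rw [← e1, ← e2, inv_pow]
    have hcases : ∀ (g : G) (k : ZMod 3), g ^ k.val ≠ 1 → g ∈ (T : Subgroup G) →
        g ^ k.val = g ∨ g ^ k.val = g⁻¹ := by
      intro g k hk hg
      rcases (by decide : ∀ k : ZMod 3, k = 0 ∨ k = 1 ∨ k = 2) k with rfl | rfl | rfl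
      · simp at hk
      · exact Or.inl (pow_one g)
      · refine Or.inr (eq_inv_of_mul_eq_one_left ?_)
        show g ^ 2 * g = 1
        rw [← pow_succ]; exact hcT g hg
    constructor
    · intro h
      rw [hexp] at h
      have hA : a ^ m.val = 1 := hne_inv _ (pow_mem haT _) (mul_right_cancel h).symm
      rw [hA, one_mul] at hu1 ⊢
      exact hcases b n hu1 hbT
    · intro h
      rw [hexp, mul_inv_rev, hcomm _ (inv_mem (pow_mem haT _)) _ (pow_mem hbT _)] at h
      have hB : b ^ n.val = 1 := hne_inv _ (pow_mem hbT _) (mul_right_cancel h)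
      rw [hB, mul_one] at hu1 ⊢
      exact hcases a m hu1 haT
  have hiw : ∀ u : G, (i : G) * ((w : G) * u * w) * i = (w : G) * ((i : G) * u * i) * w := by
    intro u
    calc (i : G) * ((w : G) * u * w) * i = ((i : G) * w) * u * ((w : G) * i) := by group
      _ = ((w : G) * i) * u * ((i : G) * w) := by rw [hVcomm i w hi hw, hVcomm w i hw hi]
      _ = _ := by group
  have hwne : ∀ u, u ∈ (T : Subgroup G) → u ≠ 1 → (w : G) * u * w ≠ 1 := by
    intro u _ h1 h
    apply h1
    have hwinv : (w : G)⁻¹ = w := inv_eq_of_mul_eq_one_right (hsq w hw)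
    calc u = (w : G)⁻¹ * ((w : G) * u * w) * (w : G)⁻¹ := by group
      _ = 1 := by rw [h, mul_one, hwinv, hsq w hw]
  have hwb : (w : G) * b * w = b ∨ (w : G) * b * w = b⁻¹ :=
    (hpm _ (hconj w hw b hbT) (hwne b hbT hb1)).1 (by rw [hiw, hib])
  have hwa : (w : G) * a * w = a ∨ (w : G) * a * w = a⁻¹ :=
    (hpm _ (hconj w hw a haT) (hwne a haT ha1)).2 (by
      rw [hiw, hia]
      have hwinv : (w : G)⁻¹ = w := inv_eq_of_mul_eq_one_right (hsq w hw)
      simp [mul_assoc, hwinv])
  have hcent_pair : ∀ v : N, v ∈ V0 → (v : G) * a * v = a → (v : G) * b * v = b → v = 1 := by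
    intro v hv ea eb
    refine hfaith v hv fun u hu => ?_
    obtain ⟨m, n, rfl⟩ := hgen u hu
    have hvinv : (v : G)⁻¹ = v := inv_eq_of_mul_eq_one_right (hsq v hv)
    have e1 := conj_pow (i := m.val) (a := (v : G)) (b := a)
    have e2 := conj_pow (i := n.val) (a := (v : G)) (b := b)
    rw [hvinv, ea] at e1
    rw [hvinv, eb] at e2
    calc (v : G) * (a ^ m.val * b ^ n.val) * v
        = (v : G) * a ^ m.val * ((v : G) * v) * b ^ n.val * v := by rw [hsq v hv]; group
      _ = ((v : G) * a ^ m.val * v) * ((v : G) * b ^ n.val * v) := by group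
      _ = _ := by rw [← e1, ← e2]
  obtain ⟨j, hjV, hja, hjb⟩ : ∃ j : N, j ∈ V0 ∧ (j : G) * a * j = a ∧ (j : G) * b * j = b⁻¹ := by
    have hiwc : ∀ u : G, ((i * w : N) : G) * u * ((i * w : N) : G) =
        (i : G) * ((w : G) * u * w) * i := by
      intro u
      push_cast
      rw [show (i : G) * w * u * ((i : G) * w) = (i : G) * w * u * ((w : G) * i) by
        rw [hVcomm i w hi hw]]
      group
    rcases hwa with ea | ea <;> rcases hwb with eb | eb
    · exact absurd (hcent_pair w hw ea eb) hw1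
    · exact ⟨w, hw, ea, eb⟩
    · exfalso
      have h1 : i * w = 1 := hcent_pair _ (V0.mul_mem hi hw) (by
        rw [hiwc, ea]
        have : (i : G) * a⁻¹ * i = ((i : G) * a * i)⁻¹ := by simp [mul_assoc, hiinv]
        rw [this, hia, inv_inv]) (by rw [hiwc, eb, hib])
      have hii' : i * i = 1 := Subtype.ext (by simpa using hii)
      exact hwi (mul_left_cancel (h1.trans hii'.symm))
    · refine ⟨i * w, V0.mul_mem hi hw, ?_, ?_⟩
      · rw [hiwc, ea]
        have : (i : G) * a⁻¹ * i = ((i : G) * a * i)⁻¹ := by simp [mul_assoc, hiinv]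
        rw [this, hia, inv_inv]
      · rw [hiwc, eb]
        have : (i : G) * b⁻¹ * i = ((i : G) * b * i)⁻¹ := by simp [mul_assoc, hiinv]
        rw [this, hib]
  have hjj := hsq j hjV
  let f := dihHom a (i : G) (hcT a haT) hii hia
  let g := dihHom b (j : G) (hcT b hbT) hjj hjb
  have hfg : ∀ x y, Commute (f x) (g y) := by
    have c1 : Commute a b := hcomm a haT b hbT
    have c2 : Commute a (j : G) := by
      show a * (j : G) = j * a
      calc a * (j : G) = (j : G) * a * j * j := by rw [hja]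
        _ = j * a := by rw [mul_assoc, hjj, mul_one]
    have c3 : Commute (i : G) b := by
      show (i : G) * b = b * i
      calc (i : G) * b = (i : G) * b * ((i : G) * i) := by rw [hii, mul_one]
        _ = b * i := by rw [← mul_assoc, hib]
    have c4 : Commute (i : G) (j : G) := hVcomm i j hi hjV
    rintro (x | x) (y | y)
    · exact c1.pow_pow _ _
    · exact (c2.pow_left _).mul_right (c1.pow_pow _ _)
    · exact (c3.pow_right _).mul_left (c1.pow_pow _ _)
    · exact ((c4.mul_right (c3.pow_right _))).mul_left ((c2.pow_left _).mul_right (c1.pow_pow _ _))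
  let e : DD →* G := f.noncommCoprod g hfg
  have he : ∀ p : DD, e p = f p.1 * g p.2 := fun p => rfl
  have hra : e ra = a := by
    rw [he]; show a ^ (1 : ZMod 3).val * g 1 = a
    rw [map_one, mul_one, show (1 : ZMod 3).val = 1 from rfl, pow_one]
  have hrb : e rb = b := by
    rw [he]; show f 1 * b ^ (1 : ZMod 3).val = b
    rw [map_one, one_mul, show (1 : ZMod 3).val = 1 from rfl, pow_one]
  have hinj : Function.Injective e := by
    rw [← MonoidHom.ker_eq_bot_iff]
    exact inj_of_kernel e.ker (fun h => ha1 (hra ▸ h)) (fun h => hb1 (hrb ▸ h))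
  have hrange : e.range = N := by
    refine Subgroup.eq_of_le_of_card_ge ?_ ?_
    · rintro _ ⟨⟨u, v⟩, rfl⟩
      rw [he]
      refine mul_mem ?_ ?_
      · rcases u with k | k
        · exact pow_mem (hTN haT) _
        · exact mul_mem i.2 (pow_mem (hTN haT) _)
      · rcases v with k | k
        · exact pow_mem (hTN hbT) _
        · exact mul_mem j.2 (pow_mem (hTN hbT) _)
    · rw [hcN, ← Nat.card_congr (MonoidHom.ofInjective hinj).toEquiv, Nat.card_eq_fintype_card]
      decide
  refine ⟨⟨e, hinj, T, fun u => ⟨fun hu => ?_, ?_⟩, hrange, hC.le, fun t ht h1 => hrange ▸ hloc t ht h1⟩,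
    hrange⟩
  · obtain ⟨m, n, rfl⟩ := hgen u hu
    exact ⟨(.r m, .r n), ⟨rfl, rfl⟩, rfl⟩
  · rintro ⟨⟨x, y⟩, ⟨hx', hy'⟩, rfl⟩
    rw [he]
    rcases x with k | k
    · rcases y with l | l
      · exact mul_mem (pow_mem haT _) (pow_mem hbT _)
      · simp [rot] at hy'
    · simp [rot] at hx'

end CfsgLib.SchurExt.KleinNine
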