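import Mathlib

/-!
Derived length of linear `p`-groups.
-/

set_option autoImplicit false

open scoped commutatorElement

namespace CfsgLib.SchurExt

universe u v

variable {K : Type u} [Field K] {V : Type v} [AddCommGroup V] [Module K V]

/-- Restriction of a representation to an invariant subspace. -/
noncomputable def subRep {P : Type*} [Group P] (ρ : P →* Module.End K V) (W : Submodule K V)
    (hW : ∀ g, ∀ w ∈ W, ρ g w ∈ W) : P →* Module.End K W where
  toFun g := (ρ g).restrict (hW g)
  map_one' := by ext w; simp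
  map_mul' g h := by ext w; simp

/-- The representation on the quotient by an invariant subspace. -/
noncomputable def quotRep {P : Type*} [Group P] (ρ : P →* Module.End K V) (W : Submodule K V)
    (hW : ∀ g, ∀ w ∈ W, ρ g w ∈ W) : P →* Module.End K (V ⧸ W) where
  toFun g := W.mapQ W (ρ g) fun w hw => hW g w hw
  map_one' := by ext w; simp
  map_mul' g h := by ext w; simp

theorem exists_fixed_charP {p : ℕ} [hp : Fact p.Prime] [CharP K p] : ∀ (d : ℕ) {W : Type v} [AddCommGroup W]
    [Module K W] [FiniteDimensional K W], Module.finrank K W ≤ d → Nontrivial W → ∀ {P : Type*} [Group P]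
    [Finite P], IsPGroup p P → ∀ ρ : P →* Module.End K W, ∃ v : W, v ≠ 0 ∧ ∀ g, ρ g v = v := by
  intro d
  induction d with
  | zero =>
    intro W _ _ _ h hnt
    exact absurd h (by have := Module.finrank_pos (R := K) (M := W); omega)
  | succ d ih =>
    intro W _ _ _ hd hnt P _ _ hP ρ
    by_cases htriv : ρ.toHomUnits.range = ⊥
    · obtain ⟨v, hv⟩ := exists_ne (0 : W)
      refine ⟨v, hv, fun g => ?_⟩
      have h1 : ρ.toHomUnits g = 1 := Subgroup.mem_bot.1 (htriv ▸ ⟨g, rfl⟩)
      have h2 : ρ g = 1 := congrArg Units.val h1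
      rw [h2]; rfl
    set R := ρ.toHomUnits.range with hR
    have hRp : IsPGroup p R := hP.of_surjective ρ.toHomUnits.rangeRestrict ρ.toHomUnits.rangeRestrict_surjective
    haveI : Finite R := Finite.of_surjective _ ρ.toHomUnits.rangeRestrict_surjective
    haveI : Nontrivial R := (Subgroup.nontrivial_iff_ne_bot R).2 htriv
    haveI := hRp.center_nontrivial
    obtain ⟨⟨⟨z, hzR⟩, hzc⟩, hz1⟩ := exists_ne (1 : Subgroup.center R)
    obtain ⟨g0, rfl⟩ := hzR
    have hz : ρ g0 ≠ 1 := fun h => hz1 (Subtype.ext (Subtype.ext (Units.ext h)))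
    have hcomm : ∀ g, ρ g * ρ g0 = ρ g0 * ρ g := fun g => by
      have h1 := Subgroup.mem_center_iff.1 hzc ⟨ρ.toHomUnits g, g, rfl⟩
      exact congrArg Units.val (congrArg Subtype.val h1)
    set U : Submodule K W := LinearMap.ker (ρ g0 - 1) with hU
    have hUinv : ∀ g, ∀ w ∈ U, ρ g w ∈ U := by
      intro g w hw
      rw [hU, LinearMap.mem_ker, LinearMap.sub_apply, Module.End.one_apply, sub_eq_zero] at hw ⊢
      rw [← Module.End.mul_apply, ← hcomm, Module.End.mul_apply, hw]
    have hUne : U ≠ ⊤ := fun h => hz (LinearMap.ext fun w => by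
      have : w ∈ U := h ▸ Submodule.mem_top
      rwa [hU, LinearMap.mem_ker, LinearMap.sub_apply, Module.End.one_apply, sub_eq_zero] at this)
    obtain ⟨k, hk⟩ := hP g0
    have hnil : (ρ g0 - 1) ^ (p ^ k) = 0 := by
      haveI : Nontrivial (Module.End K W) := by infer_instance
      haveI : CharP (Module.End K W) p := charP_of_injective_algebraMap
        (FaithfulSMul.algebraMap_injective K (Module.End K W)) p
      rw [sub_pow_char_pow_of_commute _ _ (Commute.one_right (ρ g0)), one_pow, ← map_pow, hk, map_one, sub_self]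
    have hUbot : Nontrivial U := by
      rw [Submodule.nontrivial_iff_ne_bot]
      intro hbot
      have hinj : Function.Injective ⇑(ρ g0 - 1) := LinearMap.ker_eq_bot.1 hbot
      have hpow : Function.Injective ⇑((ρ g0 - 1) ^ (p ^ k)) := by
        rw [Module.End.coe_pow]
        exact hinj.iterate _
      obtain ⟨v, hv⟩ := exists_ne (0 : W)
      exact hv (hpow (by rw [hnil]; simp))
    have hlt := Submodule.finrank_lt hUne
    obtain ⟨v, hv, hfix⟩ := ih (W := U) (by omega) hUbot hP (subRep ρ U hUinv)
    exact ⟨v, fun h => hv (Subtype.ext h), fun g => congrArg Subtype.val (hfix g)⟩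

/-- In characteristic `p` a `p`-group leaves a subspace of every dimension invariant. -/
theorem exists_invariant_charP {p : ℕ} [hp : Fact p.Prime] [CharP K p] {P : Type*} [Group P] [Finite P]
    (hP : IsPGroup p P) : ∀ (i : ℕ) {W : Type v} [AddCommGroup W] [Module K W] [FiniteDimensional K W],
    i ≤ Module.finrank K W → ∀ ρ : P →* Module.End K W,
      ∃ U : Submodule K W, Module.finrank K U = i ∧ ∀ g, ∀ w ∈ U, ρ g w ∈ U := by
  intro i
  induction i with
  | zero =>
    intro W _ _ _ _ ρ
    exact ⟨⊥, finrank_bot K W, fun g w hw => by rw [Submodule.mem_bot] at hw ⊢; rw [hw, map_zero]⟩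
  | succ i ih =>
    intro W _ _ _ hi ρ
    haveI : Nontrivial W := Module.nontrivial_of_finrank_pos (R := K) (by omega)
    obtain ⟨v, hv, hfix⟩ := exists_fixed_charP (K := K) _ le_rfl inferInstance hP ρ
    set L : Submodule K W := K ∙ v with hL
    have hLinv : ∀ g, ∀ w ∈ L, ρ g w ∈ L := by
      intro g w hw
      obtain ⟨c, rfl⟩ := Submodule.mem_span_singleton.1 hw
      rw [map_smul, hfix]; exact hw
    have hL1 : Module.finrank K L = 1 := finrank_span_singleton hv
    have hq := Submodule.finrank_quotient_add_finrank L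
    obtain ⟨U, hU, hUinv⟩ := ih (W := W ⧸ L) (by omega) (quotRep ρ L hLinv)
    refine ⟨U.comap L.mkQ, ?_, fun g w hw => hUinv g _ hw⟩
    have h1 := Submodule.finrank_quotient_add_finrank (U.comap L.mkQ)
    have h2 := Submodule.finrank_quotient_add_finrank U
    have h3 : Module.finrank K (W ⧸ U.comap L.mkQ) = Module.finrank K ((W ⧸ L) ⧸ U) := by
      have hle : L ≤ U.comap L.mkQ := fun w hw => by
        rw [Submodule.mem_comap, Submodule.mkQ_apply, (Submodule.Quotient.mk_eq_zero L).2 hw]
        exact U.zero_mem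
      have e := (Submodule.quotientQuotientEquivQuotient L (U.comap L.mkQ) hle).finrank_eq
      rw [Submodule.map_comap_eq_of_surjective L.mkQ_surjective] at e
      exact e.symm
    omega

/-- In characteristic `p`: derived length at most the logarithm of the dimension, rounded up. -/
theorem derived_trivial_charP {p : ℕ} [hp : Fact p.Prime] [CharP K p] {P : Type*} [Group P] [Finite P]
    (hP : IsPGroup p P) : ∀ (k : ℕ) {W : Type v} [AddCommGroup W] [Module K W] [FiniteDimensional K W],
    Module.finrank K W ≤ 2 ^ k → ∀ ρ : P →* Module.End K W, ∀ g ∈ derivedSeries P k, ρ g = 1 := by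
  intro k
  induction k with
  | zero =>
    intro W _ _ _ hd ρ g _
    rw [pow_zero] at hd
    rcases subsingleton_or_nontrivial W with _ | _
    · exact LinearMap.ext fun w => Subsingleton.elim _ _
    obtain ⟨v, hv, hfix⟩ := exists_fixed_charP (K := K) _ le_rfl inferInstance hP ρ
    have htop : (K ∙ v) = ⊤ := Submodule.eq_top_of_finrank_eq (by
      have h1 : Module.finrank K (K ∙ v) = 1 := finrank_span_singleton hv
      have := Module.finrank_pos (R := K) (M := W)
      omega)
    refine LinearMap.ext fun w => ?_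
    obtain ⟨c, rfl⟩ := Submodule.mem_span_singleton.1 (htop.ge (Submodule.mem_top (x := w)))
    rw [map_smul, hfix]; rfl
  | succ k ih =>
    intro W _ _ _ hd ρ
    obtain ⟨U, hU, hUinv⟩ := exists_invariant_charP hP (min (2 ^ k) (Module.finrank K W)) (min_le_right _ _) ρ
    have h1 := Submodule.finrank_quotient_add_finrank U
    rw [pow_succ] at hd
    have hsub : Module.finrank K U ≤ 2 ^ k := hU.le.trans (min_le_left _ _)
    have hquo : Module.finrank K (W ⧸ U) ≤ 2 ^ k := by omega
    -- elements of the derived group lower the two steps to zero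
    have hker : ∀ g ∈ derivedSeries P k, (∀ w ∈ U, ρ g w = w) ∧ ∀ w, ρ g w - w ∈ U := by
      intro g hg
      refine ⟨fun w hw => congrArg Subtype.val (LinearMap.congr_fun (ih hsub (subRep ρ U hUinv) g hg) ⟨w, hw⟩), ?_⟩
      intro w
      have := LinearMap.congr_fun (ih hquo (quotRep ρ U hUinv) g hg) (U.mkQ w)
      exact (Submodule.Quotient.eq U).1 this
    intro g hg
    have hle : derivedSeries P (k + 1) ≤ ρ.toHomUnits.ker := by
      rw [derivedSeries_succ, Subgroup.commutator_le]
      intro a ha b hb
      rw [MonoidHom.mem_ker, map_commutatorElement, commutatorElement_eq_one_iff_commute]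
      refine Units.ext (LinearMap.ext fun w => ?_)
      show ρ a (ρ b w) = ρ b (ρ a w)
      obtain ⟨ha1, ha2⟩ := hker a ha
      obtain ⟨hb1, hb2⟩ := hker b hb
      have e1 : ρ a (ρ b w) = ρ a w + (ρ b w - w) := by
        conv_lhs => rw [show ρ b w = w + (ρ b w - w) by abel, map_add, ha1 _ (hb2 w)]
      have e2 : ρ b (ρ a w) = ρ b w + (ρ a w - w) := by
        conv_lhs => rw [show ρ a w = w + (ρ a w - w) by abel, map_add, hb1 _ (ha2 w)]
      rw [e1, e2]; abel
    exact congrArg Units.val (MonoidHom.mem_ker.1 (hle hg))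

/-- Away from characteristic `p`, a unipotent element of `p`-power order of level two is trivial. -/
theorem eq_one_of_sq_zero {p k : ℕ} (hpK : ((p : ℕ) : K) ≠ 0) (f : Module.End K V) (hf : f ^ (p ^ k) = 1)
    (h2 : (f - 1) * (f - 1) = 0) : f = 1 := by
  have hpow : ∀ m : ℕ, f ^ m = 1 + m • (f - 1) := by
    intro m
    induction m with
    | zero => simp
    | succ m ih =>
      calc f ^ (m + 1) = (1 + m • (f - 1)) * (1 + (f - 1)) := by rw [pow_succ, ih, add_sub_cancel]
        _ = 1 + (m + 1) • (f - 1) + m • ((f - 1) * (f - 1)) := by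
          simp only [add_mul, mul_add, smul_mul_assoc, one_mul, mul_one, succ_nsmul]
          abel
        _ = _ := by rw [h2, smul_zero, add_zero]
  have h := hpow (p ^ k)
  rw [hf, left_eq_add, ← Nat.cast_smul_eq_nsmul K, Nat.cast_pow] at h
  exact sub_eq_zero.1 ((smul_eq_zero.1 h).resolve_left (pow_ne_zero _ hpK))

/-- Away from characteristic `p`, over an algebraically closed field: derived length at most one more
than the logarithm of the dimension. -/
theorem derived_trivial_coprime [IsAlgClosed K] {p : ℕ} [hp : Fact p.Prime] (hpK : ((p : ℕ) : K) ≠ 0) :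
    ∀ (k d : ℕ) {W : Type v} [AddCommGroup W] [Module K W] [FiniteDimensional K W],
    Module.finrank K W ≤ d → d < 2 ^ k → ∀ {P : Type v} [Group P] [Finite P], IsPGroup p P →
      ∀ ρ : P →* Module.End K W, ∀ g ∈ derivedSeries P k, ρ g = 1 := by
  intro k
  induction k with
  | zero =>
    intro d W _ _ _ hd hdk P _ _ _ ρ g _
    rw [pow_zero] at hdk
    haveI : Subsingleton W := Module.finrank_zero_iff.1 (show Module.finrank K W = 0 by omega)
    exact LinearMap.ext fun w => Subsingleton.elim _ _
  | succ k ih =>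
    intro d
    induction d using Nat.strong_induction_on with
    | _ d ihd =>
    intro W _ _ _ hd hdk P _ _ hP ρ
    by_cases hred : ∃ U : Submodule K W, U ≠ ⊥ ∧ U ≠ ⊤ ∧ ∀ g, ∀ w ∈ U, ρ g w ∈ U
    · obtain ⟨U, hU1, hU2, hUinv⟩ := hred
      have h1 := Submodule.finrank_quotient_add_finrank U
      have h2 := Submodule.finrank_lt hU2
      have h3 : 0 < Module.finrank K U := by
        haveI := (Submodule.nontrivial_iff_ne_bot).2 hU1
        exact Module.finrank_pos
      intro g hg
      obtain ⟨i, hi⟩ := hP g
      refine eq_one_of_sq_zero hpK (ρ g) (k := i) (by rw [← map_pow, hi, map_one]) (LinearMap.ext fun w => ?_)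
      have hmem : ρ g w - w ∈ U := by
        have := LinearMap.congr_fun (ihd (Module.finrank K (W ⧸ U)) (by omega) le_rfl (by omega) hP
          (quotRep ρ U hUinv) g hg) (U.mkQ w)
        exact (Submodule.Quotient.eq U).1 this
      have hfix := congrArg Subtype.val (LinearMap.congr_fun (ihd (Module.finrank K U) (by omega) le_rfl
        (by omega) hP (subRep ρ U hUinv) g hg) ⟨_, hmem⟩)
      simp only [Module.End.mul_apply, LinearMap.sub_apply, Module.End.one_apply, LinearMap.zero_apply]
      exact sub_eq_zero.2 hfix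
    push Not at hred
    -- an irreducible representation
    set R := ρ.toHomUnits.range with hR
    intro g hg
    suffices derivedSeries R (k + 1) = ⊥ by
      have h1 := map_derivedSeries_le_derivedSeries ρ.toHomUnits.rangeRestrict (k + 1)
      rw [this, le_bot_iff, Subgroup.map_eq_bot_iff] at h1
      exact congrArg Units.val (congrArg Subtype.val (MonoidHom.mem_ker.1 (h1 hg)))
    have hRp : IsPGroup p R := hP.of_surjective ρ.toHomUnits.rangeRestrict ρ.toHomUnits.rangeRestrict_surjective
    haveI : Finite R := Finite.of_surjective _ ρ.toHomUnits.rangeRestrict_surjective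
    have hirr : ∀ U : Submodule K W, (∀ r : R, ∀ w ∈ U, ((r : (Module.End K W)ˣ) : Module.End K W) w ∈ U) →
        U = ⊥ ∨ U = ⊤ := by
      intro U hU
      by_cases hb : U = ⊥
      · exact Or.inl hb
      refine Or.inr ?_
      by_contra ht
      obtain ⟨g, w, hw, hgw⟩ := hred U hb ht
      exact hgw (hU ⟨ρ.toHomUnits g, g, rfl⟩ w hw)
    by_cases hab : ∀ a b : R, a * b = b * a
    · refine le_bot_iff.1 ((derivedSeries_antitone R (show 1 ≤ k + 1 by omega)).trans ?_)
      rw [derivedSeries_one, commutator_def, Subgroup.commutator_le]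
      intro a _ b _
      exact Subgroup.mem_bot.2 (commutatorElement_eq_one_iff_commute.2 (hab a b))
    -- an element of the second centre whose `p`-th power is central
    set Z := Subgroup.center R with hZ
    have hZt : Z ≠ ⊤ := fun h => hab fun a b =>
      (Subgroup.mem_center_iff.1 (h ▸ Subgroup.mem_top b : b ∈ Z) a)
    haveI : Nontrivial (R ⧸ Z) := QuotientGroup.nontrivial_iff.2 hZt
    haveI := (hRp.to_quotient Z).center_nontrivial
    obtain ⟨j, hj⟩ := IsPGroup.iff_card.1 ((hRp.to_quotient Z).to_subgroup (Subgroup.center (R ⧸ Z)))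
    have hj0 : j ≠ 0 := fun h => (Finite.one_lt_card (α := Subgroup.center (R ⧸ Z))).ne' (by rw [hj, h, pow_zero])
    obtain ⟨⟨w, hw⟩, hwo⟩ := exists_prime_orderOf_dvd_card' (G := Subgroup.center (R ⧸ Z)) p (hj ▸ dvd_pow_self p hj0)
    rw [Subgroup.orderOf_mk] at hwo
    obtain ⟨a, rfl⟩ := QuotientGroup.mk'_surjective Z w
    change orderOf ((a : R) : R ⧸ Z) = p at hwo
    have haZ : a ∉ Z := fun h => by
      rw [(QuotientGroup.eq_one_iff a).2 h, orderOf_one] at hwo
      exact hp.out.ne_one hwo.symm
    have hap : a ^ p ∈ Z := (QuotientGroup.eq_one_iff _).1 (by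
      rw [QuotientGroup.mk_pow]; exact orderOf_dvd_iff_pow_eq_one.1 hwo.dvd)
    have hzc : ∀ y : R, ⁅y, a⁆ ∈ Z := fun y => (QuotientGroup.eq_one_iff _).1 (by
      show QuotientGroup.mk' Z ⁅y, a⁆ = 1
      rw [map_commutatorElement, commutatorElement_eq_one_iff_commute]
      exact Subgroup.mem_center_iff.1 hw _)
    let φ : R →* Z := MonoidHom.mk' (fun y => ⟨⁅y, a⁆, hzc y⟩) fun u v => Subtype.ext (by
      show ⁅u * v, a⁆ = ⁅u, a⁆ * ⁅v, a⁆
      have hc := Subgroup.mem_center_iff.1 (hzc v)
      calc ⁅u * v, a⁆ = u * ⁅v, a⁆ * (a * u⁻¹ * a⁻¹) := by simp only [commutatorElement_def]; group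
        _ = ⁅v, a⁆ * (u * (a * u⁻¹ * a⁻¹)) := by rw [hc u, mul_assoc]
        _ = ⁅v, a⁆ * ⁅u, a⁆ := by simp only [commutatorElement_def]; group
        _ = _ := (hc _).symm)
    have hφp : ∀ y, φ y ^ p = 1 := by
      intro y
      refine Subtype.ext ?_
      rw [SubgroupClass.coe_pow, OneMemClass.coe_one]
      show ⁅y, a⁆ ^ p = 1
      have hca : Commute a ⁅y, a⁆ := Subgroup.mem_center_iff.1 (hzc y) a
      have h1 : ∀ m : ℕ, ⁅y, a⁆ ^ m = ⁅y, a ^ m⁆ := by
        intro m
        induction m with
        | zero => simp [commutatorElement_def]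
        | succ m ih =>
          have hc' := Subgroup.mem_center_iff.1 (hzc y) (a ^ m)
          rw [pow_succ, ih]
          calc ⁅y, a ^ m⁆ * ⁅y, a⁆ = ⁅y, a ^ m⁆ * (a ^ m * ⁅y, a⁆ * (a ^ m)⁻¹) := by
                rw [hc', mul_inv_cancel_right]
            _ = ⁅y, a ^ (m + 1)⁆ := by simp only [commutatorElement_def, pow_succ]; group
      rw [h1, commutatorElement_eq_one_iff_commute]
      exact Subgroup.mem_center_iff.1 hap y
    -- the action
    let A : R → Module.End K W := fun r => ((r : (Module.End K W)ˣ) : Module.End K W)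
    have hAm : ∀ r s : R, A (r * s) = A r * A s := fun r s => rfl
    have hA1 : A 1 = 1 := rfl
    haveI hW : Nontrivial W := by
      by_contra hW
      rw [not_nontrivial_iff_subsingleton] at hW
      exact haZ (Subgroup.mem_center_iff.2 fun b => Subtype.ext (Units.ext (LinearMap.ext fun w => Subsingleton.elim _ _)))
    -- central elements are scalars
    have hscal : ∀ z ∈ Z, ∃ c : K, A z = c • 1 := by
      intro z hz
      obtain ⟨c, hc⟩ := Module.End.exists_eigenvalue (A z)
      refine ⟨c, ?_⟩
      rcases hirr (Module.End.eigenspace (A z) c) (fun r w hw => by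
        rw [Module.End.mem_eigenspace_iff] at hw ⊢
        show A z (A r w) = c • A r w
        rw [← Module.End.mul_apply, ← hAm, ← Subgroup.mem_center_iff.1 hz r, hAm, Module.End.mul_apply, hw,
          map_smul]) with h | h
      · exact absurd h (Module.End.hasEigenvalue_iff.1 hc)
      · refine LinearMap.ext fun w => ?_
        have : w ∈ Module.End.eigenspace (A z) c := h ▸ Submodule.mem_top
        rw [Module.End.mem_eigenspace_iff] at this
        simpa using this
    obtain ⟨y0, hy0⟩ : ∃ y, φ y ≠ 1 := by
      by_contra h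
      push Not at h
      exact haZ (Subgroup.mem_center_iff.2 fun b =>
        commutatorElement_eq_one_iff_commute.1 (congrArg Subtype.val (h b)))
    choose sc hsc using fun y : R => hscal _ (hzc y)
    have hscinj : ∀ x y, sc x = sc y → φ x = φ y := fun x y h => Subtype.ext (Subtype.ext (Units.ext (by
      show A ⁅x, a⁆ = A ⁅y, a⁆
      rw [hsc, hsc, h])))
    have hscmul : ∀ x y, sc (x * y) = sc x * sc y := by
      intro x y
      obtain ⟨w, hw0⟩ := exists_ne (0 : W)
      have h1 : A ⁅x * y, a⁆ = A ⁅x, a⁆ * A ⁅y, a⁆ := by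
        rw [← hAm]; exact congrArg A (congrArg Subtype.val (map_mul φ x y))
      rw [hsc, hsc, hsc] at h1
      have h2 := LinearMap.congr_fun h1 w
      simp only [LinearMap.smul_apply, Module.End.one_apply, Module.End.mul_apply, smul_smul] at h2
      exact smul_left_injective K hw0 h2
    have hsc1 : sc 1 = 1 := by
      obtain ⟨w, hw0⟩ := exists_ne (0 : W)
      have h1 : A ⁅(1 : R), a⁆ = 1 := by rw [show ⁅(1 : R), a⁆ = 1 by simp [commutatorElement_def], hA1]
      rw [hsc] at h1
      have h2 := LinearMap.congr_fun h1 w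
      simp only [LinearMap.smul_apply, Module.End.one_apply] at h2
      exact smul_left_injective K hw0 (h2.trans (one_smul K w).symm)
    have hscpow : ∀ (y : R) (m : ℕ), sc (y ^ m) = sc y ^ m := by
      intro y m
      induction m with
      | zero => simpa using hsc1
      | succ m ih => rw [pow_succ, hscmul, ih, pow_succ]
    set ω := sc y0 with hω
    have hφ1 : ∀ y, sc y = 1 → φ y = 1 := fun y h => (hscinj y 1 (h.trans hsc1.symm)).trans (map_one φ)
    have hωne : ω ≠ 1 := fun h => hy0 (hφ1 _ h)
    have hroot : ∀ y, sc y ^ p = 1 := by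
      intro y
      obtain ⟨w, hw0⟩ := exists_ne (0 : W)
      have h1 : A (⁅y, a⁆ ^ p) = 1 := by
        rw [show ⁅y, a⁆ ^ p = 1 from congrArg Subtype.val (hφp y), hA1]
      have h2 : A (⁅y, a⁆ ^ p) = sc y ^ p • 1 := by
        show ((((⁅y, a⁆ ^ p : R) : (Module.End K W)ˣ)) : Module.End K W) = _
        rw [SubgroupClass.coe_pow, Units.val_pow_eq_pow_val]
        show A ⁅y, a⁆ ^ p = _
        rw [hsc, smul_pow, one_pow]
      rw [h1] at h2
      have h3 := LinearMap.congr_fun h2 w
      simp only [LinearMap.smul_apply, Module.End.one_apply] at h3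
      exact smul_left_injective K hw0 (h3.symm.trans (one_smul K w).symm)
    have hprim : IsPrimitiveRoot ω p := IsPrimitiveRoot.iff_orderOf.2 (orderOf_eq_prime (hroot y0) hωne)
    have hpows : ∀ y, ∃ i < p, sc y = ω ^ i := fun y => by
      haveI : NeZero p := ⟨hp.out.ne_zero⟩
      obtain ⟨i, hi, h⟩ := hprim.eq_pow_of_pow_eq_one (hroot y)
      exact ⟨i, hi, h.symm⟩
    -- the eigenspaces of `a`
    obtain ⟨c, hc⟩ := Module.End.exists_eigenvalue (A a)
    have hc0 : c ≠ 0 := by
      intro h0
      obtain ⟨w, hw, hw0⟩ := hc.exists_hasEigenvector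
      rw [Module.End.mem_eigenspace_iff, h0, zero_smul] at hw
      exact hw0 (by rw [← Module.End.one_apply (R := K) w, ← hA1, ← inv_mul_cancel a, hAm, Module.End.mul_apply, hw, map_zero])
    set E : Fin p → Submodule K W := fun j => Module.End.eigenspace (A a) (c * ω ^ (j : ℕ)) with hE
    have hmove : ∀ (r : R) (e : K) (w : W), A a w = e • w → A a (A r w) = (e * sc r⁻¹) • A r w := by
      intro r e w hw
      have e1 : a * r = r * (⁅r⁻¹, a⁆ * a) := by rw [commutatorElement_def]; group
      rw [← Module.End.mul_apply, ← hAm, e1, hAm, hAm, Module.End.mul_apply, Module.End.mul_apply, hw, hsc]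
      simp only [LinearMap.smul_apply, Module.End.one_apply, map_smul, smul_smul]
    have hmem : ∀ (r : R) (j : Fin p) (w : W), w ∈ E j → ∃ j' : Fin p, A r w ∈ E j' ∧
        ω ^ (j' : ℕ) = ω ^ (j : ℕ) * sc r⁻¹ := by
      intro r j w hw
      obtain ⟨i, -, hi⟩ := hpows r⁻¹
      refine ⟨⟨((j : ℕ) + i) % p, Nat.mod_lt _ hp.out.pos⟩, ?_⟩
      have h1 : ω ^ (((j : ℕ) + i) % p) = ω ^ (j : ℕ) * sc r⁻¹ := by
        rw [hi, ← pow_add]; exact (pow_eq_pow_mod _ (hroot y0)).symm
      refine ⟨?_, h1⟩
      rw [hE, Module.End.mem_eigenspace_iff] at hw ⊢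
      rw [hmove r _ w hw, mul_assoc, h1]
    have hsup : (⨆ j, E j) = ⊤ := by
      refine (hirr _ fun r w hw => ?_).resolve_left fun hbot => ?_
      · refine Submodule.iSup_induction E (motive := fun x => A r x ∈ ⨆ j, E j) hw (fun j x hx => ?_) ?_ ?_
        · obtain ⟨j', hj', -⟩ := hmem r j x hx
          exact Submodule.mem_iSup_of_mem j' hj'
        · rw [map_zero]; exact Submodule.zero_mem _
        · intro x y hx hy; rw [map_add]; exact Submodule.add_mem _ hx hy
      · have h1 := (iSup_eq_bot.1 hbot) ⟨0, hp.out.pos⟩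
        refine (Module.End.hasEigenvalue_iff.1 hc) ?_
        rw [hE] at h1
        simpa using h1
    have hindep : iSupIndep E :=
      (Module.End.eigenspaces_iSupIndep (A a)).comp fun i j hij => Fin.ext
        (hprim.pow_inj i.2 j.2 (mul_left_cancel₀ hc0 hij))
    have hdims : ∀ j, Module.finrank K (E j) = Module.finrank K (E ⟨0, hp.out.pos⟩) := by
      have hshift : ∀ i l : Fin p, Module.finrank K (E i) ≤ Module.finrank K (E l) := by
        intro i l
        have hω0 : ω ≠ 0 := fun h => by
          have := hroot y0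
          rw [← hω, h, zero_pow hp.out.ne_zero] at this
          exact zero_ne_one this
        set m := (l : ℕ) + (p - (i : ℕ))
        set r := (y0 ^ m)⁻¹ with hr
        have hm : ∀ x ∈ E i, A r x ∈ E l := by
          intro x hx
          obtain ⟨j', hj', hj''⟩ := hmem r i x hx
          have : j' = l := by
            refine Fin.ext (hprim.pow_inj j'.2 l.2 ?_)
            rw [hj'', hr, inv_inv, hscpow, ← hω, ← pow_add, show (i : ℕ) + m = (l : ℕ) + p by omega, pow_add,
              hroot y0, mul_one]
          exact this ▸ hj'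
        refine LinearMap.finrank_le_finrank_of_injective (f := (A r).restrict hm) ?_
        intro x y hxy
        refine Subtype.ext ?_
        have h1 : A r⁻¹ (A r (x : W)) = A r⁻¹ (A r (y : W)) := by rw [show A r (x : W) = A r (y : W) from congrArg Subtype.val hxy]
        rwa [← Module.End.mul_apply, ← Module.End.mul_apply, ← hAm, inv_mul_cancel, hA1, Module.End.one_apply,
          Module.End.one_apply] at h1
      exact fun j => le_antisymm (hshift _ _) (hshift _ _)
    have hsum : p * Module.finrank K (E ⟨0, hp.out.pos⟩) = Module.finrank K W := by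
      classical
      have hint : DirectSum.IsInternal E := DirectSum.isInternal_submodule_of_iSupIndep_of_iSup_eq_top hindep hsup
      rw [← (LinearEquiv.ofBijective (DirectSum.coeLinearMap E) hint).finrank_eq, Module.finrank_directSum,
        Finset.sum_congr rfl fun j _ => hdims j, Finset.sum_const, Finset.card_univ, Fintype.card_fin, smul_eq_mul]
    -- the stabilizer
    let φM : Subgroup R := φ.ker
    have hcomM : commutator R ≤ φM := by
      rw [commutator_def, Subgroup.commutator_le]
      intro x _ y _
      rw [MonoidHom.mem_ker, map_commutatorElement, commutatorElement_eq_one_iff_commute]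
      exact Subtype.ext (Subgroup.mem_center_iff.1 (φ y).2 _)
    have hMinv : ∀ (j : Fin p) (m : φM), ∀ w ∈ E j, A m w ∈ E j := by
      intro j m w hw
      have h1 : sc (m : R)⁻¹ = 1 := by
        have h2 : φ (m : R)⁻¹ = φ 1 := by rw [map_inv, MonoidHom.mem_ker.1 m.2, inv_one, map_one]
        obtain ⟨w0, hw0⟩ := exists_ne (0 : W)
        have h3 : A ⁅(m : R)⁻¹, a⁆ = A ⁅(1 : R), a⁆ := congrArg A (congrArg Subtype.val h2)
        rw [hsc, hsc, hsc1] at h3
        have h4 := LinearMap.congr_fun h3 w0
        simp only [LinearMap.smul_apply, Module.End.one_apply] at h4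
        exact smul_left_injective K hw0 h4
      obtain ⟨j', hj', hj''⟩ := hmem (m : R) j w hw
      rw [h1, mul_one] at hj''
      exact (Fin.ext (hprim.pow_inj j'.2 j.2 hj'') : j' = j) ▸ hj'
    have hMk : derivedSeries φM k = ⊥ := by
      rw [eq_bot_iff]
      intro m hm
      rw [Subgroup.mem_bot]
      refine Subtype.ext (Subtype.ext (Units.ext (LinearMap.ext fun w => ?_)))
      show A (m : R) w = w
      let σ : φM →* Module.End K W :=
        { toFun := fun m => A (m : R), map_one' := rfl, map_mul' := fun _ _ => rfl }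
      have hw : w ∈ ⨆ j, E j := hsup ▸ Submodule.mem_top
      refine Submodule.iSup_induction E (motive := fun x => A (m : R) x = x) hw (fun j x hx => ?_) (map_zero _)
        (fun x y hx hy => by rw [map_add, hx, hy])
      have hlt : Module.finrank K (E j) < 2 ^ k := by
        rw [hdims]
        have := Nat.mul_le_mul_right (Module.finrank K (E ⟨0, hp.out.pos⟩)) hp.out.two_le
        rw [pow_succ] at hdk
        omega
      have := ih _ (W := E j) le_rfl hlt (hRp.to_subgroup φM) (subRep σ (E j) (hMinv j)) m hm
      exact congrArg Subtype.val (LinearMap.congr_fun this ⟨x, hx⟩)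
    have hle : ∀ n : ℕ, derivedSeries R (n + 1) ≤ (derivedSeries φM n).map φM.subtype := by
      intro n
      induction n with
      | zero =>
        rw [derivedSeries_one, derivedSeries_zero, ← MonoidHom.range_eq_map, Subgroup.range_subtype]
        exact hcomM
      | succ n ihn =>
        rw [derivedSeries_succ R (n + 1), derivedSeries_succ φM n, Subgroup.map_commutator]
        exact Subgroup.commutator_mono ihn ihn
    refine le_bot_iff.1 ((hle k).trans ?_)
    rw [hMk, Subgroup.map_bot]

end CfsgLib.SchurExt
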