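/-
The bound `n ≥ 2 ^ k + 2 k - 2` for a group of order `p ^ n` of derived length `k + 1` (P. Hall, A. Mann).
-/
import Mathlib

set_option autoImplicit false

open scoped commutatorElement

namespace CfsgLib.SchurExt.MannBound

variable {G : Type*} [Group G]

/-- `[N, G, …, G]` with `j` copies of `G`. -/
def iterComm (N : Subgroup G) : ℕ → Subgroup G
  | 0 => N
  | j + 1 => ⁅iterComm N j, ⊤⁆

theorem iterComm_normal (N : Subgroup G) [hN : N.Normal] : ∀ j, (iterComm N j).Normal
  | 0 => hN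
  | j + 1 => by
    haveI := iterComm_normal N j
    exact Subgroup.commutator_normal _ _

theorem iterComm_succ_le (N : Subgroup G) [N.Normal] (j : ℕ) : iterComm N (j + 1) ≤ iterComm N j := by
  haveI := iterComm_normal N j
  exact Subgroup.commutator_le_left _ _

theorem iterComm_le_lcs {N : Subgroup G} {m : ℕ}
    (hN : N ≤ Subgroup.lowerCentralSeries (⊤ : Subgroup G) m) :
    ∀ j, iterComm N j ≤ Subgroup.lowerCentralSeries (⊤ : Subgroup G) (m + j)
  | 0 => hN
  | j + 1 => Subgroup.commutator_mono (iterComm_le_lcs hN j) le_rfl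

/-- The three subgroup lemma modulo a normal subgroup. -/
theorem three_le {A B C D : Subgroup G} [D.Normal] (h1 : ⁅⁅B, C⁆, A⁆ ≤ D) (h2 : ⁅⁅C, A⁆, B⁆ ≤ D) :
    ⁅⁅A, B⁆, C⁆ ≤ D := by
  rw [← QuotientGroup.ker_mk' D, ← Subgroup.map_eq_bot_iff] at h1 h2 ⊢
  simp only [Subgroup.map_commutator] at h1 h2 ⊢
  exact Subgroup.commutator_commutator_eq_bot_of_rotate h1 h2

theorem comm_lcs_le (N : Subgroup G) [N.Normal] : ∀ j a,
    ⁅iterComm N a, Subgroup.lowerCentralSeries (⊤ : Subgroup G) j⁆ ≤ iterComm N (a + j + 1) := by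
  intro j
  induction j with
  | zero => intro a; exact le_rfl
  | succ j ih =>
    intro a
    haveI := iterComm_normal N (a + (j + 1) + 1)
    rw [Subgroup.commutator_comm]
    show ⁅⁅Subgroup.lowerCentralSeries (⊤ : Subgroup G) j, ⊤⁆, iterComm N a⁆ ≤ _
    apply three_le
    · rw [Subgroup.commutator_comm ⊤ (iterComm N a)]
      have := ih (a + 1)
      rwa [show a + 1 + j + 1 = a + (j + 1) + 1 by omega] at this
    · refine (Subgroup.commutator_mono (ih a) le_rfl).trans ?_
      exact le_of_eq (by rw [show a + (j + 1) + 1 = a + j + 1 + 1 by omega]; rfl)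

variable [Finite G] {p : ℕ} [hp : Fact p.Prime]

omit [Finite G] hp in
theorem card_ge_mul_of_lt' (hG : IsPGroup p G) {A B : Subgroup G} (h : A < B) [Finite B] [Fact p.Prime] :
    p * Nat.card A ≤ Nat.card B := by
  obtain ⟨b, hb⟩ := IsPGroup.iff_card.1 (hG.to_subgroup B)
  obtain ⟨a, -, ha⟩ := (Nat.dvd_prime_pow Fact.out).1 (hb ▸ Subgroup.card_dvd_of_le h.le)
  rw [ha, hb, ← pow_succ']
  refine Nat.pow_le_pow_right (Fact.out : p.Prime).pos ?_
  by_contra hc
  refine h.ne (Subgroup.eq_of_le_of_card_ge h.le ?_)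
  rw [ha, hb]
  exact Nat.pow_le_pow_right (Fact.out : p.Prime).pos (by omega)

theorem iterComm_lt (hG : IsPGroup p G) (N : Subgroup G) [N.Normal] (j : ℕ)
    (hne : iterComm N (j + 1) ≠ ⊥ ∨ iterComm N j ≠ ⊥) : iterComm N (j + 1) < iterComm N j := by
  refine lt_of_le_of_ne (iterComm_succ_le N j) fun heq => ?_
  have hne' : iterComm N j ≠ ⊥ := by
    rcases hne with h | h
    · rwa [← heq]
    · exact h
  haveI : Group.IsNilpotent G := hG.isNilpotent
  obtain ⟨c, hc⟩ := Subgroup.nilpotent_iff_lowerCentralSeries.1 ‹Group.IsNilpotent G›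
  have hle : ∀ i, iterComm N j ≤ Subgroup.lowerCentralSeries (⊤ : Subgroup G) i := by
    intro i
    induction i with
    | zero => exact le_top
    | succ i ih =>
      calc iterComm N j = ⁅iterComm N j, ⊤⁆ := heq.symm
        _ ≤ _ := Subgroup.commutator_mono ih le_rfl
  exact hne' (le_bot_iff.1 (hc ▸ hle c))

theorem iterComm_antitone (N : Subgroup G) [N.Normal] {i j : ℕ} (h : i ≤ j) :
    iterComm N j ≤ iterComm N i := by
  induction j, h using Nat.le_induction with
  | base => exact le_rfl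
  | succ j _ ih => exact (iterComm_succ_le N j).trans ih

/-- Each nontrivial step of the series loses a factor `p`. -/
theorem card_iterComm_ge (hG : IsPGroup p G) (N : Subgroup G) [N.Normal] (i : ℕ) : ∀ d,
    iterComm N (i + d) ≠ ⊥ → p ^ d * Nat.card (iterComm N (i + d)) ≤ Nat.card (iterComm N i) := by
  intro d
  induction d with
  | zero => intro _; simp
  | succ d ih =>
    intro hne
    have h1 := card_ge_mul_of_lt' hG (iterComm_lt hG N (i + d) (Or.inl hne))
    have h2 := ih (ne_bot_of_le_ne_bot hne (iterComm_succ_le N (i + d)))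
    calc p ^ (d + 1) * Nat.card (iterComm N (i + (d + 1)))
        = p ^ d * (p * Nat.card (iterComm N (i + d + 1))) := by
          rw [pow_succ, mul_assoc, ← add_assoc]
      _ ≤ p ^ d * Nat.card (iterComm N (i + d)) := Nat.mul_le_mul_left _ h1
      _ ≤ _ := h2

/-- Generators commuting modulo a normal subgroup. -/
theorem commutator_le_of_closure {s : Set G} {N T : Subgroup G} [T.Normal]
    (hN : N ≤ Subgroup.closure s) (h : ∀ x ∈ s, ∀ y ∈ s, ⁅x, y⁆ ∈ T) : ⁅N, N⁆ ≤ T := by
  rw [← QuotientGroup.ker_mk' T, ← Subgroup.map_eq_bot_iff, Subgroup.map_commutator,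
    Subgroup.commutator_eq_bot_iff_le_centralizer]
  set π := QuotientGroup.mk' T
  have hle : N.map π ≤ Subgroup.closure (π '' s) := by
    rw [← MonoidHom.map_closure]; exact Subgroup.map_mono hN
  refine hle.trans ((Subgroup.closure_le_centralizer_centralizer _).trans (Subgroup.centralizer_le ?_))
  refine SetLike.coe_subset_coe.2 (hle.trans ((Subgroup.closure_le _).2 ?_))
  rintro _ ⟨x, hx, rfl⟩
  refine Subgroup.mem_centralizer_iff.2 ?_
  rintro _ ⟨y, hy, rfl⟩
  rw [← commutatorElement_eq_one_iff_mul_comm, ← map_commutatorElement]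
  exact (QuotientGroup.eq_one_iff _).2 (h y hy x hx)

/-- The top of the series is cyclic of order at most `p`. -/
def CycTop (p : ℕ) (N : Subgroup G) : Prop := Nat.card N ≤ p * Nat.card (iterComm N 1)

/-- If some element generates `N` modulo `[N, G]` then `N'` lies one step further down. -/
theorem comm_le_of_gen {N : Subgroup G} [N.Normal] {m : ℕ}
    (hm : N ≤ Subgroup.lowerCentralSeries (⊤ : Subgroup G) m) (a : G) (ha : a ∈ N)
    (hgen : N ≤ Subgroup.zpowers a ⊔ iterComm N 1) : ⁅N, N⁆ ≤ iterComm N (m + 2) := by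
  haveI := iterComm_normal N (m + 2)
  have hMN : ∀ x ∈ iterComm N 1, ∀ y ∈ N, ⁅x, y⁆ ∈ iterComm N (m + 2) := fun x hx y hy => by
    have := comm_lcs_le N m 1 (Subgroup.commutator_mem_commutator hx (hm hy))
    rwa [show 1 + m + 1 = m + 2 by omega] at this
  have h1N : iterComm N 1 ≤ N := iterComm_succ_le N 0
  refine commutator_le_of_closure (s := {a} ∪ (iterComm N 1 : Set G)) ?_ ?_
  · rw [Subgroup.closure_union, Subgroup.closure_eq, ← Subgroup.zpowers_eq_closure]
    exact hgen
  · rintro x (rfl | hx) y (rfl | hy)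
    · rw [commutatorElement_self]; exact one_mem _
    · rw [← commutatorElement_inv]; exact inv_mem (hMN y hy _ ha)
    · exact hMN x hx _ ha
    · exact hMN x hx y (h1N hy)

theorem comm_le_of_cycTop (hG : IsPGroup p G) {N : Subgroup G} [N.Normal] {m : ℕ}
    (hm : N ≤ Subgroup.lowerCentralSeries (⊤ : Subgroup G) m) (hc : CycTop p N) (hne : N ≠ ⊥) :
    ⁅N, N⁆ ≤ iterComm N (m + 2) := by
  have hlt : iterComm N 1 < N := iterComm_lt hG N 0 (Or.inr hne)
  obtain ⟨a, ha, haM⟩ := SetLike.exists_of_lt hlt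
  refine comm_le_of_gen hm a ha (le_of_eq ?_)
  have hle : Subgroup.zpowers a ⊔ iterComm N 1 ≤ N :=
    sup_le (Subgroup.zpowers_le.2 ha) hlt.le
  refine (Subgroup.eq_of_le_of_card_ge hle (hc.trans (card_ge_mul_of_lt' hG ?_))).symm
  exact lt_of_le_of_ne le_sup_right fun h =>
    haM (h ▸ (le_sup_left : _ ≤ Subgroup.zpowers a ⊔ iterComm N 1) (Subgroup.mem_zpowers a))

/-- If the top has order `p ^ 2` and `N'` is not further down, the image of `N'` in the next layer has
order at most `p`. -/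
theorem card_comm_le_of_top_sq (hG : IsPGroup p G) {N : Subgroup G} [hNn : N.Normal] {m : ℕ}
    (hm : N ≤ Subgroup.lowerCentralSeries (⊤ : Subgroup G) m)
    (h2 : Nat.card N ≤ p ^ 2 * Nat.card (iterComm N 1)) (hne : N ≠ ⊥)
    (hnd : ¬ ⁅N, N⁆ ≤ iterComm N (m + 2)) :
    Nat.card ↥⁅N, N⁆ ≤ p * Nat.card (iterComm N (m + 2)) := by
  classical
  set M := iterComm N 1 with hMdef
  set T₀ := iterComm N (m + 2) with hT₀
  haveI hT₀n : T₀.Normal := iterComm_normal N (m + 2)
  haveI hMn : M.Normal := iterComm_normal N 1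
  have hMN : ∀ x ∈ M, ∀ y ∈ N, ⁅x, y⁆ ∈ T₀ := fun x hx y hy => by
    have := comm_lcs_le N m 1 (Subgroup.commutator_mem_commutator hx (hm hy))
    rwa [show 1 + m + 1 = m + 2 by omega] at this
  have h1N : M ≤ N := iterComm_succ_le N 0
  have hlt : M < N := iterComm_lt hG N 0 (Or.inr hne)
  have hgen : ∀ x ∈ N, Subgroup.zpowers x ⊔ M < N := fun x hx =>
    lt_of_le_of_ne (sup_le (Subgroup.zpowers_le.2 hx) h1N) fun h => hnd (comm_le_of_gen hm x hx h.ge)
  have hsup : ∀ x, x ∉ M → M < Subgroup.zpowers x ⊔ M := fun x hx =>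
    lt_of_le_of_ne le_sup_right fun h =>
      hx (h ▸ (le_sup_left : _ ≤ Subgroup.zpowers x ⊔ M) (Subgroup.mem_zpowers x))
  obtain ⟨a, ha, haM⟩ := SetLike.exists_of_lt hlt
  obtain ⟨b, hb, hbA⟩ := SetLike.exists_of_lt (hgen a ha)
  have hN : N ≤ Subgroup.zpowers b ⊔ (Subgroup.zpowers a ⊔ M) := by
    refine (Subgroup.eq_of_le_of_card_ge (sup_le (Subgroup.zpowers_le.2 hb) (hgen a ha).le) ?_).ge
    have c1 := card_ge_mul_of_lt' hG (hsup a haM)
    have c2 := card_ge_mul_of_lt' hG (show Subgroup.zpowers a ⊔ M <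
      Subgroup.zpowers b ⊔ (Subgroup.zpowers a ⊔ M) from lt_of_le_of_ne le_sup_right fun h =>
        hbA (h ▸ (le_sup_left : _ ≤ Subgroup.zpowers b ⊔ (Subgroup.zpowers a ⊔ M)) (Subgroup.mem_zpowers b)))
    calc Nat.card N ≤ p ^ 2 * Nat.card M := h2
      _ = p * (p * Nat.card M) := by ring
      _ ≤ p * Nat.card ↥(Subgroup.zpowers a ⊔ M) := Nat.mul_le_mul_left _ c1
      _ ≤ _ := c2
  -- `a ^ p ∈ M`
  have hap : a ^ p ∈ M := by
    set A₁ := Subgroup.zpowers a ⊔ M
    have c3 : p * Nat.card A₁ ≤ p * (p * Nat.card M) := by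
      refine (card_ge_mul_of_lt' hG (hgen a ha)).trans ?_
      rw [← mul_assoc, ← pow_two]; exact h2
    have hA₁ : Nat.card A₁ = p * Nat.card M :=
      le_antisymm (Nat.le_of_mul_le_mul_left c3 hp.out.pos) (card_ge_mul_of_lt' hG (hsup a haM))
    have hidx : (M.subgroupOf A₁).index = p := by
      have := (M.subgroupOf A₁).card_mul_index
      rw [hA₁, Nat.card_congr (Subgroup.subgroupOfEquivOfLe (le_sup_right : M ≤ A₁)).toEquiv,
        mul_comm p] at this
      exact Nat.eq_of_mul_eq_mul_left Nat.card_pos this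
    haveI : (M.subgroupOf A₁).Normal := Subgroup.normal_subgroupOf
    have := Subgroup.pow_index_mem (M.subgroupOf A₁) (⟨a, Subgroup.mem_sup_left (Subgroup.mem_zpowers a)⟩ : A₁)
    rwa [hidx] at this
  set π := QuotientGroup.mk' T₀ with hπ
  have hzc : ∀ z ∈ ⁅N, N⁆, ∀ q : G ⧸ T₀, q * π z = π z * q := by
    intro z hz q
    obtain ⟨g, rfl⟩ := QuotientGroup.mk'_surjective T₀ q
    have h1 : ⁅z, g⁆ ∈ T₀ := by
      have h2' : ⁅N, N⁆ ≤ iterComm N (m + 1) := by
        refine (Subgroup.commutator_mono le_rfl hm).trans ?_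
        have := comm_lcs_le N m 0
        rwa [Nat.zero_add] at this
      exact Subgroup.commutator_mem_commutator (h2' hz) (Subgroup.mem_top g)
    have h2 : π ⁅z, g⁆ = 1 := (QuotientGroup.eq_one_iff _).2 h1
    rw [map_commutatorElement, commutatorElement_eq_one_iff_mul_comm] at h2
    exact h2.symm
  set z := π ⁅a, b⁆ with hz
  have hzcen := hzc _ (Subgroup.commutator_mem_commutator ha hb)
  have hzp : z ^ p = 1 := by
    have hconj : π a * π b * (π a)⁻¹ = z * π b := by
      rw [hz, map_commutatorElement, commutatorElement_def, inv_mul_cancel_right]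
    have hpow : ∀ i : ℕ, π a ^ i * π b * (π a ^ i)⁻¹ = z ^ i * π b := by
      intro i
      induction i with
      | zero => simp
      | succ i ih =>
        have hzi : Commute (π a) (z ^ i) := (Commute.pow_right (hzcen (π a)) i)
        calc π a ^ (i + 1) * π b * (π a ^ (i + 1))⁻¹
            = π a * (π a ^ i * π b * (π a ^ i)⁻¹) * (π a)⁻¹ := by rw [pow_succ']; group
          _ = π a * (z ^ i * π b) * (π a)⁻¹ := by rw [ih]
          _ = z ^ i * (π a * π b * (π a)⁻¹) := by rw [← mul_assoc, hzi.eq]; group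
          _ = z ^ i * (z * π b) := by rw [hconj]
          _ = z ^ (i + 1) * π b := by rw [← mul_assoc, pow_succ]
    have hcomm : π (a ^ p) * π b = π b * π (a ^ p) := by
      rw [← commutatorElement_eq_one_iff_mul_comm, ← map_commutatorElement]
      exact (QuotientGroup.eq_one_iff _).2 (hMN _ hap b hb)
    rw [map_pow] at hcomm
    have := hpow p
    rw [hcomm, mul_inv_cancel_right] at this
    exact mul_eq_right.1 this.symm
  haveI : (Subgroup.zpowers z).Normal := ⟨by
    rintro _ ⟨i, rfl⟩ q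
    have hc : Commute q (z ^ i) := Commute.zpow_right (hzcen q) i
    show q * z ^ i * q⁻¹ ∈ _
    rw [hc.eq, mul_inv_cancel_right]
    exact ⟨i, rfl⟩⟩
  set T := (Subgroup.zpowers z).comap π with hT
  have hT₀T : T₀ ≤ T := fun t ht => by
    show π t ∈ Subgroup.zpowers z
    rw [show π t = 1 from (QuotientGroup.eq_one_iff t).2 ht]
    exact one_mem _
  have hNT : ⁅N, N⁆ ≤ T := by
    refine commutator_le_of_closure (s := ({b} : Set G) ∪ (({a} : Set G) ∪ (M : Set G))) ?_ ?_
    · rw [Subgroup.closure_union, Subgroup.closure_union, Subgroup.closure_eq,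
        ← Subgroup.zpowers_eq_closure, ← Subgroup.zpowers_eq_closure]
      exact hN
    · have hab : ⁅a, b⁆ ∈ T := Subgroup.mem_zpowers z
      have hM' : ∀ x ∈ M, ∀ y ∈ N, ⁅x, y⁆ ∈ T := fun x hx y hy => hT₀T (hMN x hx y hy)
      have hM'' : ∀ x ∈ M, ∀ y ∈ N, ⁅y, x⁆ ∈ T := fun x hx y hy => by
        rw [← commutatorElement_inv]; exact inv_mem (hM' x hx y hy)
      rintro x (rfl | rfl | hx) y (rfl | rfl | hy)
      · rw [commutatorElement_self]; exact one_mem _
      · rw [← commutatorElement_inv]; exact inv_mem hab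
      · exact hM'' y hy _ hb
      · exact hab
      · rw [commutatorElement_self]; exact one_mem _
      · exact hM'' y hy _ ha
      · exact hM' x hx _ hb
      · exact hM' x hx _ ha
      · exact hM' x hx y (h1N hy)
  refine (Subgroup.card_le_of_le hNT).trans ?_
  have hT1 : Nat.card T = Nat.card T₀ * Nat.card (Subgroup.zpowers z) := by
    have h := (T₀.subgroupOf T).card_mul_index
    have hi : T₀.relIndex T = Nat.card (Subgroup.zpowers z) := by
      have hT₀eq : T₀ = Subgroup.comap π ⊥ := by rw [MonoidHom.comap_bot, QuotientGroup.ker_mk']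
      have hmap : T.map π = Subgroup.zpowers z := by
        rw [hT]; exact Subgroup.map_comap_eq_self_of_surjective (QuotientGroup.mk'_surjective T₀) _
      conv_lhs => rw [hT₀eq, Subgroup.relIndex_comap, hmap]
      exact Subgroup.relIndex_bot_left _
    rw [Nat.card_congr (Subgroup.subgroupOfEquivOfLe hT₀T).toEquiv, ← Subgroup.relIndex, hi] at h
    exact h.symm
  rw [hT1, mul_comm p, Nat.card_zpowers]
  exact Nat.mul_le_mul_left _ (Nat.le_of_dvd hp.out.pos (orderOf_dvd_of_pow_eq_one hzp))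

/-- One step down the derived series. -/
theorem step (hG : IsPGroup p G) {N : Subgroup G} [N.Normal] {m : ℕ}
    (hm : N ≤ Subgroup.lowerCentralSeries (⊤ : Subgroup G) m) (hne : ⁅N, N⁆ ≠ ⊥) :
    p ^ (m + 2) * Nat.card ↥⁅N, N⁆ ≤ Nat.card N ∧
    ⁅N, N⁆ ≤ Subgroup.lowerCentralSeries (⊤ : Subgroup G) (2 * m + 1) ∧
    (CycTop p N → ⁅N, N⁆ ≤ Subgroup.lowerCentralSeries (⊤ : Subgroup G) (2 * m + 2)) ∧
    (¬ CycTop p N → Nat.card N < p ^ (m + 3) * Nat.card ↥⁅N, N⁆ → CycTop p ⁅N, N⁆) := by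
  have hN0 : N ≠ ⊥ := fun h => hne (by rw [h, Subgroup.commutator_bot_left])
  have hle1 : ⁅N, N⁆ ≤ iterComm N (m + 1) := by
    refine (Subgroup.commutator_mono le_rfl hm).trans ?_
    have := comm_lcs_le N m 0
    rwa [Nat.zero_add] at this
  have hs1 : iterComm N (m + 1) ≠ ⊥ := ne_bot_of_le_ne_bot hne hle1
  have hA := card_iterComm_ge hG N 1 m (by rwa [add_comm])
  rw [add_comm 1 m] at hA
  have hpos := hp.out.pos
  refine ⟨?_, ?_, fun hc => ?_, fun hc hL => ?_⟩
  · by_cases hc : CycTop p N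
    · have h2 := comm_le_of_cycTop hG hm hc hN0
      have h3 := card_iterComm_ge hG N 0 (m + 2) (by rw [zero_add]; exact ne_bot_of_le_ne_bot hne h2)
      rw [zero_add] at h3
      exact le_trans (Nat.mul_le_mul_left _ (Subgroup.card_le_of_le h2)) h3
    · have h0 : p * (p * Nat.card (iterComm N 1)) ≤ Nat.card N := by
        obtain ⟨a, ha⟩ := IsPGroup.iff_card.1 (hG.to_subgroup N)
        obtain ⟨b, hb⟩ := IsPGroup.iff_card.1 (hG.to_subgroup (iterComm N 1))
        have h : ¬ p ^ a ≤ p * p ^ b := by rw [← ha, ← hb]; exact hc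
        rw [ha, hb, ← pow_succ', ← pow_succ']
        refine Nat.pow_le_pow_right hpos ?_
        by_contra hab
        exact h (by rw [← pow_succ']; exact Nat.pow_le_pow_right hpos (by omega))
      calc p ^ (m + 2) * Nat.card ↥⁅N, N⁆ ≤ p ^ (m + 2) * Nat.card (iterComm N (m + 1)) :=
            Nat.mul_le_mul_left _ (Subgroup.card_le_of_le hle1)
        _ = p * (p * (p ^ m * Nat.card (iterComm N (m + 1)))) := by ring
        _ ≤ p * (p * Nat.card (iterComm N 1)) :=
            Nat.mul_le_mul_left _ (Nat.mul_le_mul_left _ hA)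
        _ ≤ _ := h0
  · exact hle1.trans ((iterComm_le_lcs hm (m + 1)).trans
      (Subgroup.lowerCentralSeries_antitone (⊤ : Subgroup G) (by omega)))
  · exact (comm_le_of_cycTop hG hm hc hN0).trans ((iterComm_le_lcs hm (m + 2)).trans
      (Subgroup.lowerCentralSeries_antitone (⊤ : Subgroup G) (by omega)))
  · obtain ⟨a, ha⟩ := IsPGroup.iff_card.1 (hG.to_subgroup N)
    obtain ⟨b, hb⟩ := IsPGroup.iff_card.1 (hG.to_subgroup (iterComm N 1))
    obtain ⟨c, hcc⟩ := IsPGroup.iff_card.1 (hG.to_subgroup (iterComm N (m + 1)))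
    obtain ⟨d, hd⟩ := IsPGroup.iff_card.1 (hG.to_subgroup ⁅N, N⁆)
    have hdc : d ≤ c := by
      have := Subgroup.card_le_of_le hle1
      rw [hd, hcc] at this
      exact (Nat.pow_le_pow_iff_right hp.out.one_lt).1 this
    have hmb : m + c ≤ b := by
      rw [hcc, hb, ← pow_add] at hA
      exact (Nat.pow_le_pow_iff_right hp.out.one_lt).1 hA
    have hba : b + 1 < a := by
      by_contra hab
      push Not at hab
      refine hc ?_
      show Nat.card N ≤ p * Nat.card (iterComm N 1)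
      rw [ha, hb, ← pow_succ']
      exact Nat.pow_le_pow_right hpos hab
    have had : a < m + 3 + d := by
      rw [ha, hd, ← pow_add] at hL
      exact (Nat.pow_lt_pow_iff_right hp.out.one_lt).1 hL
    have heq : ⁅N, N⁆ = iterComm N (m + 1) :=
      Subgroup.eq_of_le_of_card_ge hle1 (by rw [hd, hcc]; exact Nat.pow_le_pow_right hpos (by omega))
    have hnd : ¬ ⁅N, N⁆ ≤ iterComm N (m + 2) := fun h =>
      (iterComm_lt hG N (m + 1) (Or.inr hs1)).not_ge (heq ▸ h)
    have h5 := card_comm_le_of_top_sq hG hm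
      (by rw [ha, hb, ← pow_add]; exact Nat.pow_le_pow_right hpos (by omega)) hN0 hnd
    show Nat.card ↥⁅N, N⁆ ≤ p * Nat.card ↥⁅⁅N, N⁆, (⊤ : Subgroup G)⁆
    rw [heq] at h5 ⊢
    exact h5

/-- Mann's bound. -/
theorem derived_length_bound (hG : IsPGroup p G) {n k : ℕ} (hcard : Nat.card G = p ^ n)
    (hk : derivedSeries G k ≠ ⊥) : 2 ^ k + 2 * k ≤ n + 2 := by
  have hpos := hp.out.pos
  have hne : ∀ j ≤ k, derivedSeries G j ≠ ⊥ := fun j hj h =>
    hk (le_bot_iff.1 (h ▸ derivedSeries_antitone G hj))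
  have key : ∀ j ≤ k, ∃ e g : ℕ,
      derivedSeries G j ≤ Subgroup.lowerCentralSeries (⊤ : Subgroup G) (2 ^ j + e - 1) ∧
      p ^ (2 ^ j - 1 + j + g) * Nat.card (derivedSeries G j) ≤ Nat.card G ∧
      (j ≤ g ∨ (j ≤ g + 1 ∧ CycTop p (derivedSeries G j)) ∨ (j ≤ g + 2 ∧ 1 ≤ e)) := by
    intro j
    induction j with
    | zero =>
      intro _
      refine ⟨0, 0, ?_, ?_, Or.inl le_rfl⟩
      · simp
      · simp
    | succ j ih =>
      intro hj
      obtain ⟨e, g, hle, hgr, hst⟩ := ih (by omega)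
      haveI : (derivedSeries G j).Normal := derivedSeries_normal G j
      have hne' : ⁅derivedSeries G j, derivedSeries G j⁆ ≠ ⊥ := hne (j + 1) hj
      obtain ⟨s1, s2, s3, s4⟩ := step hG hle hne'
      set q := 2 ^ j with hq
      have h2 : 2 ^ (j + 1) = 2 * q := pow_succ' 2 j
      have hq1 : 1 ≤ q := Nat.one_le_two_pow
      -- the general estimate
      have hgen : p ^ (2 ^ (j + 1) - 1 + (j + 1) + (g + e)) * Nat.card (derivedSeries G (j + 1))
          ≤ Nat.card G := by
        refine le_trans ?_ hgr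
        rw [show 2 ^ (j + 1) - 1 + (j + 1) + (g + e) = (q - 1 + j + g) + (q + e - 1 + 2) by omega,
          pow_add, mul_assoc]
        exact Nat.mul_le_mul_left _ s1
      have hgen2 : derivedSeries G (j + 1) ≤
          Subgroup.lowerCentralSeries (⊤ : Subgroup G) (2 ^ (j + 1) + 2 * e - 1) := by
        rw [show 2 ^ (j + 1) + 2 * e - 1 = 2 * (q + e - 1) + 1 by omega]
        exact s2
      have hcyc : CycTop p (derivedSeries G j) → derivedSeries G (j + 1) ≤
          Subgroup.lowerCentralSeries (⊤ : Subgroup G) (2 ^ (j + 1) + (2 * e + 1) - 1) := fun hc => by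
        rw [show 2 ^ (j + 1) + (2 * e + 1) - 1 = 2 * (q + e - 1) + 2 by omega]
        exact s3 hc
      rcases hst with h | ⟨h, hc⟩ | ⟨h, he⟩
      · by_cases hL : Nat.card (derivedSeries G j) < p ^ (q + e - 1 + 3) * Nat.card (derivedSeries G (j + 1))
        · by_cases hc : CycTop p (derivedSeries G j)
          · exact ⟨2 * e + 1, g + e, hcyc hc, hgen, Or.inr (Or.inr ⟨by omega, by omega⟩)⟩
          · exact ⟨2 * e, g + e, hgen2, hgen, Or.inr (Or.inl ⟨by omega, s4 hc hL⟩)⟩
        · push Not at hL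
          refine ⟨2 * e, g + e + 1, hgen2, ?_, Or.inl (by omega)⟩
          refine le_trans ?_ hgr
          rw [show 2 ^ (j + 1) - 1 + (j + 1) + (g + e + 1) = (q - 1 + j + g) + (q + e - 1 + 3) by omega,
            pow_add, mul_assoc]
          exact Nat.mul_le_mul_left _ hL
      · exact ⟨2 * e + 1, g + e, hcyc hc, hgen, Or.inr (Or.inr ⟨by omega, by omega⟩)⟩
      · exact ⟨2 * e, g + e, hgen2, hgen, Or.inr (Or.inr ⟨by omega, by omega⟩)⟩
  obtain ⟨e, g, -, hgr, hst⟩ := key k le_rfl
  have h2 : p ≤ Nat.card (derivedSeries G k) := by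
    obtain ⟨a, ha⟩ := IsPGroup.iff_card.1 (hG.to_subgroup (derivedSeries G k))
    rcases a with _ | a
    · exact absurd (Subgroup.eq_bot_of_card_eq _ ha) hk
    · rw [ha]; exact Nat.le_self_pow a.succ_ne_zero p
  have hfin : p ^ (2 ^ k - 1 + k + g + 1) ≤ p ^ n := by
    rw [pow_succ, ← hcard]
    exact le_trans (Nat.mul_le_mul_left _ h2) hgr
  have := (Nat.pow_le_pow_iff_right hp.out.one_lt).1 hfin
  have h3 : 1 ≤ 2 ^ k := Nat.one_le_two_pow
  rcases hst with h | ⟨h, -⟩ | ⟨h, -⟩ <;> omega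

end CfsgLib.SchurExt.MannBound
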