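import Cfsg.Agent.Lib.InvChar.BaerSuzuki
import Cfsg.Agent.Lib.FFModules.CoreBasic
import Cfsg.Agent.Lib.TwoGroups.Klein
import Cfsg.Agent.Lib.TwoGroups.Taussky
import Cfsg.Agent.Lib.TwoGroups.SylowLocal
import Cfsg.Agent.Lib.Spectrum.FixityTwoSylow
import Cfsg.Agent.Lib.Involutions.BrauerSuzuki

/-!
Groups in which every noncyclic subgroup contains its centraliser: centralisers of involutions.
-/

set_option autoImplicit false
set_option linter.style.haveILetI false
set_option linter.unusedSectionVars false

open Cfsg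

namespace CfsgLib.SchurExt.SelfCentInvolution

variable {G : Type*} [Group G] [Finite G]

/-- Every noncyclic subgroup contains its centraliser. -/
def SelfCent (G : Type*) [Group G] : Prop :=
  ∀ H : Subgroup G, ¬ IsCyclic ↥H → Subgroup.centralizer (H : Set G) ≤ H

theorem mem_of_commute (hP : SelfCent G) {H : Subgroup G} (hH : ¬ IsCyclic ↥H) {y : G}
    (hy : ∀ h ∈ H, h * y = y * h) : y ∈ H :=
  hP H hH (Subgroup.mem_centralizer_iff.2 hy)

/-- The elements commuting with two commuting involutions. -/
theorem klein_self (hP : SelfCent G) {t u x : G} (ht : orderOf t = 2) (hu : orderOf u = 2)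
    (hne : u ≠ t) (hut : u * t = t * u) (hxt : x * t = t * x) (hxu : x * u = u * x) :
    x = 1 ∨ x = t ∨ x = u ∨ x = t * u := by
  obtain ⟨T, hT, hTset⟩ := CfsgLib.TwoGroups.exists_klein ht hu hne.symm (show Commute t u from hut.symm)
  have hmem : ∀ h : G, h ∈ T ↔ (h = 1 ∨ h = t ∨ h = u ∨ h = t * u) := by
    intro h
    rw [← SetLike.mem_coe, hTset]
    simp
  refine (hmem x).1 (mem_of_commute hP (H := T) IsKleinFour.not_isCyclic fun h hh => ?_)
  rcases (hmem h).1 hh with e | e | e | e
  · simp [e]
  · rw [e]; exact hxt.symm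
  · rw [e]; exact hxu.symm
  · rw [e]; exact (Commute.mul_left (show Commute t x from hxt.symm) hxu.symm).eq

/-- Two noncentral involutions of `C(t)` never have a product of odd order `> 1`. -/
theorem not_odd_pair (hP : SelfCent G) {t u v : G} (ht : orderOf t = 2)
    (hu : orderOf u = 2) (hv : orderOf v = 2)
    (hut : u * t = t * u) (hvt : v * t = t * v) (hodd : Odd (orderOf (u * v))) (h1 : u * v ≠ 1) :
    False := by
  have hu2 : u * u = 1 := by rw [← pow_two, ← hu, pow_orderOf_eq_one]
  have hv2 : v * v = 1 := by rw [← pow_two, ← hv, pow_orderOf_eq_one]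
  set w := u * v with hw
  have hwu : u * w * u⁻¹ = w⁻¹ := by
    rw [hw, ← mul_assoc, hu2, one_mul, mul_inv_rev, inv_eq_of_mul_eq_one_right hu2,
      inv_eq_of_mul_eq_one_right hv2]
  have hsw : ∀ n : ℤ, u * w ^ n = w ^ (-n) * u := by
    intro n
    have := conj_zpow (i := n) (a := u) (b := w)
    rw [hwu] at this
    rw [zpow_neg, ← inv_zpow, this, inv_mul_cancel_right]
  have hnc : ¬ Commute u w := by
    intro h
    have h2 : w = w⁻¹ := by rw [← hwu, h.eq, mul_inv_cancel_right]
    have h3 : w ^ 2 = 1 := by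
      rw [pow_two]; nth_rewrite 2 [h2]; exact mul_inv_cancel w
    obtain ⟨m, hm⟩ := hodd
    have := orderOf_dvd_of_pow_eq_one h3
    rcases (Nat.dvd_prime Nat.prime_two).1 this with e | e
    · exact h1 (orderOf_eq_one_iff.1 e)
    · omega
  let H : Subgroup G :=
    { carrier := {g | ∃ n : ℤ, g = w ^ n ∨ g = w ^ n * u}
      one_mem' := ⟨0, Or.inl (zpow_zero w).symm⟩
      mul_mem' := by
        rintro a b ⟨m, rfl | rfl⟩ ⟨n, rfl | rfl⟩
        · exact ⟨m + n, Or.inl (zpow_add w m n).symm⟩
        · exact ⟨m + n, Or.inr (by rw [zpow_add, mul_assoc])⟩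
        · exact ⟨m + -n, Or.inr (by rw [mul_assoc, hsw, ← mul_assoc, ← zpow_add])⟩
        · exact ⟨m + -n, Or.inl (by
            rw [mul_assoc, ← mul_assoc u, hsw, mul_assoc (w ^ (-n)), hu2, mul_one, ← zpow_add])⟩
      inv_mem' := by
        rintro a ⟨m, rfl | rfl⟩
        · exact ⟨-m, Or.inl (zpow_neg w m).symm⟩
        · exact ⟨m, Or.inr (by
            rw [mul_inv_rev, inv_eq_of_mul_eq_one_right hu2, ← zpow_neg, hsw, neg_neg])⟩ }
  have hwH : w ∈ H := ⟨1, Or.inl (zpow_one w).symm⟩
  have huH : u ∈ H := ⟨0, Or.inr (by rw [zpow_zero, one_mul])⟩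
  have hcyc : ¬ IsCyclic H := by
    intro hc
    obtain ⟨g, hg⟩ := (Subgroup.isCyclic_iff_exists_zpowers_eq_top H).1 hc
    obtain ⟨i, hi⟩ := Subgroup.mem_zpowers_iff.1 (hg ▸ huH)
    obtain ⟨j, hj⟩ := Subgroup.mem_zpowers_iff.1 (hg ▸ hwH)
    exact hnc (by rw [← hi, ← hj]; exact Commute.zpow_zpow_self g i j)
  have hwt : w * t = t * w := (Commute.mul_left hut hvt).eq
  have htH : t ∈ H := mem_of_commute hP hcyc (by
    rintro h ⟨n, rfl | rfl⟩
    · exact (Commute.zpow_left hwt n).eq
    · exact ((Commute.zpow_left hwt n).mul_left hut).eq)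
  obtain ⟨n, hn | hn⟩ := htH
  · have hd : orderOf t ∣ orderOf w := hn ▸ orderOf_dvd_of_mem_zpowers (Subgroup.zpow_mem _ (Subgroup.mem_zpowers w) n)
    rw [ht] at hd
    exact (Nat.not_even_iff_odd.2 hodd) (even_iff_two_dvd.2 hd)
  · refine hnc ?_
    have hu' : u = w ^ (-n) * t := by rw [hn, ← mul_assoc, ← zpow_add, neg_add_cancel, zpow_zero, one_mul]
    rw [hu']
    exact ((Commute.zpow_left (Commute.refl w) (-n)).mul_left hwt.symm)

/-- A second involution in the centraliser makes it a `2`-group. -/
theorem isPGroup_centralizer (hP : SelfCent G) {t u : G} (ht : orderOf t = 2) (hu : orderOf u = 2)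
    (hne : u ≠ t) (hut : u * t = t * u) :
    IsPGroup 2 (Subgroup.centralizer ({t} : Set G)) := by
  classical
  haveI := Fact.mk Nat.prime_two
  set C := Subgroup.centralizer ({t} : Set G) with hC
  have hcm : ∀ x : C, (x : G) * t = t * x := fun x => Subgroup.mem_centralizer_singleton_iff.1 x.2
  set tC : C := ⟨t, Subgroup.mem_centralizer_singleton_iff.2 rfl⟩ with htC
  set uC : C := ⟨u, Subgroup.mem_centralizer_singleton_iff.2 hut⟩ with huC
  have ht2 : t * t = 1 := by rw [← pow_two, ← ht, pow_orderOf_eq_one]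
  have hu2 : u * u = 1 := by rw [← pow_two, ← hu, pow_orderOf_eq_one]
  -- noncentral involutions lie in `O₂`
  set P := pCore 2 C with hPdef
  have hPp : IsPGroup 2 P := CfsgLib.FFModules.isPGroup_pCore
  set U : Set C := {x : C | x * x = 1 ∧ x ≠ 1 ∧ x ≠ tC} with hUdef
  have hmemP : ∀ x ∈ U, x ∈ P := by
    rintro x ⟨hx2, hx1, -⟩
    by_contra hx
    have hox : orderOf x = 2 := orderOf_eq_prime (by rw [pow_two, hx2]) hx1
    obtain ⟨y, hy, hodd, hne'⟩ := CfsgLib.InvChar.exists_conj_odd_orderOf_mul x hox hx
    have hoy : orderOf y = 2 := by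
      obtain ⟨c, hc⟩ := isConj_iff.1 hy
      rw [← hc, show c * x * c⁻¹ = MulAut.conj c x from rfl, MulEquiv.orderOf_eq, hox]
    exact not_odd_pair hP ht (t := t) (u := (x : G)) (v := (y : G))
      (by rw [Subgroup.orderOf_coe, hox]) (by rw [Subgroup.orderOf_coe, hoy]) (hcm x) (hcm y)
      (by rw [← Subgroup.coe_mul, Subgroup.orderOf_coe]; exact hodd)
      (fun e => hne' (Subtype.ext e))
  have htP : tC ∈ P := by
    have hn : (Subgroup.zpowers tC).Normal := by
      refine ⟨fun n hn g => ?_⟩
      obtain ⟨k, rfl⟩ := Subgroup.mem_zpowers_iff.1 hn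
      have : g * tC * g⁻¹ = tC := Subtype.ext (by
        show (g : G) * t * (g : G)⁻¹ = t
        rw [hcm g, mul_inv_cancel_right])
      rw [← conj_zpow, this]
      exact Subgroup.zpow_mem _ (Subgroup.mem_zpowers tC) k
    have hp : IsPGroup 2 (Subgroup.zpowers tC) := IsPGroup.of_card (n := 1) (by
      rw [Nat.card_zpowers, ← Subgroup.orderOf_coe, htC, ht, pow_one])
    have hmem : Subgroup.zpowers tC ∈ {N : Subgroup C | N.Normal ∧ IsPGroup 2 N} := ⟨hn, hp⟩
    exact le_sSup hmem (Subgroup.mem_zpowers tC)
  have huU : uC ∈ U := ⟨Subtype.ext hu2, fun e => by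
    have := congrArg Subtype.val e
    rw [huC, Subgroup.coe_one] at this
    simp only at this
    rw [this, orderOf_one] at hu
    omega, fun e => hne (congrArg Subtype.val e)⟩
  -- the centraliser of `u` in `C`
  set D := Subgroup.centralizer ({uC} : Set C) with hD
  have hDcard : Nat.card D ≤ 4 := by
    have hsub : (D : Set C) ⊆ ({1, tC, uC, tC * uC} : Finset C) := by
      intro x hx
      have hxu : (x : G) * u = u * x :=
        congrArg Subtype.val (Subgroup.mem_centralizer_singleton_iff.1 hx)
      rcases klein_self hP ht hu hne hut (hcm x) hxu with e | e | e | e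
      · simp [show x = 1 from Subtype.ext e]
      · simp [show x = tC from Subtype.ext e]
      · simp [show x = uC from Subtype.ext e]
      · simp [show x = tC * uC from Subtype.ext e]
    calc Nat.card D = (D : Set C).ncard := Nat.card_coe_set_eq _
      _ ≤ (↑({1, tC, uC, tC * uC} : Finset C) : Set C).ncard := Set.ncard_le_ncard hsub (Set.toFinite _)
      _ ≤ 4 := by rw [Set.ncard_coe_finset]; exact Finset.card_le_four
  -- the class of `u`
  have hcls : D.index ≤ U.ncard := by
    rw [Subgroup.index_eq_card, ← Nat.card_coe_set_eq]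
    refine Nat.card_le_card_of_injective (fun q : C ⧸ D => ⟨q.out * uC * q.out⁻¹, ?_, ?_, ?_⟩) ?_
    · obtain ⟨h1, -, -⟩ := huU
      calc q.out * uC * q.out⁻¹ * (q.out * uC * q.out⁻¹) = q.out * (uC * uC) * q.out⁻¹ := by group
        _ = 1 := by rw [h1, mul_one, mul_inv_cancel]
    · exact fun e => huU.2.1 (conj_eq_one_iff.1 e)
    · intro e
      apply huU.2.2
      have h2 : q.out * tC = tC * q.out := Subtype.ext (hcm q.out)
      calc uC = q.out⁻¹ * (q.out * uC * q.out⁻¹) * q.out := by group
        _ = tC := by rw [e, mul_assoc, ← h2, inv_mul_cancel_left]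
    · intro q r hqr
      have h : q.out * uC * q.out⁻¹ = r.out * uC * r.out⁻¹ := congrArg Subtype.val hqr
      rw [← QuotientGroup.out_eq' q, ← QuotientGroup.out_eq' r, QuotientGroup.eq]
      refine Subgroup.mem_centralizer_singleton_iff.2 ?_
      calc q.out⁻¹ * r.out * uC = q.out⁻¹ * (r.out * uC * r.out⁻¹) * r.out := by group
        _ = uC * (q.out⁻¹ * r.out) := by rw [← h]; group
  have hUle : U.ncard + 2 ≤ Nat.card P := by
    have hsub : insert (1 : C) (insert tC U) ⊆ (P : Set C) := by
      rintro x (rfl | rfl | hx)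
      · exact P.one_mem
      · exact htP
      · exact hmemP x hx
    have := Set.ncard_le_ncard hsub (Set.toFinite _)
    rw [Set.ncard_insert_of_notMem, Set.ncard_insert_of_notMem] at this
    · calc U.ncard + 2 = U.ncard + 1 + 1 := rfl
        _ ≤ (P : Set C).ncard := this
        _ = Nat.card P := (Nat.card_coe_set_eq _).symm
    · exact fun h => h.2.2 rfl
    · rintro (h | h)
      · have := congrArg Subtype.val h
        rw [htC, Subgroup.coe_one] at this
        simp only at this
        rw [← this, orderOf_one] at ht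
        omega
      · exact h.2.1 rfl
  have hCD : Nat.card D * D.index = Nat.card C := Subgroup.card_mul_index D
  have hPi : Nat.card P * P.index = Nat.card C := Subgroup.card_mul_index P
  have hidx : P.index ≤ 3 := by
    by_contra hlt
    have h4 : 4 * Nat.card P ≤ Nat.card C := by
      rw [← hPi, mul_comm]; exact Nat.mul_le_mul_left _ (by omega)
    have h5 : Nat.card C ≤ 4 * D.index := by rw [← hCD]; exact Nat.mul_le_mul_right _ hDcard
    omega
  -- index three is impossible
  have hne3 : P.index ≠ 3 := by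
    intro h3
    have h34 : 3 * Nat.card P ≤ 4 * U.ncard := by
      have h5 : Nat.card C ≤ 4 * D.index := by rw [← hCD]; exact Nat.mul_le_mul_right _ hDcard
      rw [← hPi, h3] at h5
      omega
    set S : Set C := {x | x ∈ P ∧ x * x = 1} with hS
    have hUS : U.ncard + 2 ≤ S.ncard := by
      have hsub : insert (1 : C) (insert tC U) ⊆ S := by
        rintro x (rfl | rfl | hx)
        · exact ⟨P.one_mem, one_mul 1⟩
        · exact ⟨htP, Subtype.ext ht2⟩
        · exact ⟨hmemP x hx, hx.1⟩
      have := Set.ncard_le_ncard hsub (Set.toFinite _)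
      rw [Set.ncard_insert_of_notMem, Set.ncard_insert_of_notMem] at this
      · omega
      · exact fun h => h.2.2 rfl
      · rintro (h | h)
        · have := congrArg Subtype.val h
          rw [htC, Subgroup.coe_one] at this
          simp only at this
          rw [← this, orderOf_one] at ht
          omega
        · exact h.2.1 rfl
    have hSu : S ∩ ((fun x => uC * x) '' S) ⊆ (D : Set C) := by
      rintro x ⟨⟨-, hx⟩, y, ⟨-, hy⟩, rfl⟩
      rw [SetLike.mem_coe, hD, Subgroup.mem_centralizer_singleton_iff]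
      have h1 : uC * uC = 1 := huU.1
      have hyi : y⁻¹ = y := inv_eq_of_mul_eq_one_right hy
      have hui : uC⁻¹ = uC := inv_eq_of_mul_eq_one_right h1
      have h2 : (uC * y)⁻¹ = uC * y := inv_eq_of_mul_eq_one_right hx
      rw [mul_inv_rev, hyi, hui] at h2
      calc uC * y * uC = uC * (y * uC) := mul_assoc _ _ _
        _ = uC * (uC * y) := by rw [h2]
    have hun : (S ∪ ((fun x => uC * x) '' S)).ncard ≤ Nat.card P := by
      refine le_of_le_of_eq ?_ (Nat.card_coe_set_eq (P : Set C)).symm
      refine Set.ncard_le_ncard ?_ (Set.toFinite _)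
      rintro x (hx | ⟨y, hy, rfl⟩)
      · exact hx.1
      · exact P.mul_mem (hmemP _ huU) hy.1
    have h1 := Set.ncard_union_add_ncard_inter S ((fun x => uC * x) '' S)
    rw [Set.ncard_image_of_injective S (mul_right_injective uC)] at h1
    have h2 := Set.ncard_le_ncard hSu (Set.toFinite _)
    rw [← Nat.card_coe_set_eq (D : Set C)] at h2
    simp only [SetLike.coe_sort_coe] at h2
    omega
  -- index at most two
  have hpos : P.index ≠ 0 := Subgroup.index_ne_zero_of_finite
  obtain ⟨k, hk⟩ := hPp.exists_card_eq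
  rcases (show P.index = 1 ∨ P.index = 2 by omega) with h | h
  · exact IsPGroup.of_card (n := k) (by rw [← hPi, h, mul_one, hk])
  · exact IsPGroup.of_card (n := k + 1) (by rw [← hPi, h, hk, pow_succ])

/-- In a simple group every centraliser of an involution is a `2`-group. -/
theorem isPGroup_of_simple (hP : SelfCent G) [IsSimpleGroup G] (hna : ¬ IsMulCommutative G)
    {t : G} (ht : orderOf t = 2) : IsPGroup 2 (Subgroup.centralizer ({t} : Set G)) := by
  haveI := Fact.mk Nat.prime_two
  by_cases hex : ∃ u : G, orderOf u = 2 ∧ u ≠ t ∧ u * t = t * u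
  · obtain ⟨u, hu, hne, hut⟩ := hex
    exact isPGroup_centralizer hP ht hu hne hut
  exfalso
  push Not at hex
  obtain ⟨P, hP'⟩ := (IsPGroup.of_card (n := 1) (by rw [Nat.card_zpowers, ht, pow_one]) :
    IsPGroup 2 (Subgroup.zpowers t)).exists_le_sylow
  have htP : t ∈ (P : Subgroup G) := hP' (Subgroup.mem_zpowers t)
  haveI : Nontrivial (P : Subgroup G) :=
    ⟨⟨⟨t, htP⟩, 1, fun h => by
      have := congrArg Subtype.val h
      simp only [Subgroup.coe_one] at this
      rw [this, orderOf_one] at ht
      omega⟩⟩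
  haveI : Nontrivial (Subgroup.center (P : Subgroup G)) := P.isPGroup'.center_nontrivial
  obtain ⟨z, hz⟩ := exists_prime_orderOf_dvd_card' (G := Subgroup.center (P : Subgroup G)) 2 (by
    obtain ⟨n, hn⟩ := ((P.isPGroup').to_subgroup (Subgroup.center (P : Subgroup G))).exists_card_eq
    rcases n with _ | n
    · have := Finite.one_lt_card (α := Subgroup.center (P : Subgroup G))
      rw [hn, pow_zero] at this; omega
    · rw [hn, pow_succ]; exact dvd_mul_left _ _)
  have hzo : orderOf (((z : (P : Subgroup G)) : G)) = 2 := by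
    rw [Subgroup.orderOf_coe, Subgroup.orderOf_coe, hz]
  have hzc : ∀ x ∈ (P : Subgroup G), x * ((z : (P : Subgroup G)) : G) = ((z : (P : Subgroup G)) : G) * x :=
    fun x hx => congrArg Subtype.val (Subgroup.mem_center_iff.1 z.2 ⟨x, hx⟩)
  have hzt : ((z : (P : Subgroup G)) : G) = t := by
    by_contra h
    exact hex _ hzo h (hzc t htP).symm
  have hiso : ∀ g : G, g * t * g⁻¹ ∈ (P : Subgroup G) → g * t * g⁻¹ = t := by
    intro g hg
    by_contra h
    refine hex _ ?_ h ?_
    · rw [show g * t * g⁻¹ = MulAut.conj g t from rfl, MulEquiv.orderOf_eq, ht]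
    · have := hzc _ hg
      rwa [hzt] at this
  have hO : oddCore G = ⊥ := by
    have hn : (oddCore G).Normal := inferInstance
    rcases hn.eq_bot_or_eq_top with h | h
    · exact h
    · exfalso
      have hodd : Odd (Nat.card (oddCore G)) := CfsgLib.Cores.odd_card_oddCore
      rw [h, Subgroup.card_top] at hodd
      exact (Nat.not_even_iff_odd.2 hodd) (even_iff_two_dvd.2 (ht ▸ orderOf_dvd_natCard t))
  have htc := CfsgLib.Involutions.mem_center_of_isolated P ht hiso hO
  rcases (inferInstance : (Subgroup.center G).Normal).eq_bot_or_eq_top with h | h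
  · rw [h, Subgroup.mem_bot] at htc
    rw [htc, orderOf_one] at ht; omega
  · exact hna (IsMulCommutative.of_comm fun a b =>
      ((Subgroup.mem_center_iff.1 (h ▸ Subgroup.mem_top a : a ∈ Subgroup.center G)) b).symm)

/-- The Sylow `2`-subgroups: Klein four, dihedral or semidihedral. -/
theorem sylow_shape (hP : SelfCent G) [IsSimpleGroup G] (hna : ¬ IsMulCommutative G)
    (heven : Even (Nat.card G)) (S : Sylow 2 G) :
    IsKleinFour (S : Subgroup G) ∨
      (∃ n : ℕ, 2 ≤ n ∧ Nonempty ((S : Subgroup G) ≃* DihedralGroup (2 ^ n))) ∨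
      Cfsg.IsQuasiDihedral (S : Subgroup G) := by
  classical
  haveI := Fact.mk Nat.prime_two
  obtain ⟨x₀, hx₀, hx₀o⟩ := CfsgLib.Involutions.exists_involution_mem_sylow S heven
  haveI : Nontrivial (S : Subgroup G) :=
    ⟨⟨⟨x₀, hx₀⟩, 1, fun h => CfsgLib.Involutions.ne_one hx₀o (congrArg Subtype.val h)⟩⟩
  haveI : Nontrivial (Subgroup.center (S : Subgroup G)) := S.isPGroup'.center_nontrivial
  obtain ⟨z, hz⟩ := exists_prime_orderOf_dvd_card' (G := Subgroup.center (S : Subgroup G)) 2 (by
    obtain ⟨n, hn⟩ := ((S.isPGroup').to_subgroup (Subgroup.center (S : Subgroup G))).exists_card_eq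
    rcases n with _ | n
    · have := Finite.one_lt_card (α := Subgroup.center (S : Subgroup G))
      rw [hn, pow_zero] at this; omega
    · rw [hn, pow_succ]; exact dvd_mul_left _ _)
  set tS : (S : Subgroup G) := (z : (S : Subgroup G)) with htS
  have hto : orderOf tS = 2 := by rw [htS, Subgroup.orderOf_coe, hz]
  have hcomm : ∀ s : (S : Subgroup G), s * tS = tS * s := fun s => Subgroup.mem_center_iff.1 z.2 s
  have htG : orderOf (tS : G) = 2 := by rw [Subgroup.orderOf_coe, hto]
  -- a second involution in `S`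
  obtain ⟨uS, huo, hune⟩ : ∃ u : (S : Subgroup G), orderOf u = 2 ∧ u ≠ tS := by
    by_contra! hall
    have hiso : ∀ g : G, g * tS * g⁻¹ ∈ (S : Subgroup G) → g * tS * g⁻¹ = tS := by
      intro g hg
      refine congrArg Subtype.val (hall ⟨g * tS * g⁻¹, hg⟩ ?_)
      rw [← Subgroup.orderOf_coe]
      exact (MulEquiv.orderOf_eq (MulAut.conj g) (tS : G)).trans htG
    have hO : oddCore G = ⊥ := by
      rcases (inferInstance : (oddCore G).Normal).eq_bot_or_eq_top with h | h
      · exact h
      · exfalso
        have hodd : Odd (Nat.card (oddCore G)) := CfsgLib.Cores.odd_card_oddCore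
        rw [h, Subgroup.card_top] at hodd
        exact (Nat.not_even_iff_odd.2 hodd) heven
    have htc := CfsgLib.Involutions.mem_center_of_isolated S htG hiso hO
    rcases (inferInstance : (Subgroup.center G).Normal).eq_bot_or_eq_top with h | h
    · rw [h, Subgroup.mem_bot] at htc
      rw [htc, orderOf_one] at htG; omega
    · exact hna (IsMulCommutative.of_comm fun a b =>
        ((Subgroup.mem_center_iff.1 (h ▸ Subgroup.mem_top a : a ∈ Subgroup.center G)) b).symm)
  have huG : orderOf (uS : G) = 2 := by rw [Subgroup.orderOf_coe, huo]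
  have hneG : (uS : G) ≠ tS := fun e => hune (Subtype.ext e)
  set D := Subgroup.centralizer ({uS} : Set (S : Subgroup G)) with hD
  have hDcard : Nat.card D ≤ 4 := by
    have hsub : (D : Set (S : Subgroup G)) ⊆ ({1, tS, uS, tS * uS} : Finset (S : Subgroup G)) := by
      intro x hx
      have hxu : (x : G) * uS = uS * x :=
        congrArg Subtype.val (Subgroup.mem_centralizer_singleton_iff.1 hx)
      rcases klein_self hP htG huG hneG (congrArg Subtype.val (hcomm uS))
        (congrArg Subtype.val (hcomm x)) hxu with e | e | e | e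
      · simp [show x = 1 from Subtype.ext e]
      · simp [show x = tS from Subtype.ext e]
      · simp [show x = uS from Subtype.ext e]
      · simp [show x = tS * uS from Subtype.ext e]
    calc Nat.card D = (D : Set (S : Subgroup G)).ncard := Nat.card_coe_set_eq _
      _ ≤ (↑({1, tS, uS, tS * uS} : Finset (S : Subgroup G)) : Set (S : Subgroup G)).ncard :=
          Set.ncard_le_ncard hsub (Set.toFinite _)
      _ ≤ 4 := by rw [Set.ncard_coe_finset]; exact Finset.card_le_four
  by_cases hab : IsMulCommutative (S : Subgroup G)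
  · left
    have hDtop : D = ⊤ := eq_top_iff.2 fun x _ =>
      Subgroup.mem_centralizer_singleton_iff.2 (hab.is_comm.comm x uS)
    rw [hDtop, Subgroup.card_top] at hDcard
    obtain ⟨T, hT, -⟩ := CfsgLib.TwoGroups.exists_klein (G := (S : Subgroup G)) hto huo hune.symm
      (hcomm uS).symm
    have hTtop : T = ⊤ := Subgroup.eq_top_of_card_eq T (le_antisymm (Subgroup.card_le_card_group T)
      (by rw [hT.card_four]; exact hDcard))
    subst hTtop
    exact CfsgLib.TwoGroups.isKleinFour_congr Subgroup.topEquiv hT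
  · right
    have hcls : D.index ≤ Nat.card (commutator (S : Subgroup G)) := by
      rw [Subgroup.index_eq_card]
      refine Nat.card_le_card_of_injective (fun q : (S : Subgroup G) ⧸ D =>
        ⟨q.out * uS * q.out⁻¹ * uS⁻¹, Subgroup.commutator_mem_commutator (Subgroup.mem_top _)
          (Subgroup.mem_top _)⟩) ?_
      intro q r hqr
      have h : q.out * uS * q.out⁻¹ = r.out * uS * r.out⁻¹ := mul_right_cancel (congrArg Subtype.val hqr)
      rw [← QuotientGroup.out_eq' q, ← QuotientGroup.out_eq' r, QuotientGroup.eq]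
      refine Subgroup.mem_centralizer_singleton_iff.2 ?_
      calc q.out⁻¹ * r.out * uS = q.out⁻¹ * (r.out * uS * r.out⁻¹) * r.out := by group
        _ = uS * (q.out⁻¹ * r.out) := by rw [← h]; group
    have h4 : (commutator (S : Subgroup G)).index = 4 := by
      have hge := CfsgLib.Spectrum.four_le_index_commutator S.isPGroup' hab
      have e1 := Subgroup.card_mul_index (commutator (S : Subgroup G))
      have e2 := Subgroup.card_mul_index D
      have hpos : 0 < Nat.card (commutator (S : Subgroup G)) := Nat.card_pos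
      refine le_antisymm ?_ hge
      have h1 : Nat.card (commutator (S : Subgroup G)) * (commutator (S : Subgroup G)).index ≤
          Nat.card (commutator (S : Subgroup G)) * 4 := by
        rw [e1, ← e2, mul_comm (Nat.card D)]
        exact Nat.mul_le_mul hcls hDcard
      exact Nat.le_of_mul_le_mul_left h1 hpos
    rcases CfsgLib.TwoGroups.taussky S.isPGroup' h4 with h | h | h | ⟨n, hn, ⟨e⟩⟩ | h
    · exact absurd IsKleinFour.isMulCommutative hab
    · exact absurd IsCyclic.isMulCommutative hab
    · exact Or.inl h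
    · exfalso
      apply hune
      haveI : NeZero (2 ^ n) := ⟨pow_ne_zero _ two_ne_zero⟩
      apply e.injective
      have hm : 2 ≤ 2 ^ n := by
        calc (2 : ℕ) = 2 ^ 1 := rfl
          _ ≤ 2 ^ n := Nat.pow_le_pow_right two_pos hn
      rw [CfsgLib.Involutions.quaternion_eq_of_orderOf_two (e uS) (by rw [MulEquiv.orderOf_eq, huo]),
        CfsgLib.Involutions.quaternion_eq_of_orderOf_two (e tS) (by rw [MulEquiv.orderOf_eq, hto])]
    · exact Or.inr h

end CfsgLib.SchurExt.SelfCentInvolution
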