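/-
Derived lengths of `p`-subgroups of wreath products `A ≀ Sym(α)` with `A` abelian.
-/
import Cfsg.Agent.Lib.Classes.DerivedWreath

set_option autoImplicit false

open scoped commutatorElement

namespace CfsgLib.SchurExt

open CfsgLib.Classes.DerivedWreath

variable {G : Type*} [Group G] {p : ℕ} [hp : Fact p.Prime]

/-- A subgroup of index at most `p ^ a` in a `p`-group contains the `a`-th derived subgroup. -/
theorem dser_le_of_card_le_prime [Finite G] : ∀ (a : ℕ) (S K : Subgroup G), IsPGroup p S → K ≤ S →
    Nat.card S ≤ p ^ a * Nat.card K → dser S a ≤ K := by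
  intro a
  induction a with
  | zero =>
    intro S K _ hKS hc
    rw [pow_zero, one_mul] at hc
    exact (Subgroup.eq_of_le_of_card_ge hKS hc).ge
  | succ a ih =>
    intro S K hS hKS hc
    by_cases hle : Nat.card S ≤ p ^ a * Nat.card K
    · exact (dser_antitone S (Nat.le_succ a)).trans (ih S K hS hKS hle)
    obtain ⟨s, hs⟩ := IsPGroup.iff_card.mp hS
    obtain ⟨k, hk⟩ := IsPGroup.iff_card.mp (hS.to_le hKS)
    rw [hs, hk, ← pow_add] at hc hle
    have hsk1 := (Nat.pow_le_pow_iff_right hp.out.one_lt).mp hc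
    have hsk2 : ¬ s ≤ a + k := fun h => hle (Nat.pow_le_pow_right hp.out.pos h)
    obtain ⟨M, hM, hKM⟩ := Sylow.exists_subgroup_card_pow_prime_le (p := p) (G := S) (m := s - 1) (n := k)
      (by rw [hs]; exact pow_dvd_pow p (Nat.sub_le s 1)) (K.subgroupOf S)
      (by rw [Nat.card_congr (Subgroup.subgroupOfEquivOfLe hKS).toEquiv, hk]) (by omega)
    have hidx : M.index = p := by
      have h := M.card_mul_index
      rw [hM, hs, show s = s - 1 + 1 by omega, pow_succ, Nat.add_sub_cancel] at h
      exact Nat.eq_of_mul_eq_mul_left (pow_pos hp.out.pos _) h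
    haveI : M.Normal := Subgroup.normal_of_index_eq_minFac_card (by
      rw [hidx, hs, Nat.pow_minFac (by omega), hp.out.minFac_eq])
    have hcomm : commutator S ≤ M := by
      haveI : IsCyclic (S ⧸ M) := isCyclic_of_prime_card (p := p) hidx
      rw [commutator_def, Subgroup.commutator_le]
      intro x _ y _
      rw [← QuotientGroup.eq_one_iff]
      show QuotientGroup.mk' M ⁅x, y⁆ = 1
      rw [map_commutatorElement, commutatorElement_eq_one_iff_mul_comm]
      exact IsCyclic.commutative.is_comm.comm _ _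
    set M' := M.map S.subtype with hM'
    have h1 : dser S 1 ≤ M' := by
      rw [← map_subtype_derivedSeries, derivedSeries_one]
      exact Subgroup.map_mono hcomm
    have hKM' : K ≤ M' := fun x hx => ⟨⟨x, hKS hx⟩, hKM hx, rfl⟩
    have hM'S : M' ≤ S := Subgroup.map_subtype_le M
    have hcM : Nat.card M' = p ^ (s - 1) := by
      rw [hM', Subgroup.card_map_of_injective S.subtype_injective, hM]
    rw [show a + 1 = 1 + a by omega, dser_add]
    refine (dser_mono h1 a).trans (ih M' K (hS.to_le hM'S) hKM' ?_)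
    rw [hcM, hk, ← pow_add]
    exact Nat.pow_le_pow_right hp.out.pos (by omega)

/-- A `p`-group of permutations of fewer than `p ^ (a + 1)` points has derived length at most `a`. -/
theorem dser_perm_eq_bot_prime {α : Type*} [Finite α] (S : Subgroup (Equiv.Perm α)) (hS : IsPGroup p S)
    {a : ℕ} (ha : Nat.card α < p ^ (a + 1)) : dser S a = ⊥ := by
  rw [eq_bot_iff]
  intro σ hσ
  rw [Subgroup.mem_bot]
  ext ω
  set St := MulAction.stabilizer S ω with hSt
  set K := St.map S.subtype with hK
  suffices h : dser S a ≤ K by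
    obtain ⟨g, hg, rfl⟩ := h hσ
    exact hg
  refine dser_le_of_card_le_prime a S K hS (Subgroup.map_subtype_le St) ?_
  rw [hK, Subgroup.card_map_of_injective S.subtype_injective, ← St.card_mul_index, mul_comm]
  refine Nat.mul_le_mul_right _ ?_
  obtain ⟨b, hb⟩ := hS.index St
  rw [hb]
  refine Nat.pow_le_pow_right hp.out.pos (Nat.lt_succ_iff.mp ((Nat.pow_lt_pow_iff_right hp.out.one_lt).mp ?_))
  refine lt_of_le_of_lt ?_ ha
  rw [← hb, hSt, MulAction.index_stabilizer]
  exact (Set.ncard_le_ncard (Set.subset_univ _)).trans (by rw [Set.ncard_univ])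

variable {Q : Type*} [CommGroup Q] {α : Type*}

/-- A `p`-subgroup of `A ≀ Sym(α)` has derived length at most `1 + log_p |α|`. -/
theorem dser_wr_eq_bot_prime [Finite α] {a : ℕ} (ha : Nat.card α < p ^ (a + 1))
    (P : Subgroup (Wr Q α)) (hP : IsPGroup p P) : dser P (a + 1) = ⊥ := by
  set R : Wr Q α →* Equiv.Perm α := SemidirectProduct.rightHom with hR
  have h1 : (dser P a).map R = ⊥ := by
    rw [map_dser]
    exact dser_perm_eq_bot_prime _ (hP.map R) ha
  have hker : ∀ x ∈ dser P a, x.right = 1 := fun x hx => (Subgroup.map_eq_bot_iff _).mp h1 hx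
  rw [eq_bot_iff]
  refine Subgroup.commutator_le.mpr fun x hx y hy => ?_
  rw [Subgroup.mem_bot, commutatorElement_eq_one_iff_mul_comm]
  refine SemidirectProduct.ext ?_ ?_
  · rw [SemidirectProduct.mul_left, SemidirectProduct.mul_left, hker x hx, hker y hy, map_one]
    exact mul_comm _ _
  · rw [SemidirectProduct.mul_right, SemidirectProduct.mul_right, hker x hx, hker y hy]

/-- Conjugation by a permutation moves the support. -/
theorem conj_inr_mem_supp {ρ : Equiv.Perm α} {s t : Set α} (h : ∀ i ∈ s, ρ i ∈ t) {x : Wr Q α}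
    (hx : x ∈ supp s) :
    SemidirectProduct.inr ρ * x * (SemidirectProduct.inr ρ)⁻¹ ∈ supp t := by
  intro i hi
  have hs : ρ.symm i ∉ s := fun h' => hi (by simpa using h _ h')
  rw [← map_inv]
  constructor
  · simp only [SemidirectProduct.mul_left, SemidirectProduct.mul_right, SemidirectProduct.left_inr,
      SemidirectProduct.right_inr, map_one, mul_one, one_mul]
    rw [permCoord_apply]
    exact (hx _ hs).1
  · simp only [SemidirectProduct.mul_right, SemidirectProduct.right_inr, Equiv.Perm.mul_apply]
    show ρ (x.right (ρ.symm i)) = i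
    rw [(hx _ hs).2, Equiv.apply_symm_apply]

theorem supp_mono {s t : Set α} (h : s ⊆ t) : supp (Q := Q) s ≤ supp t :=
  fun _ hx i hi => hx i fun h' => hi (h h')

/-- Long derived series in `A ≀ Sym(α)` supported on a set of `p ^ j` points. -/
theorem exists_dser_ne_bot_prime [Finite Q] [Finite α] (T : Subgroup Q) (hT : IsPGroup p T) (hTne : T ≠ ⊥) :
    ∀ (j : ℕ) (s : Finset α), p ^ j ≤ s.card → ∃ S : Subgroup (Wr Q α),
      IsPGroup p S ∧ S ≤ supp (s : Set α) ∧ dser S j ≠ ⊥ := by
  classical
  intro j
  induction j with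
  | zero =>
    intro s hs
    obtain ⟨i, hi⟩ := Finset.card_pos.mp (show 0 < s.card by simpa using hs)
    let f : Q →* Wr Q α := (SemidirectProduct.inl).comp (MonoidHom.mulSingle (fun _ : α => Q) i)
    refine ⟨T.map f, hT.map f, ?_, ?_⟩
    · rintro - ⟨x, -, rfl⟩ k hk
      have hki : k ≠ i := fun e => hk (e ▸ Finset.mem_coe.mpr hi)
      exact ⟨by simp [f, hki], by simp [f]⟩
    · have hf : Function.Injective f := fun x y h => by
        have := congrFun (congrArg SemidirectProduct.left h) i
        simpa [f] using this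
      show T.map f ≠ ⊥
      rw [Ne, Subgroup.map_eq_bot_iff_of_injective _ hf]
      exact hTne
  | succ j ih =>
    intro s hs
    haveI : NeZero p := ⟨hp.out.ne_zero⟩
    have hle : Fintype.card (ZMod p × Fin (p ^ j)) ≤ Fintype.card s := by
      rw [Fintype.card_prod, ZMod.card, Fintype.card_fin, Fintype.card_coe, ← pow_succ']
      exact hs
    obtain ⟨ι₀⟩ := Function.Embedding.nonempty_of_card_le hle
    let ι : ZMod p × Fin (p ^ j) ↪ α := ι₀.trans (Function.Embedding.subtype _)
    have hιs : ∀ z, ι z ∈ s := fun z => (ι₀ z).2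
    let blk : ZMod p → Finset α := fun c => Finset.univ.map ⟨fun i => ι (c, i), fun i i' h => by
      simpa using ι.injective h⟩
    have hblk : ∀ c i, i ∈ blk c ↔ ∃ f, ι (c, f) = i := fun c i => by simp only [blk, Finset.mem_map, Finset.mem_univ, true_and]; rfl
    have hblks : ∀ c, (blk c : Set α) ⊆ s := by
      intro c i hi
      obtain ⟨f, rfl⟩ := (hblk c i).1 hi
      exact hιs _
    set u : Set α := (blk 0 : Set α) with hu_def
    set v : Set α := {i | ∃ c, c ≠ 0 ∧ i ∈ blk c} with hv_def
    have huv : Disjoint u v := Set.disjoint_left.mpr fun i hi ⟨c, hc, hi'⟩ => by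
      obtain ⟨f, hf⟩ := (hblk 0 i).1 hi
      obtain ⟨f', hf'⟩ := (hblk c i).1 hi'
      exact hc (congrArg Prod.fst (ι.injective (hf'.trans hf.symm)))
    obtain ⟨S₀, hS₀, hS₀u, hS₀d⟩ := ih (blk 0) (by simp [blk])
    -- the cyclic shift of the blocks
    let shift : ℕ → Equiv.Perm (ZMod p × Fin (p ^ j)) := fun m =>
      Equiv.prodCongr (Equiv.addRight (m : ZMod p)) (Equiv.refl _)
    have hshift : ∀ m, shift 1 ^ m = shift m := by
      intro m
      induction m with
      | zero => ext z <;> simp [shift]
      | succ m ihm =>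
        rw [pow_succ', ihm]
        ext z <;> simp [shift, add_assoc]
    let e : Equiv.Perm (ZMod p × Fin (p ^ j)) →* Wr Q α :=
      SemidirectProduct.inr.comp (Equiv.Perm.viaEmbeddingHom ι)
    set τ : Wr Q α := e (shift 1) with hτ
    have hτp : τ ^ p = 1 := by
      rw [hτ, ← map_pow, hshift, show shift p = 1 by ext z <;> simp [shift], map_one]
    have hperm : ∀ m c f, (Equiv.Perm.viaEmbeddingHom ι (shift m)) (ι (c, f)) = ι (c + (m : ZMod p), f) := by
      intro m c f
      show (shift m).viaEmbedding ι (ι (c, f)) = _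
      rw [Equiv.Perm.viaEmbedding_apply]
      rfl
    have hmove : ∀ (m : ℕ) (c : ZMod p) (x : Wr Q α), x ∈ supp (blk c : Set α) →
        τ ^ m * x * (τ ^ m)⁻¹ ∈ supp (blk (c + m) : Set α) := by
      intro m c x hx
      rw [hτ, ← map_pow, hshift]
      refine conj_inr_mem_supp (fun i hi => ?_) hx
      obtain ⟨f, rfl⟩ := (hblk c i).1 hi
      rw [hperm]
      exact (hblk _ _).2 ⟨f, rfl⟩
    let Si : ℕ → Subgroup (Wr Q α) := fun m => S₀.map (MulAut.conj (τ ^ m)).toMonoidHom
    let N : ℕ → Subgroup (Wr Q α) := fun m =>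
      Nat.recOn (motive := fun _ => Subgroup (Wr Q α)) m ⊥ (fun m N => Si m ⊔ N)
    have hN0 : N 0 = ⊥ := rfl
    have hNs : ∀ m, N (m + 1) = Si m ⊔ N m := fun m => rfl
    have hSi : ∀ m, Si m ≤ supp (blk (m : ZMod p) : Set α) := by
      rintro m _ ⟨x, hx, rfl⟩
      have := hmove m 0 x (hS₀u hx)
      rwa [zero_add] at this
    have hNle : ∀ m, N m ≤ supp {i | ∃ l < m, i ∈ blk (l : ZMod p)} := by
      intro m
      induction m with
      | zero => rw [hN0]; exact bot_le
      | succ m ihm =>
        rw [hNs]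
        refine sup_le ((hSi m).trans (supp_mono fun i hi => ⟨m, Nat.lt_succ_self m, hi⟩))
          (ihm.trans (supp_mono ?_))
        rintro i ⟨l, hl, hi⟩
        exact ⟨l, Nat.lt_succ_of_lt hl, hi⟩
    have hNp : ∀ m : ℕ, m ≤ p → IsPGroup p ↥(N m) := by
      intro m
      induction m with
      | zero => intro _; rw [hN0]; exact IsPGroup.of_bot
      | succ m ihm =>
        intro hm
        rw [hNs]
        refine IsPGroup.to_sup_of_normal_right' (hS₀.map _) (ihm (by omega)) fun x hx =>
          Subgroup.centralizer_le_normalizer _ (Subgroup.mem_centralizer_iff.mpr fun y hy => ?_)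
        refine (supp_comm ?_ (hSi m hx) (hNle m hy)).symm
        refine Set.disjoint_left.mpr fun i hi ⟨l, hl, hi'⟩ => ?_
        obtain ⟨f, hf⟩ := (hblk _ i).1 hi
        obtain ⟨f', hf'⟩ := (hblk _ i).1 hi'
        have hlm : (l : ZMod p) = (m : ZMod p) := congrArg Prod.fst (ι.injective (hf'.trans hf.symm))
        rw [ZMod.natCast_eq_natCast_iff', Nat.mod_eq_of_lt (by omega), Nat.mod_eq_of_lt (by omega)] at hlm
        omega
    have hSiN : ∀ m l, l < m → Si l ≤ N m := by
      intro m
      induction m with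
      | zero => intro l hl; omega
      | succ m ihm =>
        intro l hl
        rw [hNs]
        rcases Nat.lt_or_eq_of_le (Nat.lt_succ_iff.1 hl) with h | h
        · exact (ihm l h).trans le_sup_right
        · subst h; exact le_sup_left
    have hS0N : S₀ ≤ N p := fun x hx => hSiN p 0 hp.out.pos ⟨x, hx, by simp⟩
    have hτN : (N p).map (MulAut.conj τ).toMonoidHom ≤ N p := by
      have : ∀ m ≤ p, (N m).map (MulAut.conj τ).toMonoidHom ≤ N p := by
        intro m
        induction m with
        | zero => intro _; rw [hN0, Subgroup.map_bot]; exact bot_le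
        | succ m ihm =>
          intro hm
          rw [hNs, Subgroup.map_sup]
          refine sup_le ?_ (ihm (by omega))
          rintro _ ⟨_, ⟨x, hx, rfl⟩, rfl⟩
          rcases Nat.lt_or_eq_of_le hm with h | h
          · refine hSiN p (m + 1) h ⟨x, hx, ?_⟩
            simp [MulAut.conj_apply, pow_succ', mul_assoc]
          · refine hS0N ?_
            have hτm : τ ^ m = τ⁻¹ := eq_inv_of_mul_eq_one_right (by rw [← pow_succ', ← Nat.succ_eq_add_one, show m.succ = p from h, hτp])
            simpa [MulAut.conj_apply, hτm, mul_assoc] using hx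
      exact this p le_rfl
    have hτmem : τ ∈ Subgroup.normalizer ((N p : Subgroup (Wr Q α)) : Set (Wr Q α)) := by
      have heq : (N p).map (MulAut.conj τ).toMonoidHom = N p :=
        Subgroup.eq_of_le_of_card_ge hτN (by
          rw [Subgroup.card_map_of_injective (MulEquiv.injective _)])
      rw [Subgroup.mem_normalizer_iff]
      intro g
      conv_rhs => rw [← heq]
      exact ⟨fun hg => ⟨g, hg, rfl⟩, fun ⟨g', hg', h⟩ => by
        have := (MulAut.conj τ).injective (h : MulAut.conj τ g' = MulAut.conj τ g)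
        rwa [← this]⟩
    set S := Subgroup.zpowers τ ⊔ N p with hS
    have hτord : IsPGroup p (Subgroup.zpowers τ) := by
      obtain ⟨m, -, hm⟩ := (Nat.dvd_prime_pow hp.out).1
        (by rw [pow_one]; exact orderOf_dvd_of_pow_eq_one hτp : orderOf τ ∣ p ^ 1)
      exact IsPGroup.of_card (n := m) (by rw [Nat.card_zpowers, hm])
    refine ⟨S, IsPGroup.to_sup_of_normal_right' hτord (hNp p le_rfl) (Subgroup.zpowers_le.2 hτmem),
      ?_, ?_⟩
    · refine sup_le (Subgroup.zpowers_le.2 fun i hi => ⟨rfl, ?_⟩) ((hNle p).trans (supp_mono ?_))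
      · show (shift 1).viaEmbedding ι i = i
        apply Equiv.Perm.viaEmbedding_apply_of_notMem
        rintro ⟨z, rfl⟩
        exact hi (hιs z)
      · rintro i ⟨l, -, hi⟩
        exact hblks _ hi
    · set Y : Subgroup (Wr Q α) := supp v with hY
      have hc01 : ∀ x ∈ S₀, ∀ y ∈ Y, x * y = y * x := fun x hx y hy => supp_comm huv (hS₀u hx) hy
      have key : ∀ i, ∀ x ∈ dser S₀ i, ∃ y ∈ Y, x * y ∈ dser S (i + 1) := by
        intro i
        induction i with
        | zero =>
          intro x hx
          refine ⟨τ * x⁻¹ * τ⁻¹, ?_, ?_⟩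
          · have := hmove 1 0 x⁻¹ (hS₀u (S₀.inv_mem hx))
            rw [pow_one, zero_add] at this
            refine supp_mono (t := v) ?_ this
            intro i hi
            exact ⟨((1 : ℕ) : ZMod p), by simp, hi⟩
          · rw [show x * (τ * x⁻¹ * τ⁻¹) = ⁅x, τ⁆ by rw [commutatorElement_def]; group]
            exact Subgroup.commutator_mem_commutator ((le_sup_right : N p ≤ S) (hS0N hx))
              ((le_sup_left : _ ≤ S) (Subgroup.mem_zpowers τ))
        | succ i ihi =>
          let L : Subgroup (Wr Q α) :=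
            { carrier := {x | x ∈ S₀ ∧ ∃ y ∈ Y, x * y ∈ dser S (i + 2)}
              one_mem' := ⟨S₀.one_mem, 1, Y.one_mem, by rw [one_mul]; exact one_mem _⟩
              mul_mem' := by
                rintro a c ⟨ha, y, hy, h⟩ ⟨hc, y', hy', h'⟩
                refine ⟨S₀.mul_mem ha hc, y * y', Y.mul_mem hy hy', ?_⟩
                rw [show a * c * (y * y') = a * y * (c * y') by
                  rw [mul_assoc a c, ← mul_assoc c y, hc01 c hc y hy]; simp only [mul_assoc]]
                exact mul_mem h h'
              inv_mem' := by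
                rintro a ⟨ha, y, hy, h⟩
                refine ⟨S₀.inv_mem ha, y⁻¹, Y.inv_mem hy, ?_⟩
                rw [show a⁻¹ * y⁻¹ = (a * y)⁻¹ by rw [hc01 a ha y hy, mul_inv_rev]]
                exact inv_mem h }
          have hL : dser S₀ (i + 1) ≤ L := by
            refine Subgroup.commutator_le.mpr fun a ha c hc => ?_
            obtain ⟨y, hy, h⟩ := ihi a ha
            obtain ⟨y', hy', h'⟩ := ihi c hc
            have ha' := dser_le S₀ i ha
            have hc' := dser_le S₀ i hc
            refine ⟨?_, ⁅y, y'⁆, ?_, ?_⟩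
            · rw [commutatorElement_def]
              exact mul_mem (mul_mem (mul_mem ha' hc') (inv_mem ha')) (inv_mem hc')
            · rw [commutatorElement_def]
              exact mul_mem (mul_mem (mul_mem hy hy') (inv_mem hy)) (inv_mem hy')
            have heq : ⁅a, c⁆ * ⁅y, y'⁆ = ⁅a * y, c * y'⁆ := by
              have C : ∀ b ∈ S₀, ∀ z ∈ Y, Commute b z := fun b hb z hz => hc01 b hb z hz
              have c1 : Commute a y := C a ha' y hy
              have c2 : Commute c y' := C c hc' y' hy'
              have hyy : y * y' * y⁻¹ ∈ Y := mul_mem (mul_mem hy hy') (inv_mem hy)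
              calc ⁅a, c⁆ * ⁅y, y'⁆ = a * c * (a⁻¹ * c⁻¹ * (y * y' * y⁻¹)) * y'⁻¹ := by
                    simp only [commutatorElement_def, mul_assoc]
                _ = a * c * ((y * y' * y⁻¹) * (a⁻¹ * c⁻¹)) * y'⁻¹ := by
                    rw [(C _ (mul_mem (inv_mem ha') (inv_mem hc')) _ hyy).eq]
                _ = a * (c * y) * y' * (y⁻¹ * a⁻¹) * (c⁻¹ * y'⁻¹) := by simp only [mul_assoc]
                _ = a * (y * c) * y' * (a⁻¹ * y⁻¹) * (c⁻¹ * y'⁻¹) := by
                    rw [(C c hc' y hy).eq, (C _ (inv_mem ha') _ (inv_mem hy)).eq]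
                _ = ⁅a * y, c * y'⁆ := by
                    rw [commutatorElement_def, mul_inv_rev, mul_inv_rev,
                      ← (C _ (inv_mem ha') _ (inv_mem hy)).eq, ← (C _ (inv_mem hc') _ (inv_mem hy')).eq]
                    simp only [mul_assoc]
            rw [heq]
            exact Subgroup.commutator_mem_commutator h h'
          intro x hx
          exact (hL hx).2
      intro hbot
      obtain ⟨x, hx, hx1⟩ := (dser S₀ j).bot_or_exists_ne_one.resolve_left hS₀d
      obtain ⟨y, hy, hxy⟩ := key _ x hx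
      rw [hbot, Subgroup.mem_bot] at hxy
      have hxv : x ∈ supp (Q := Q) v := by
        rw [eq_inv_of_mul_eq_one_left hxy]; exact inv_mem hy
      have : x ∈ supp (Q := Q) u ⊓ supp v := ⟨hS₀u (dser_le _ _ hx), hxv⟩
      rw [supp_inf huv, Subgroup.mem_bot] at this
      exact hx1 this

end CfsgLib.SchurExt
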